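import Mathlib
import Cfsg.Prelude.Def_Sporadic_a
import Cfsg.Prelude.Def_SporadicCombinatorics
import Cfsg.Agent.Lib.Helper92.Pairs

/-!
Monomial automorphisms of the rank-24 lattice fixing prescribed coordinates: existence of
coordinate permutations from the group of the code and of sign changes on code words moving one
minimal vector to another while fixing a short list of coordinates.
-/

set_option autoImplicit false

namespace Cfsg.Agent.Lib.Helper92.MaxMono

open Cfsg Cfsg.Agent.Lib.Helper92.LeechCore Cfsg.Agent.Lib.Helper92.MinVec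
open Cfsg.Agent.Lib.Helper92.LeechGen
open Cfsg.Agent.Lib.Helper92.Co0Orbit Cfsg.Agent.Lib.Helper92.Orbit48
open Cfsg.Agent.Lib.Helper92.ActQ Cfsg.Agent.Lib.Helper92.Frames Cfsg.Agent.Lib.Helper92.Pairs
open Cfsg.Agent.S5546
open Cfsg.Agent.Lib.Helper7.GolayBase Cfsg.Agent.Lib.Helper7.M24Main
open Cfsg.Agent.Lib.Helper7.GolayCode Cfsg.Agent.Lib.Helper7.M24Mem
open Cfsg.Agent.Lib.Helper7.M24Octad
open Cfsg.Agent.Lib.Helper93.Monomial
open scoped Pointwise

/-- A monomial automorphism as an element of the automorphism group. -/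
noncomputable def mono (σ : Equiv.Perm GolayPt) (hσ : σ ∈ M24) (C : Finset GolayPt)
    (hC : IsCW C) : ↥Co0 :=
  ⟨monoEquiv σ hσ C hC, monoEquiv_mem_Co0 σ hσ C hC⟩

theorem mono_val (σ : Equiv.Perm GolayPt) (hσ : σ ∈ M24) (C : Finset GolayPt) (hC : IsCW C)
    (v : ↥leechLattice) :
    ((mono σ hσ C hC • v : ↥leechLattice) : GolayPt → ℤ) = signedPerm σ C v := rfl

theorem mono_c0 (σ : Equiv.Perm GolayPt) (hσ : σ ∈ M24) (C : Finset GolayPt) (hC : IsCW C) :
    mono σ hσ C hC • c0 = c0 :=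
  (stab_iff _).mpr (fun v hv => Cfsg.Agent.S1571.mono_stab σ hσ C hC v hv)

/-- A monomial map fixing the coordinates of `F` fixes every vector supported on `F`. -/
theorem signedPerm_fix (σ : Equiv.Perm GolayPt) (C : Finset GolayPt) (F : List GolayPt)
    (hσ : ∀ i ∈ F, σ i = i) (hC : ∀ i ∈ F, i ∉ C) (x : GolayPt → ℤ)
    (hx : ∀ i, i ∉ F → x i = 0) : signedPerm σ C x = x := by
  funext i
  unfold signedPerm
  by_cases hi : i ∈ F
  · have h1 : σ.symm i = i := by
      rw [Equiv.symm_apply_eq]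
      exact (hσ i hi).symm
    rw [if_neg (hC i hi), h1]
  · have h1 : σ.symm i ∉ F := by
      intro h
      have h2 := hσ _ h
      rw [Equiv.apply_symm_apply] at h2
      exact hi (h2 ▸ h)
    rw [hx _ h1, hx i hi]
    simp

theorem mem_inv_smul (g : Equiv.Perm GolayPt) (s : Finset GolayPt) (i : GolayPt) :
    i ∈ g⁻¹ • s ↔ g i ∈ s := by
  rw [Finset.mem_inv_smul_finset_iff]
  rfl

/-! ### Separating code words -/

/-- Code words avoiding the first `k` base points and containing the next one. -/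
def sepMask : ℕ → ℕ
  | 0 => 16777215
  | 1 => 5279
  | 2 => 10558
  | 3 => 21116
  | _ => 42232

theorem sepMask_code : ∀ k < 5, inCode (sepMask k) = true := by decide +kernel

theorem sepMask_avoid : ∀ k < 5, ∀ b ∈ base5.take k, (sepMask k).testBit b = false := by
  decide +kernel

theorem sepMask_mem : ∀ k < 5, (sepMask k).testBit (base5.getD k 0) = true := by decide +kernel

theorem base5_lt : ∀ b ∈ base5, b < 24 := by decide

theorem take_succ_base5 : ∀ k < 5, base5.take (k + 1) = base5.take k ++ [base5.getD k 0] := by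
  decide

/-- Splitting the image of a list with one more point under a base-point map. -/
theorem split_map (F : List GolayPt) (j : GolayPt) (g : Equiv.Perm GolayPt)
    (hlen : F.length < 5)
    (hmap : (F ++ [j]).map g = (base5.take (F ++ [j]).length).map pt) :
    F.map g = (base5.take F.length).map pt ∧ g j = pt (base5.getD F.length 0) := by
  rw [List.length_append, List.length_singleton, take_succ_base5 _ hlen, List.map_append,
    List.map_append] at hmap
  have h := List.append_inj hmap (by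
    rw [List.length_map, List.length_map, List.length_take]
    have : base5.length = 5 := rfl
    omega)
  refine ⟨h.1, ?_⟩
  simpa using h.2

/-- A code word avoiding a list of at most four points and containing a further point. -/
theorem cw_sep (F : List GolayPt) (j : GolayPt) (hnd : (F ++ [j]).Nodup) (hlen : F.length ≤ 4) :
    ∃ C, IsCW C ∧ (∀ i ∈ F, i ∉ C) ∧ j ∈ C := by
  obtain ⟨g, hg, hmap⟩ := exists_map_base5 (F ++ [j]) hnd (by
    rw [List.length_append, List.length_singleton]; omega)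
  have hk : F.length < 5 := by omega
  obtain ⟨h1, h2⟩ := split_map F j g hk hmap
  refine ⟨g⁻¹ • mk (sepMask F.length),
    smul_mem_supports (M24.inv_mem hg) (mk_mem_supports (inCode_sound (sepMask_code _ hk))),
    ?_, ?_⟩
  · intro i hi
    rw [mem_inv_smul, mem_mk]
    have h3 : g i ∈ F.map g := List.mem_map_of_mem hi
    rw [h1, List.mem_map] at h3
    obtain ⟨b, hb, hbi⟩ := h3
    rw [← hbi, idx_pt (base5_lt b (List.mem_of_mem_take hb)), sepMask_avoid _ hk b hb]
    simp
  · rw [mem_inv_smul, mem_mk, h2]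
    have hb : base5.getD F.length 0 < 24 := by
      have : ∀ k < 5, base5.getD k 0 < 24 := by decide
      exact this _ hk
    rw [idx_pt hb]
    exact sepMask_mem _ hk

/-- Moving one point to another by an element of the group of the code fixing a list of at
most four points, with a sign change avoiding the list and prescribed at the image point. -/
theorem move_single (F : List GolayPt) (j j' : GolayPt) (hnd : (F ++ [j]).Nodup)
    (hnd' : (F ++ [j']).Nodup) (hlen : F.length ≤ 4) (P : Prop) :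
    ∃ σ, ∃ _ : σ ∈ M24, ∃ C, ∃ _ : IsCW C,
      (∀ i ∈ F, σ i = i) ∧ (∀ i ∈ F, i ∉ C) ∧ σ j = j' ∧ (j' ∈ C ↔ P) := by
  have hk : F.length < 5 := by omega
  obtain ⟨g1, hg1, hmap1⟩ := exists_map_base5 (F ++ [j]) hnd (by
    rw [List.length_append, List.length_singleton]; omega)
  obtain ⟨g2, hg2, hmap2⟩ := exists_map_base5 (F ++ [j']) hnd' (by
    rw [List.length_append, List.length_singleton]; omega)
  obtain ⟨a1, a2⟩ := split_map F j g1 hk hmap1
  obtain ⟨b1, b2⟩ := split_map F j' g2 hk hmap2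
  have hF : ∀ i ∈ F, g1 i = g2 i := by
    have h := a1.trans b1.symm
    exact fun i hi => List.map_inj_left.mp h i hi
  have hσ : g2⁻¹ * g1 ∈ M24 := M24.mul_mem (M24.inv_mem hg2) hg1
  have hfix : ∀ i ∈ F, (g2⁻¹ * g1) i = i := by
    intro i hi
    rw [Equiv.Perm.mul_apply, hF i hi]
    simp
  have hj : (g2⁻¹ * g1) j = j' := by
    rw [Equiv.Perm.mul_apply, a2, ← b2]
    simp
  by_cases hP : P
  · obtain ⟨C, hC, c1, c2⟩ := cw_sep F j' hnd' hlen
    exact ⟨g2⁻¹ * g1, hσ, C, hC, hfix, c1, hj, by simp [hP, c2]⟩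
  · exact ⟨g2⁻¹ * g1, hσ, ∅, empty_mem, hfix, fun i _ => by simp, hj, by simp [hP]⟩

/-! ### Moving octads -/

theorem exists_list (s : Finset GolayPt) (n : ℕ) (hn : n ≤ s.card) :
    ∃ X : List GolayPt, X.Nodup ∧ X.length = n ∧ ∀ x ∈ X, x ∈ s := by
  obtain ⟨t, hts, ht⟩ := Finset.exists_subset_card_eq hn
  exact ⟨t.toList, t.nodup_toList, by rw [Finset.length_toList, ht],
    fun x hx => hts (Finset.mem_toList.mp hx)⟩

theorem extend_list (F : List GolayPt) (hF : F.Nodup) (hlen : F.length ≤ 5) {O : Finset GolayPt}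
    (hO : O ∈ octads) :
    ∃ X : List GolayPt, (F ++ X).Nodup ∧ (F ++ X).length = 5 ∧ ∀ x ∈ X, x ∈ O := by
  have h8 : O.card = 8 := hO.2
  have h1 : 5 - F.length ≤ (O \ F.toFinset).card := by
    have h3 := Finset.le_card_sdiff F.toFinset O
    have h2 : F.toFinset.card ≤ F.length := List.toFinset_card_le F
    omega
  obtain ⟨X, hX1, hX2, hX3⟩ := exists_list _ _ h1
  refine ⟨X, ?_, ?_, ?_⟩
  · rw [List.nodup_append]
    refine ⟨hF, hX1, ?_⟩
    intro x hx y hy hxy
    have h4 := (Finset.mem_sdiff.mp (hX3 y hy)).2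
    rw [List.mem_toFinset] at h4
    exact h4 (hxy ▸ hx)
  · rw [List.length_append, hX2]
    omega
  · intro x hx
    exact (Finset.mem_sdiff.mp (hX3 x hx)).1

/-- The group of the code, fixing at most five points of two octads, moves one to the other. -/
theorem move_octad (F : List GolayPt) (hF : F.Nodup) (hlen : F.length ≤ 5)
    {O O' : Finset GolayPt} (hO : O ∈ octads) (hO' : O' ∈ octads) (hFO : ∀ i ∈ F, i ∈ O)
    (hFO' : ∀ i ∈ F, i ∈ O') : ∃ σ ∈ M24, (∀ i ∈ F, σ i = i) ∧ σ • O = O' := by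
  obtain ⟨X, hX1, hX2, hX3⟩ := extend_list F hF hlen hO
  obtain ⟨X', hX1', hX2', hX3'⟩ := extend_list F hF hlen hO'
  obtain ⟨g1, hg1, hmap1⟩ := exists_map_base5 (F ++ X) hX1 (by omega)
  obtain ⟨g2, hg2, hmap2⟩ := exists_map_base5 (F ++ X') hX1' (by omega)
  rw [hX2] at hmap1
  rw [hX2'] at hmap2
  have h := hmap1.trans hmap2.symm
  rw [List.map_append, List.map_append] at h
  obtain ⟨h1, h2⟩ := List.append_inj h (by simp)
  have hFg : ∀ i ∈ F, g1 i = g2 i := fun i hi => List.map_inj_left.mp h1 i hi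
  have hσ : g2⁻¹ * g1 ∈ M24 := M24.mul_mem (M24.inv_mem hg2) hg1
  have hfix : ∀ i ∈ F, (g2⁻¹ * g1) i = i := by
    intro i hi
    rw [Equiv.Perm.mul_apply, hFg i hi]
    simp
  refine ⟨g2⁻¹ * g1, hσ, hfix, ?_⟩
  apply octad_unique (smul_mem_octads hσ hO) hO'
  have hsub : (F ++ X').toFinset ⊆ (g2⁻¹ * g1) • O ∩ O' := by
    intro x hx
    rw [List.mem_toFinset, List.mem_append] at hx
    rw [Finset.mem_inter]
    rcases hx with hx | hx
    · refine ⟨?_, hFO' x hx⟩
      have h3 : (g2⁻¹ * g1) • x ∈ (g2⁻¹ * g1) • O := Finset.smul_mem_smul_finset (hFO x hx)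
      rw [Equiv.Perm.smul_def, hfix x hx] at h3
      exact h3
    · refine ⟨?_, hX3' x hx⟩
      have h3 : g2 x ∈ X'.map g2 := List.mem_map_of_mem hx
      rw [← h2, List.mem_map] at h3
      obtain ⟨y, hy, hyx⟩ := h3
      have h4 : (g2⁻¹ * g1) y = x := by
        rw [Equiv.Perm.mul_apply, hyx]
        simp
      have h5 : (g2⁻¹ * g1) • y ∈ (g2⁻¹ * g1) • O := Finset.smul_mem_smul_finset (hX3 y hy)
      rw [Equiv.Perm.smul_def, h4] at h5
      exact h5
  calc 5 = (F ++ X').toFinset.card := by rw [List.toFinset_card_of_nodup hX1', hX2']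
    _ ≤ _ := Finset.card_le_card hsub

theorem tw_shape2 (O e e' C : Finset GolayPt) (he : e ⊆ O) (he' : e' ⊆ O)
    (hC : C ∩ O = symmDiff e e') : tw C (shape 2 O e) = shape 2 O e' := by
  funext i
  unfold tw shape
  have hi : i ∈ C ∧ i ∈ O ↔ (i ∈ e ∧ i ∉ e') ∨ (i ∈ e' ∧ i ∉ e) := by
    rw [← Finset.mem_inter, hC, Finset.mem_symmDiff]
  by_cases h1 : i ∈ O
  · by_cases h2 : i ∈ e <;> by_cases h3 : i ∈ e' <;> by_cases h4 : i ∈ C <;>
      simp [h1, h2, h3, h4] at hi ⊢
  · have h2 : i ∉ e := fun h => h1 (he h)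
    have h3 : i ∉ e' := fun h => h1 (he' h)
    simp [h1, h2, h3]

theorem perm_shape' (a : ℤ) (p e : Finset GolayPt) (σ : Equiv.Perm GolayPt) :
    (fun i => shape a p e (σ.symm i)) = shape a (σ • p) (σ • e) := by
  funext i
  unfold shape
  simp [mem_smul_iff']

/-- Monomial maps fixing a list of coordinates act transitively on the minimal vectors of
octad shape with prescribed values on the list (the list lying in the octads). -/
theorem trans_octad (F : List GolayPt) (hF : F.Nodup) (hlen : F.length ≤ 5)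
    {O e O' e' : Finset GolayPt} (hO : O ∈ octads) (he : e ⊆ O) (hev : Even e.card)
    (hO' : O' ∈ octads) (he' : e' ⊆ O') (hev' : Even e'.card) (hFO : ∀ i ∈ F, i ∈ O)
    (hFO' : ∀ i ∈ F, i ∈ O') (hFe : ∀ i ∈ F, (i ∈ e ↔ i ∈ e')) :
    ∃ σ, ∃ _ : σ ∈ M24, ∃ C, ∃ _ : IsCW C, (∀ i ∈ F, σ i = i) ∧ (∀ i ∈ F, i ∉ C) ∧
      signedPerm σ C (shape 2 O e) = shape 2 O' e' := by
  obtain ⟨σ, hσ, hfix, hσO⟩ := move_octad F hF hlen hO hO' hFO hFO'
  have he'' : σ • e ⊆ O' := by
    rw [← hσO]
    exact Finset.smul_finset_subset_smul_finset he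
  have hcard : (σ • e).card = e.card := Finset.card_smul_finset σ e
  have hD : symmDiff (σ • e) e' ⊆ O' := by
    intro i hi
    rw [Finset.mem_symmDiff] at hi
    rcases hi with h | h
    · exact he'' h.1
    · exact he' h.1
  have hDev : ∃ n, (symmDiff (σ • e) e').card = 2 * n := by
    have h1 := card_symmDiff_add (σ • e) e'
    rw [hcard] at h1
    obtain ⟨m, hm⟩ := hev
    obtain ⟨m', hm'⟩ := hev'
    exact ⟨m + m' - (σ • e ∩ e').card, by omega⟩
  obtain ⟨n, hn⟩ := hDev
  obtain ⟨C, hC, hCO⟩ := even_sub_octad hO' n _ hD hn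
  refine ⟨σ, hσ, C, hC, hfix, ?_, ?_⟩
  · intro i hi hiC
    have h1 : i ∈ C ∩ O' := Finset.mem_inter.mpr ⟨hiC, hFO' i hi⟩
    rw [hCO, Finset.mem_symmDiff] at h1
    have h2 : i ∈ σ • e ↔ i ∈ e := by
      rw [mem_smul_iff']
      have h3 : σ.symm i = i := by
        rw [Equiv.symm_apply_eq]
        exact (hfix i hi).symm
      rw [h3]
    rcases h1 with ⟨a, b⟩ | ⟨a, b⟩
    · exact b ((hFe i hi).mp (h2.mp a))
    · exact b (h2.mpr ((hFe i hi).mpr a))
  · show tw C (fun i => shape 2 O e (σ.symm i)) = shape 2 O' e'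
    rw [perm_shape', hσO]
    exact tw_shape2 O' (σ • e) e' C he'' he' hCO

theorem tw_comp (a b : Finset GolayPt) (x : GolayPt → ℤ) :
    tw a (tw b x) = tw (symmDiff a b) x := by
  funext i
  unfold tw
  by_cases h1 : i ∈ a <;> by_cases h2 : i ∈ b <;> simp [h1, h2, Finset.mem_symmDiff]

/-- Sign changes avoiding a list of coordinates relate two odd minimal vectors with the same
exceptional coordinate and the same signs on the list. -/
theorem trans_odd (F : List GolayPt) {c c' : Finset GolayPt} (hc : IsCW c) (hc' : IsCW c')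
    (j : GolayPt) (hF : ∀ i ∈ F, (i ∈ c ↔ i ∈ c')) :
    ∃ C, ∃ _ : IsCW C, (∀ i ∈ F, i ∉ C) ∧ signedPerm 1 C (tw c (w3 j)) = tw c' (w3 j) := by
  refine ⟨symmDiff c' c, symmDiff_mem hc' hc, ?_, ?_⟩
  · intro i hi h
    rw [Finset.mem_symmDiff] at h
    rcases h with ⟨a, b⟩ | ⟨a, b⟩
    · exact b ((hF i hi).mpr a)
    · exact b ((hF i hi).mp a)
  · rw [signedPerm_one, tw_comp]
    congr 1
    ext i
    simp only [Finset.mem_symmDiff]
    tauto

/-! ### Classes of minimal vectors with prescribed coordinates -/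

theorem single4_form {w : GolayPt → ℤ} (hw : w ∈ leechLattice) (hn : sqNorm w = 32)
    {a : GolayPt} {s : ℤ} (has : w a = s) (hs : s = 4 ∨ s = -4) :
    ∃ j t, j ≠ a ∧ (t = 4 ∨ t = -4) ∧ w = Pi.single a s + Pi.single j t := by
  rcases classify32 hw hn with ⟨p, e, hp, he, rfl⟩ | ⟨O', e, hO, hO8, he, hev, rfl⟩ |
    ⟨c, j, hc, rfl⟩
  · have hap : a ∈ p := by
      by_contra h
      have h0 : shape 4 p e a = 0 := by
        unfold shape
        rw [if_neg (fun h' => h (he h')), if_neg h]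
      omega
    obtain ⟨x, y, hxy, rfl⟩ := Finset.card_eq_two.mp hp
    have key : ∀ (j : GolayPt), a ≠ j → ({x, y} : Finset GolayPt) = {a, j} →
        ∃ j t, j ≠ a ∧ (t = 4 ∨ t = -4) ∧
          shape 4 {x, y} e = Pi.single a s + Pi.single j t := by
      intro j haj hpe
      refine ⟨j, shape 4 {x, y} e j, haj.symm, ?_, ?_⟩
      · unfold shape
        rw [hpe]
        by_cases h : j ∈ e <;> simp [h]
      · funext i
        rw [Pi.add_apply, Pi.single_apply, Pi.single_apply]
        by_cases h1 : i = a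
        · subst h1
          rw [if_pos rfl, if_neg haj, add_zero, has]
        · by_cases h2 : i = j
          · subst h2
            rw [if_neg h1, if_pos rfl, zero_add]
          · have h3 : i ∉ ({x, y} : Finset GolayPt) := by
              rw [hpe]
              simp [h1, h2]
            have h4 : i ∉ e := fun h => h3 (he h)
            rw [if_neg h1, if_neg h2]
            unfold shape
            rw [if_neg h4, if_neg h3]
            rfl
    rw [Finset.mem_insert, Finset.mem_singleton] at hap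
    rcases hap with rfl | rfl
    · exact key y hxy rfl
    · exact key x hxy.symm (Finset.pair_comm x a)
  · exfalso
    unfold shape at has
    split_ifs at has <;> omega
  · exfalso
    unfold tw w3 at has
    split_ifs at has <;> omega

/-- Minimal vectors with a coordinate `±4` in the list and zeros elsewhere on the list. -/
theorem class_single (F : List GolayPt) (hF : F.Nodup) (hlen : F.length ≤ 4) (a : GolayPt)
    (ha : a ∈ F) {w w' : GolayPt → ℤ} (hw : w ∈ leechLattice) (hn : sqNorm w = 32)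
    (hw' : w' ∈ leechLattice) (hn' : sqNorm w' = 32) {s : ℤ} (hs : s = 4 ∨ s = -4)
    (hwa : w a = s) (hwa' : w' a = s) (hz : ∀ i ∈ F, i ≠ a → w i = 0)
    (hz' : ∀ i ∈ F, i ≠ a → w' i = 0) :
    ∃ σ, ∃ _ : σ ∈ M24, ∃ C, ∃ _ : IsCW C, (∀ i ∈ F, σ i = i) ∧ (∀ i ∈ F, i ∉ C) ∧
      signedPerm σ C w = w' := by
  obtain ⟨j, t, hja, ht, rfl⟩ := single4_form hw hn hwa hs
  obtain ⟨j', t', hja', ht', rfl⟩ := single4_form hw' hn' hwa' hs
  have hjF : j ∉ F := by
    intro h
    have h0 := hz j h hja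
    rw [Pi.add_apply, Pi.single_apply, Pi.single_apply, if_neg hja, if_pos rfl] at h0
    rcases ht with rfl | rfl <;> omega
  have hjF' : j' ∉ F := by
    intro h
    have h0 := hz' j' h hja'
    rw [Pi.add_apply, Pi.single_apply, Pi.single_apply, if_neg hja', if_pos rfl] at h0
    rcases ht' with rfl | rfl <;> omega
  have nd : ∀ j, j ∉ F → (F ++ [j]).Nodup := by
    intro j hj
    rw [List.nodup_append]
    refine ⟨hF, List.nodup_singleton j, ?_⟩
    intro x hx y hy hxy
    rw [List.mem_singleton] at hy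
    exact hj (hy ▸ hxy ▸ hx)
  obtain ⟨σ, hσ, C, hC, h1, h2, h3, h4⟩ :=
    move_single F j j' (nd j hjF) (nd j' hjF') hlen (t ≠ t')
  refine ⟨σ, hσ, C, hC, h1, h2, ?_⟩
  rw [signedPerm_add, Cfsg.Agent.S1571.signedPerm_single, Cfsg.Agent.S1571.signedPerm_single,
    h1 a ha, h3, if_neg (h2 a ha)]
  congr 2
  by_cases h : t = t'
  · rw [if_neg (fun h' => (h4.mp h') h), h]
  · rw [if_pos (h4.mpr h)]
    rcases ht with rfl | rfl <;> rcases ht' with rfl | rfl <;> simp_all

/-- Minimal vectors with coordinates `±2` on the whole (nonempty) list. -/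
theorem class_octad (F : List GolayPt) (hF : F.Nodup) (hlen : F.length ≤ 5) (a : GolayPt)
    (ha : a ∈ F) {w w' : GolayPt → ℤ} (hw : w ∈ leechLattice) (hn : sqNorm w = 32)
    (hw' : w' ∈ leechLattice) (hn' : sqNorm w' = 32) (h2 : ∀ i ∈ F, w i = 2 ∨ w i = -2)
    (heq : ∀ i ∈ F, w' i = w i) :
    ∃ σ, ∃ _ : σ ∈ M24, ∃ C, ∃ _ : IsCW C, (∀ i ∈ F, σ i = i) ∧ (∀ i ∈ F, i ∉ C) ∧
      signedPerm σ C w = w' := by
  have form : ∀ {w : GolayPt → ℤ}, w ∈ leechLattice → sqNorm w = 32 →
      (∀ i ∈ F, w i = 2 ∨ w i = -2) → ∃ O e, O ∈ octads ∧ e ⊆ O ∧ Even e.card ∧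
        w = shape 2 O e ∧ (∀ i ∈ F, i ∈ O) ∧ (∀ i ∈ F, (i ∈ e ↔ w i = -2)) := by
    intro w hw hn h2
    rcases classify32 hw hn with ⟨p, e, hp, he, rfl⟩ | ⟨O', e, hO, hO8, he, hev, rfl⟩ |
      ⟨c, j, hc, rfl⟩
    · exfalso
      have h := h2 a ha
      unfold shape at h
      split_ifs at h <;> (rcases h with h | h <;> omega)
    · refine ⟨O', e, ⟨hO, hO8⟩, he, hev, rfl, ?_, ?_⟩
      · intro i hi
        by_contra h
        have h' := h2 i hi
        unfold shape at h'
        rw [if_neg (fun h'' => h (he h'')), if_neg h] at h'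
        omega
      · intro i hi
        unfold shape
        by_cases h : i ∈ e
        · simp [h]
        · rw [if_neg h]
          split_ifs <;> simp [h]
    · exfalso
      have h := h2 a ha
      unfold tw w3 at h
      split_ifs at h <;> (rcases h with h | h <;> omega)
  obtain ⟨O, e, hO, he, hev, rfl, hFO, hFe⟩ := form hw hn h2
  obtain ⟨O', e', hO', he', hev', rfl, hFO', hFe'⟩ :=
    form hw' hn' (fun i hi => by rw [heq i hi]; exact h2 i hi)
  exact trans_octad F hF hlen hO he hev hO' he' hev' hFO hFO'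
    (fun i hi => by rw [hFe i hi, hFe' i hi, heq i hi])

/-- Odd minimal vectors with the exceptional coordinate in the list and prescribed signs on
the list. -/
theorem class_odd (F : List GolayPt) (a : GolayPt) (ha : a ∈ F) {w w' : GolayPt → ℤ}
    (hw : w ∈ leechLattice) (hn : sqNorm w = 32) (hw' : w' ∈ leechLattice)
    (hn' : sqNorm w' = 32) (h3 : w a = 3 ∨ w a = -3) (heq : ∀ i ∈ F, w' i = w i) :
    ∃ C, ∃ _ : IsCW C, (∀ i ∈ F, i ∉ C) ∧ signedPerm 1 C w = w' := by
  have form : ∀ {w : GolayPt → ℤ}, w ∈ leechLattice → sqNorm w = 32 →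
      (w a = 3 ∨ w a = -3) → ∃ c, IsCW c ∧ w = tw c (w3 a) := by
    intro w hw hn h3
    rcases classify32 hw hn with ⟨p, e, hp, he, rfl⟩ | ⟨O', e, hO, hO8, he, hev, rfl⟩ |
      ⟨c, j, hc, rfl⟩
    · exfalso
      unfold shape at h3
      split_ifs at h3 <;> (rcases h3 with h3 | h3 <;> omega)
    · exfalso
      unfold shape at h3
      split_ifs at h3 <;> (rcases h3 with h3 | h3 <;> omega)
    · have haj : a = j := by
        by_contra h
        unfold tw w3 at h3
        rw [if_neg h] at h3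
        split_ifs at h3 <;> (rcases h3 with h3 | h3 <;> omega)
      subst haj
      exact ⟨c, hc, rfl⟩
  obtain ⟨c, hc, rfl⟩ := form hw hn h3
  obtain ⟨c', hc', rfl⟩ := form hw' hn' (by rw [heq a ha]; exact h3)
  apply trans_odd F hc hc' a
  intro i hi
  have h := heq i hi
  unfold tw w3 at h
  by_cases h1 : i ∈ c <;> by_cases h2 : i ∈ c' <;> simp only [h1, h2, if_true, if_false] at h ⊢
  · split_ifs at h <;> omega
  · split_ifs at h <;> omega

end Cfsg.Agent.Lib.Helper92.MaxMono
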