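import Mathlib
import Cfsg.Prelude.Def_Sporadic_a
import Cfsg.Prelude.Def_SporadicCombinatorics
import Cfsg.Agent.Lib.Helper92.MaxMono
import Cfsg.Agent.S0394

/-!
Classes of minimal vectors of the rank-24 lattice under monomial automorphisms fixing the first
two or three standard coordinates, the three shapes of minimal vectors under the monomial group,
and the fact that an automorphism preserving the vectors of shape `(±4, ±4, 0, ...)` is monomial.
-/

set_option autoImplicit false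

namespace Cfsg.Agent.Lib.Helper92.MaxClass

open Cfsg Cfsg.Agent.Lib.Helper92.LeechCore Cfsg.Agent.Lib.Helper92.MinVec
open Cfsg.Agent.Lib.Helper92.LeechGen
open Cfsg.Agent.Lib.Helper92.Co0Orbit Cfsg.Agent.Lib.Helper92.Orbit48
open Cfsg.Agent.Lib.Helper92.Families2
open Cfsg.Agent.Lib.Helper92.ActQ Cfsg.Agent.Lib.Helper92.Frames Cfsg.Agent.Lib.Helper92.Pairs
open Cfsg.Agent.Lib.Helper92.MaxMono
open Cfsg.Agent.S5546 Cfsg.Agent.S0394
open Cfsg.Agent.Lib.Helper7.GolayBase Cfsg.Agent.Lib.Helper7.M24Main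
open Cfsg.Agent.Lib.Helper7.GolayCode Cfsg.Agent.Lib.Helper7.M24Mem
open Cfsg.Agent.Lib.Helper93.Monomial
open scoped Pointwise

/-- The first two standard coordinates. -/
def F2 : List GolayPt := [none, pt 0]

/-- The first three standard coordinates. -/
def F3 : List GolayPt := [none, pt 0, pt 1]

theorem F2_nodup : F2.Nodup := by decide

theorem F3_nodup : F3.Nodup := by decide

theorem mem_F2 {i : GolayPt} (h : i ∈ F2) : i = none ∨ i = pt 0 := by
  simpa [F2] using h

theorem mem_F3 {i : GolayPt} (h : i ∈ F3) : i = none ∨ i = pt 0 ∨ i = pt 1 := by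
  simpa [F3] using h

theorem F2_sub_F3 {i : GolayPt} (h : i ∈ F2) : i ∈ F3 := by
  rcases mem_F2 h with rfl | rfl <;> simp [F3]

theorem W16_val : ((W16 : ↥leechLattice) : GolayPt → ℤ) = mvec (-1) (pt 1) none := rfl

theorem dot_W16 (y : GolayPt → ℤ) :
    dotInt ((W16 : ↥leechLattice) : GolayPt → ℤ) y = 4 * y (pt 1) - 4 * y none := by
  rw [Cfsg.Agent.S5552.dot_comm, W16_val, Cfsg.Agent.S5392.dot_mvec]
  ring

theorem V0_single : ((V0 : ↥leechLattice) : GolayPt → ℤ)
    = Pi.single none 4 + Pi.single (pt 0) 4 := by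
  rw [V0_val, mvec_eq_single]
  norm_num

theorem U0_single : ((U0 : ↥leechLattice) : GolayPt → ℤ)
    = Pi.single none 4 + Pi.single (pt 0) (-4) := by
  rw [U0_val, mvec_eq_single]
  norm_num

theorem fix_V0 {σ : Equiv.Perm GolayPt} {C : Finset GolayPt} (hσ : σ ∈ M24) (hC : IsCW C)
    (h1 : ∀ i ∈ F2, σ i = i) (h2 : ∀ i ∈ F2, i ∉ C) : mono σ hσ C hC • V0 = V0 := by
  apply Subtype.ext
  rw [mono_val]
  apply signedPerm_fix σ C F2 h1 h2
  intro i hi
  have h : i ≠ none ∧ i ≠ pt 0 := by simpa [F2] using hi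
  exact V0_other h.1 h.2

theorem fix_U0 {σ : Equiv.Perm GolayPt} {C : Finset GolayPt} (hσ : σ ∈ M24) (hC : IsCW C)
    (h1 : ∀ i ∈ F2, σ i = i) (h2 : ∀ i ∈ F2, i ∉ C) : mono σ hσ C hC • U0 = U0 := by
  apply Subtype.ext
  rw [mono_val]
  apply signedPerm_fix σ C F2 h1 h2
  intro i hi
  have h : i ≠ none ∧ i ≠ pt 0 := by simpa [F2] using hi
  exact Cfsg.Agent.S5552.mvec_other (-1) h.1 h.2

theorem fix_W16 {σ : Equiv.Perm GolayPt} {C : Finset GolayPt} (hσ : σ ∈ M24) (hC : IsCW C)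
    (h1 : ∀ i ∈ F3, σ i = i) (h2 : ∀ i ∈ F3, i ∉ C) : mono σ hσ C hC • W16 = W16 := by
  apply Subtype.ext
  rw [mono_val]
  apply signedPerm_fix σ C F3 h1 h2
  intro i hi
  have h : i ≠ none ∧ i ≠ pt 0 ∧ i ≠ pt 1 := by simpa [F3] using hi
  exact Cfsg.Agent.S5552.mvec_other (-1) h.2.2 h.1

/-! ### Coordinates of minimal vectors -/

theorem coord_cases {w : GolayPt → ℤ} (hw : w ∈ leechLattice) (hn : sqNorm w = 32) :
    (∀ i, w i = 0 ∨ w i = 4 ∨ w i = -4) ∨ (∀ i, w i = 0 ∨ w i = 2 ∨ w i = -2) ∨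
    (∃ j, (w j = 3 ∨ w j = -3) ∧ ∀ i, i ≠ j → (w i = 1 ∨ w i = -1)) := by
  rcases classify32 hw hn with ⟨p, e, hp, he, rfl⟩ | ⟨O', e, hO, hO8, he, hev, rfl⟩ |
    ⟨c, j, hc, rfl⟩
  · left
    intro i
    unfold shape
    split_ifs <;> simp
  · right
    left
    intro i
    unfold shape
    split_ifs <;> simp
  · right
    right
    refine ⟨j, ?_, ?_⟩
    · have h3 : w3 j j = -3 := by
        unfold w3
        rw [if_pos rfl]
      unfold tw
      rw [h3]
      split_ifs <;> simp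
    · intro i hi
      unfold tw w3
      rw [if_neg hi]
      split_ifs <;> simp

theorem odd_val {w : GolayPt → ℤ} {j : GolayPt} (hj : w j = 3 ∨ w j = -3)
    (hc : ∀ i, i ≠ j → (w i = 1 ∨ w i = -1)) (i : GolayPt) :
    (i = j ∧ (w i = 3 ∨ w i = -3)) ∨ (i ≠ j ∧ (w i = 1 ∨ w i = -1)) := by
  by_cases h : i = j
  · left
    exact ⟨h, h ▸ hj⟩
  · right
    exact ⟨h, hc i h⟩

/-! ### Classes for the stabiliser of the first two coordinates -/

theorem key2 {w : GolayPt → ℤ} (hw : w ∈ leechLattice) (hn : sqNorm w = 32)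
    (h1 : 4 * w none + 4 * w (pt 0) = -16) :
    (w none = -4 ∧ w (pt 0) = 0) ∨ (w none = 0 ∧ w (pt 0) = -4) ∨
    (w none = -2 ∧ w (pt 0) = -2) ∨ (w none = -3 ∧ w (pt 0) = -1) ∨
    (w none = -1 ∧ w (pt 0) = -3) := by
  rcases coord_cases hw hn with hc | hc | ⟨j, hj, hc⟩
  · rcases hc none with a | a | a <;> rcases hc (pt 0) with b | b | b <;> omega
  · rcases hc none with a | a | a <;> rcases hc (pt 0) with b | b | b <;> omega
  · rcases odd_val hj hc none with ⟨e1, a⟩ | ⟨e1, a⟩ <;>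
      rcases odd_val hj hc (pt 0) with ⟨e2, b⟩ | ⟨e2, b⟩
    · exact absurd (e1.trans e2.symm) none_ne_pt0
    · rcases a with a | a <;> rcases b with b | b <;> omega
    · rcases a with a | a <;> rcases b with b | b <;> omega
    · rcases a with a | a <;> rcases b with b | b <;> omega

/-- Monomial automorphisms fixing the first two coordinates are transitive on the minimal
vectors with given inner products `-16` with `V0` and `t` with `U0`. -/
theorem L2_class (w w' : ↥leechLattice) (hn : sqNorm (w : GolayPt → ℤ) = 32)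
    (hn' : sqNorm (w' : GolayPt → ℤ) = 32)
    (h1 : dotInt ((V0 : ↥leechLattice) : GolayPt → ℤ) (w : GolayPt → ℤ) = -16)
    (h1' : dotInt ((V0 : ↥leechLattice) : GolayPt → ℤ) (w' : GolayPt → ℤ) = -16)
    (h2 : dotInt ((U0 : ↥leechLattice) : GolayPt → ℤ) (w' : GolayPt → ℤ)
      = dotInt ((U0 : ↥leechLattice) : GolayPt → ℤ) (w : GolayPt → ℤ)) :
    ∃ σ, ∃ hσ : σ ∈ M24, ∃ C, ∃ hC : IsCW C, (∀ i ∈ F2, σ i = i) ∧ (∀ i ∈ F2, i ∉ C) ∧
      mono σ hσ C hC • w = w' := by
  rw [dot_V0] at h1 h1'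
  rw [dot_U0, dot_U0] at h2
  obtain ⟨w, hw⟩ := w
  obtain ⟨w', hw'⟩ := w'
  change sqNorm w = 32 at hn
  change sqNorm w' = 32 at hn'
  change 4 * w none + 4 * w (pt 0) = -16 at h1
  change 4 * w' none + 4 * w' (pt 0) = -16 at h1'
  change 4 * w' none - 4 * w' (pt 0) = 4 * w none - 4 * w (pt 0) at h2
  have ea : w' none = w none := by omega
  have eb : w' (pt 0) = w (pt 0) := by omega
  have fin : ∀ σ (hσ : σ ∈ M24) C (hC : IsCW C), signedPerm σ C w = w' →
      mono σ hσ C hC • (⟨w, hw⟩ : ↥leechLattice) = ⟨w', hw'⟩ :=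
    fun σ hσ C hC h => Subtype.ext (by rw [mono_val]; exact h)
  rcases key2 hw hn h1 with ⟨a, b⟩ | ⟨a, b⟩ | ⟨a, b⟩ | ⟨a, b⟩ | ⟨a, b⟩
  · obtain ⟨σ, hσ, C, hC, c1, c2, c3⟩ := class_single F2 F2_nodup (by decide) none
      (by simp [F2]) hw hn hw' hn' (Or.inr rfl) a (ea.trans a)
      (fun i hi hne => by
        rcases mem_F2 hi with rfl | rfl
        · exact absurd rfl hne
        · exact b)
      (fun i hi hne => by
        rcases mem_F2 hi with rfl | rfl
        · exact absurd rfl hne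
        · exact eb.trans b)
    exact ⟨σ, hσ, C, hC, c1, c2, fin σ hσ C hC c3⟩
  · obtain ⟨σ, hσ, C, hC, c1, c2, c3⟩ := class_single F2 F2_nodup (by decide) (pt 0)
      (by simp [F2]) hw hn hw' hn' (Or.inr rfl) b (eb.trans b)
      (fun i hi hne => by
        rcases mem_F2 hi with rfl | rfl
        · exact a
        · exact absurd rfl hne)
      (fun i hi hne => by
        rcases mem_F2 hi with rfl | rfl
        · exact ea.trans a
        · exact absurd rfl hne)
    exact ⟨σ, hσ, C, hC, c1, c2, fin σ hσ C hC c3⟩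
  · obtain ⟨σ, hσ, C, hC, c1, c2, c3⟩ := class_octad F2 F2_nodup (by decide) none
      (by simp [F2]) hw hn hw' hn'
      (fun i hi => by
        rcases mem_F2 hi with rfl | rfl
        · exact Or.inr a
        · exact Or.inr b)
      (fun i hi => by
        rcases mem_F2 hi with rfl | rfl
        · exact ea
        · exact eb)
    exact ⟨σ, hσ, C, hC, c1, c2, fin σ hσ C hC c3⟩
  · obtain ⟨C, hC, c2, c3⟩ := class_odd F2 none (by simp [F2]) hw hn hw' hn' (Or.inr a)
      (fun i hi => by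
        rcases mem_F2 hi with rfl | rfl
        · exact ea
        · exact eb)
    exact ⟨1, M24.one_mem, C, hC, fun i _ => rfl, c2, fin 1 M24.one_mem C hC c3⟩
  · obtain ⟨C, hC, c2, c3⟩ := class_odd F2 (pt 0) (by simp [F2]) hw hn hw' hn' (Or.inr b)
      (fun i hi => by
        rcases mem_F2 hi with rfl | rfl
        · exact ea
        · exact eb)
    exact ⟨1, M24.one_mem, C, hC, fun i _ => rfl, c2, fin 1 M24.one_mem C hC c3⟩

/-! ### Classes for the stabiliser of the first three coordinates -/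

theorem ne_pt01 : pt 0 ≠ pt 1 := by decide

theorem none_ne_pt1 : (none : GolayPt) ≠ pt 1 := by decide

theorem key3 {w : GolayPt → ℤ} (hw : w ∈ leechLattice) (hn : sqNorm w = 32)
    (h1 : 4 * w none + 4 * w (pt 0) = 0) (h2 : 4 * w (pt 1) - 4 * w none = -16) :
    (w none = 4 ∧ w (pt 0) = -4 ∧ w (pt 1) = 0) ∨ (w none = 0 ∧ w (pt 0) = 0 ∧ w (pt 1) = -4) ∨
    (w none = 2 ∧ w (pt 0) = -2 ∧ w (pt 1) = -2) ∨
    (w none = 1 ∧ w (pt 0) = -1 ∧ w (pt 1) = -3) := by
  rcases coord_cases hw hn with hc | hc | ⟨j, hj, hc⟩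
  · rcases hc none with a | a | a <;> rcases hc (pt 0) with b | b | b <;>
      rcases hc (pt 1) with c | c | c <;> omega
  · rcases hc none with a | a | a <;> rcases hc (pt 0) with b | b | b <;>
      rcases hc (pt 1) with c | c | c <;> omega
  · rcases odd_val hj hc none with ⟨e1, a⟩ | ⟨e1, a⟩ <;>
      rcases odd_val hj hc (pt 0) with ⟨e2, b⟩ | ⟨e2, b⟩
    · exact absurd (e1.trans e2.symm) none_ne_pt0
    · rcases a with a | a <;> rcases b with b | b <;> omega
    · rcases a with a | a <;> rcases b with b | b <;> omega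
    · rcases odd_val hj hc (pt 1) with ⟨e3, c⟩ | ⟨e3, c⟩ <;>
        rcases a with a | a <;> rcases b with b | b <;> rcases c with c | c <;> omega

theorem eq_U0_form {w : GolayPt → ℤ} (hw : w ∈ leechLattice) (hn : sqNorm w = 32)
    (a : w none = 4) (b : w (pt 0) = -4) : w = Pi.single none 4 + Pi.single (pt 0) (-4) := by
  obtain ⟨j, t, hj, ht, hform⟩ := single4_form hw hn a (Or.inl rfl)
  have h0 := b
  rw [hform, Pi.add_apply, Pi.single_apply, Pi.single_apply, if_neg (Ne.symm none_ne_pt0),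
    zero_add] at h0
  by_cases hj0 : pt 0 = j
  · rw [if_pos hj0] at h0
    rw [hform, ← hj0, h0]
  · rw [if_neg hj0] at h0
    omega

theorem signedPerm_one_empty (x : GolayPt → ℤ) : signedPerm 1 ∅ x = x := by
  funext i
  unfold signedPerm
  rw [if_neg (Finset.notMem_empty i)]
  rfl

/-- Monomial automorphisms fixing the first three coordinates are transitive on the minimal
vectors with given inner products `0` with `V0`, `-16` with `W16` and `s` with `U0`. -/
theorem L3_class (w w' : ↥leechLattice) (hn : sqNorm (w : GolayPt → ℤ) = 32)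
    (hn' : sqNorm (w' : GolayPt → ℤ) = 32)
    (h1 : dotInt ((V0 : ↥leechLattice) : GolayPt → ℤ) (w : GolayPt → ℤ) = 0)
    (h1' : dotInt ((V0 : ↥leechLattice) : GolayPt → ℤ) (w' : GolayPt → ℤ) = 0)
    (h2 : dotInt ((W16 : ↥leechLattice) : GolayPt → ℤ) (w : GolayPt → ℤ) = -16)
    (h2' : dotInt ((W16 : ↥leechLattice) : GolayPt → ℤ) (w' : GolayPt → ℤ) = -16)
    (h3 : dotInt ((U0 : ↥leechLattice) : GolayPt → ℤ) (w' : GolayPt → ℤ)
      = dotInt ((U0 : ↥leechLattice) : GolayPt → ℤ) (w : GolayPt → ℤ)) :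
    ∃ σ, ∃ hσ : σ ∈ M24, ∃ C, ∃ hC : IsCW C, (∀ i ∈ F3, σ i = i) ∧ (∀ i ∈ F3, i ∉ C) ∧
      mono σ hσ C hC • w = w' := by
  rw [dot_V0] at h1 h1'
  rw [dot_W16] at h2 h2'
  rw [dot_U0, dot_U0] at h3
  obtain ⟨w, hw⟩ := w
  obtain ⟨w', hw'⟩ := w'
  change sqNorm w = 32 at hn
  change sqNorm w' = 32 at hn'
  change 4 * w none + 4 * w (pt 0) = 0 at h1
  change 4 * w' none + 4 * w' (pt 0) = 0 at h1'
  change 4 * w (pt 1) - 4 * w none = -16 at h2
  change 4 * w' (pt 1) - 4 * w' none = -16 at h2'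
  change 4 * w' none - 4 * w' (pt 0) = 4 * w none - 4 * w (pt 0) at h3
  have ea : w' none = w none := by omega
  have eb : w' (pt 0) = w (pt 0) := by omega
  have ec : w' (pt 1) = w (pt 1) := by omega
  have fin : ∀ σ (hσ : σ ∈ M24) C (hC : IsCW C), signedPerm σ C w = w' →
      mono σ hσ C hC • (⟨w, hw⟩ : ↥leechLattice) = ⟨w', hw'⟩ :=
    fun σ hσ C hC h => Subtype.ext (by rw [mono_val]; exact h)
  rcases key3 hw hn h1 h2 with ⟨a, b, c⟩ | ⟨a, b, c⟩ | ⟨a, b, c⟩ | ⟨a, b, c⟩
  · have e1 := eq_U0_form hw hn a b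
    have e2 := eq_U0_form hw' hn' (ea.trans a) (eb.trans b)
    refine ⟨1, M24.one_mem, ∅, empty_mem, fun i _ => rfl, fun i _ => by simp, ?_⟩
    apply fin
    rw [signedPerm_one_empty, e1, e2]
  · obtain ⟨σ, hσ, C, hC, c1, c2, c3⟩ := class_single F3 F3_nodup (by decide) (pt 1)
      (by simp [F3]) hw hn hw' hn' (Or.inr rfl) c (ec.trans c)
      (fun i hi hne => by
        rcases mem_F3 hi with rfl | rfl | rfl
        · exact a
        · exact b
        · exact absurd rfl hne)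
      (fun i hi hne => by
        rcases mem_F3 hi with rfl | rfl | rfl
        · exact ea.trans a
        · exact eb.trans b
        · exact absurd rfl hne)
    exact ⟨σ, hσ, C, hC, c1, c2, fin σ hσ C hC c3⟩
  · obtain ⟨σ, hσ, C, hC, c1, c2, c3⟩ := class_octad F3 F3_nodup (by decide) none
      (by simp [F3]) hw hn hw' hn'
      (fun i hi => by
        rcases mem_F3 hi with rfl | rfl | rfl
        · exact Or.inl a
        · exact Or.inr b
        · exact Or.inr c)
      (fun i hi => by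
        rcases mem_F3 hi with rfl | rfl | rfl
        · exact ea
        · exact eb
        · exact ec)
    exact ⟨σ, hσ, C, hC, c1, c2, fin σ hσ C hC c3⟩
  · obtain ⟨C, hC, c2, c3⟩ := class_odd F3 (pt 1) (by simp [F3]) hw hn hw' hn' (Or.inr c)
      (fun i hi => by
        rcases mem_F3 hi with rfl | rfl | rfl
        · exact ea
        · exact eb
        · exact ec)
    exact ⟨1, M24.one_mem, C, hC, fun i _ => rfl, c2, fin 1 M24.one_mem C hC c3⟩

end Cfsg.Agent.Lib.Helper92.MaxClass
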