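import Mathlib
import Cfsg.Prelude.Def_Sporadic_a
import Cfsg.Prelude.Def_SporadicCombinatorics
import Cfsg.Agent.Lib.Helper92.MaxClass
import Cfsg.Agent.Lib.Helper92.CensusSpec

/-!
The monomial group is transitive on each of the three shapes of minimal vectors of the rank-24
lattice, and an automorphism whose inverse preserves the vectors of shape `(±4, ±4, 0, ...)`
stabilises the standard cross.
-/

set_option autoImplicit false

namespace Cfsg.Agent.Lib.Helper92.MaxShape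

open Cfsg Cfsg.Agent.Lib.Helper92.LeechCore Cfsg.Agent.Lib.Helper92.MinVec
open Cfsg.Agent.Lib.Helper92.LeechGen
open Cfsg.Agent.Lib.Helper92.Co0Orbit Cfsg.Agent.Lib.Helper92.Orbit48
open Cfsg.Agent.Lib.Helper92.Families2
open Cfsg.Agent.Lib.Helper92.ActQ Cfsg.Agent.Lib.Helper92.Frames Cfsg.Agent.Lib.Helper92.Pairs
open Cfsg.Agent.Lib.Helper92.MaxMono Cfsg.Agent.Lib.Helper92.MaxClass
open Cfsg.Agent.S5546 Cfsg.Agent.S0394
open Cfsg.Agent.Lib.Helper7.GolayBase Cfsg.Agent.Lib.Helper7.M24Main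
open Cfsg.Agent.Lib.Helper7.GolayCode Cfsg.Agent.Lib.Helper7.M24Mem
open Cfsg.Agent.Lib.Helper93.Monomial
open scoped Pointwise

/-- The monomial group moves `V0` to every vector of shape `(±4, ±4, 0, ...)`. -/
theorem L1_A (w : ↥leechLattice) (hA : (w : GolayPt → ℤ) ∈ FA) :
    ∃ σ, ∃ hσ : σ ∈ M24, ∃ C, ∃ hC : IsCW C, mono σ hσ C hC • V0 = w := by
  obtain ⟨w, hw⟩ := w
  change w ∈ FA at hA
  obtain ⟨p, e, hp, he, rfl⟩ := mem_FA.mp hA
  have hn : sqNorm (shape 4 p e) = 32 := by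
    rw [sqNorm_shape 4 he, hp]
    norm_num
  obtain ⟨x, hx⟩ : p.Nonempty := by
    rw [← Finset.card_pos, hp]
    norm_num
  obtain ⟨s, hs⟩ : ∃ s, shape 4 p e x = s := ⟨_, rfl⟩
  have hxs : s = 4 ∨ s = -4 := by
    rw [← hs]
    unfold shape
    rw [if_pos hx]
    split_ifs <;> simp
  obtain ⟨j, t, hjx, ht, hform⟩ := single4_form hw hn hs hxs
  obtain ⟨σ, hσ, e1, e2⟩ := two_trans none_ne_pt0 (Ne.symm hjx)
  obtain ⟨C, hC, c1, c2⟩ := two_pt_cw (Ne.symm hjx) (s = -4) (t = -4)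
  refine ⟨σ, hσ, C, hC, ?_⟩
  apply Subtype.ext
  rw [mono_val, V0_single]
  show signedPerm σ C _ = shape 4 p e
  rw [hform, signedPerm_add, Cfsg.Agent.S1571.signedPerm_single,
    Cfsg.Agent.S1571.signedPerm_single, e1, e2]
  congr 2
  · rcases hxs with rfl | rfl
    · rw [if_neg (fun h => by have := c1.mp h; norm_num at this)]
    · rw [if_pos (c1.mpr rfl)]
  · rcases ht with rfl | rfl
    · rw [if_neg (fun h => by have := c2.mp h; norm_num at this)]
    · rw [if_pos (c2.mpr rfl)]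

/-- The monomial group is transitive on the minimal vectors of octad shape. -/
theorem L1_B (w w' : ↥leechLattice) (hB : (w : GolayPt → ℤ) ∈ FB)
    (hB' : (w' : GolayPt → ℤ) ∈ FB) :
    ∃ σ, ∃ hσ : σ ∈ M24, ∃ C, ∃ hC : IsCW C, mono σ hσ C hC • w = w' := by
  obtain ⟨w, hw⟩ := w
  obtain ⟨w', hw'⟩ := w'
  change w ∈ FB at hB
  change w' ∈ FB at hB'
  obtain ⟨O, e, hO, hO8, he, hev, rfl⟩ := mem_FB.mp hB
  obtain ⟨O', e', hO', hO8', he', hev', rfl⟩ := mem_FB.mp hB'
  obtain ⟨σ, hσ, C, hC, -, -, c3⟩ := trans_octad [] List.nodup_nil (by simp)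
    (⟨hO, hO8⟩ : O ∈ octads) he hev (⟨hO', hO8'⟩ : O' ∈ octads) he' hev'
    (fun i hi => by simp at hi) (fun i hi => by simp at hi) (fun i hi => by simp at hi)
  exact ⟨σ, hσ, C, hC, Subtype.ext (by rw [mono_val]; exact c3)⟩

theorem perm_vec3 (σ : Equiv.Perm GolayPt) (c : Finset GolayPt) (j : GolayPt) :
    (fun i => tw c (w3 j) (σ.symm i)) = tw (σ • c) (w3 (σ j)) := by
  funext i
  unfold tw w3
  have h1 : σ.symm i = j ↔ i = σ j := by
    rw [Equiv.symm_apply_eq]
  simp only [mem_smul_iff', h1]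

/-- The monomial group is transitive on the odd minimal vectors. -/
theorem L1_C (w w' : ↥leechLattice) (hB : (w : GolayPt → ℤ) ∈ FC)
    (hB' : (w' : GolayPt → ℤ) ∈ FC) :
    ∃ σ, ∃ hσ : σ ∈ M24, ∃ C, ∃ hC : IsCW C, mono σ hσ C hC • w = w' := by
  obtain ⟨w, hw⟩ := w
  obtain ⟨w', hw'⟩ := w'
  change w ∈ FC at hB
  change w' ∈ FC at hB'
  obtain ⟨c, j, hc, rfl⟩ := mem_FC.mp hB
  obtain ⟨c', j', hc', rfl⟩ := mem_FC.mp hB'
  obtain ⟨σ, hσ, hσj⟩ := Cfsg.Agent.S0398.trans j j'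
  have hσc : IsCW (σ • c) := smul_mem_supports hσ hc
  refine ⟨σ, hσ, symmDiff c' (σ • c), symmDiff_mem hc' hσc, ?_⟩
  apply Subtype.ext
  rw [mono_val]
  show tw (symmDiff c' (σ • c)) (fun i => tw c (w3 j) (σ.symm i)) = tw c' (w3 j')
  rw [perm_vec3, tw_comp, hσj]
  congr 1
  ext i
  simp only [Finset.mem_symmDiff]
  tauto

/-! ### Automorphisms preserving the vectors of the first shape -/

theorem card_golayPt : (Finset.univ : Finset GolayPt).card = 24 := by decide

theorem F8_of_constraints {y : GolayPt → ℤ} (hn : sqNorm y = 64)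
    (h : ∀ a b, a ≠ b → (y a + y b = 0 ∨ y a + y b = 8 ∨ y a + y b = -8) ∧
      (y a - y b = 0 ∨ y a - y b = 8 ∨ y a - y b = -8)) : y ∈ F8 := by
  have hex : ∃ a, y a ≠ 0 := by
    by_contra hh
    have hz : ∀ a, y a = 0 := fun a => by
      by_contra h
      exact hh ⟨a, h⟩
    have h0 : sqNorm y = 0 := by
      unfold sqNorm
      simp [hz]
    omega
  obtain ⟨a, ha⟩ := hex
  obtain ⟨b, hb⟩ : ∃ b : GolayPt, a ≠ b := by
    by_cases h0 : a = none
    · exact ⟨pt 0, by rw [h0]; exact none_ne_pt0⟩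
    · exact ⟨none, h0⟩
  have hval : y a = 8 ∨ y a = -8 ∨ y a = 4 ∨ y a = -4 := by
    have := h a b hb
    omega
  have h4 : ∀ s : ℤ, (s = 4 ∨ s = -4) → y a = s → False := by
    intro s hs has
    have h4' : ∀ b, y b ^ 2 = 16 := by
      intro b
      by_cases hb : b = a
      · rw [hb, has]
        rcases hs with rfl | rfl <;> norm_num
      · have h1 := h a b (Ne.symm hb)
        have h2 : y b = 4 ∨ y b = -4 := by
          rcases hs with rfl | rfl <;> omega
        rcases h2 with e | e <;> rw [e] <;> norm_num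
    have h5 : sqNorm y = 384 := by
      unfold sqNorm
      rw [Finset.sum_congr rfl (fun b _ => h4' b), Finset.sum_const, card_golayPt]
      norm_num
    omega
  have h8 : ∀ (bb : Bool), y a = (if bb then 8 else -8) → y ∈ F8 := by
    intro bb has
    have h0 : ∀ b, b ≠ a → y b = 0 := by
      intro b hb
      have := h a b (Ne.symm hb)
      cases bb <;> simp at has <;> omega
    rw [mem_F8]
    refine ⟨(a, bb), ?_⟩
    funext i
    unfold v8
    rw [Pi.single_apply]
    by_cases hi : i = a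
    · rw [if_pos hi, hi, has]
    · rw [if_neg hi, h0 i hi]
  rcases hval with e | e | e | e
  · exact h8 true (by simpa using e)
  · exact h8 false (by simpa using e)
  · exact (h4 4 (Or.inl rfl) e).elim
  · exact (h4 (-4) (Or.inr rfl) e).elim

/-- An automorphism whose inverse preserves the minimal vectors of the first shape stabilises
the standard cross. -/
theorem collapse (k : ↥Co0)
    (h2 : ∀ w : ↥leechLattice, (w : GolayPt → ℤ) ∈ FA →
      ((k⁻¹ • w : ↥leechLattice) : GolayPt → ℤ) ∈ FA) : k • c0 = c0 := by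
  have hyn : sqNorm ((k • (⟨e8, e8_mem⟩ : ↥leechLattice) : ↥leechLattice) : GolayPt → ℤ) = 64 := by
    rw [sqNorm_smul]
    exact e8_norm
  have key : ∀ (p e : Finset GolayPt), p.card = 2 → e ⊆ p →
      (dotInt ((k • (⟨e8, e8_mem⟩ : ↥leechLattice) : ↥leechLattice) : GolayPt → ℤ)
          (shape 4 p e) = 0 ∨
        dotInt ((k • (⟨e8, e8_mem⟩ : ↥leechLattice) : ↥leechLattice) : GolayPt → ℤ)
          (shape 4 p e) = 32 ∨
        dotInt ((k • (⟨e8, e8_mem⟩ : ↥leechLattice) : ↥leechLattice) : GolayPt → ℤ)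
          (shape 4 p e) = -32) := by
    intro p e hp he
    have hs' : (((⟨shape 4 p e, shape4_mem hp he⟩ : ↥leechLattice)) : GolayPt → ℤ) ∈ FA :=
      mem_FA.mpr ⟨p, e, hp, he, rfl⟩
    have h3 := h2 _ hs'
    obtain ⟨p', e', hp', he', h4⟩ := mem_FA.mp h3
    have h5 := dot_smul k ⟨e8, e8_mem⟩ (k⁻¹ • (⟨shape 4 p e, shape4_mem hp he⟩ : ↥leechLattice))
    rw [smul_inv_smul, h4] at h5
    have h6 : dotInt e8 (shape 4 p' e') = 8 * shape 4 p' e' none := dot_single_left none 8 _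
    have h7 : shape 4 p' e' none = 0 ∨ shape 4 p' e' none = 4 ∨ shape 4 p' e' none = -4 := by
      unfold shape
      split_ifs <;> simp
    change dotInt _ (shape 4 p e) = dotInt e8 (shape 4 p' e') at h5
    rw [h5, h6]
    omega
  have hcon : ∀ a b, a ≠ b →
      (((k • (⟨e8, e8_mem⟩ : ↥leechLattice) : ↥leechLattice) : GolayPt → ℤ) a
          + ((k • (⟨e8, e8_mem⟩ : ↥leechLattice) : ↥leechLattice) : GolayPt → ℤ) b = 0 ∨
        ((k • (⟨e8, e8_mem⟩ : ↥leechLattice) : ↥leechLattice) : GolayPt → ℤ) a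
          + ((k • (⟨e8, e8_mem⟩ : ↥leechLattice) : ↥leechLattice) : GolayPt → ℤ) b = 8 ∨
        ((k • (⟨e8, e8_mem⟩ : ↥leechLattice) : ↥leechLattice) : GolayPt → ℤ) a
          + ((k • (⟨e8, e8_mem⟩ : ↥leechLattice) : ↥leechLattice) : GolayPt → ℤ) b = -8) ∧
      (((k • (⟨e8, e8_mem⟩ : ↥leechLattice) : ↥leechLattice) : GolayPt → ℤ) a
          - ((k • (⟨e8, e8_mem⟩ : ↥leechLattice) : ↥leechLattice) : GolayPt → ℤ) b = 0 ∨
        ((k • (⟨e8, e8_mem⟩ : ↥leechLattice) : ↥leechLattice) : GolayPt → ℤ) a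
          - ((k • (⟨e8, e8_mem⟩ : ↥leechLattice) : ↥leechLattice) : GolayPt → ℤ) b = 8 ∨
        ((k • (⟨e8, e8_mem⟩ : ↥leechLattice) : ↥leechLattice) : GolayPt → ℤ) a
          - ((k • (⟨e8, e8_mem⟩ : ↥leechLattice) : ↥leechLattice) : GolayPt → ℤ) b = -8) := by
    intro a b hab
    have hp : ({a, b} : Finset GolayPt).card = 2 := Finset.card_pair hab
    have k1 := key {a, b} ∅ hp (Finset.empty_subset _)
    have k2 := key {a, b} {b} hp (by simp)
    rw [Cfsg.Agent.Lib.Helper92.CensusSpec.dot_shape _ 4 (Finset.empty_subset _)] at k1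
    rw [Cfsg.Agent.Lib.Helper92.CensusSpec.dot_shape _ 4 (by simp : ({b} : Finset GolayPt) ⊆ {a, b})] at k2
    have e2 : ({a, b} : Finset GolayPt) \ {b} = {a} := by
      ext i
      simp only [Finset.mem_sdiff, Finset.mem_insert, Finset.mem_singleton]
      constructor
      · rintro ⟨h | h, h'⟩
        · exact h
        · exact absurd h h'
      · intro h
        exact ⟨Or.inl h, fun h' => hab (h ▸ h')⟩
    rw [Finset.sdiff_empty, Finset.sum_pair hab, Finset.sum_empty] at k1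
    rw [e2, Finset.sum_singleton, Finset.sum_singleton] at k2
    constructor <;> omega
  have hF8 := F8_of_constraints hyn hcon
  have h9 := F8_cls hF8
  rw [← smul_cls] at h9
  exact h9

end Cfsg.Agent.Lib.Helper92.MaxShape
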