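import Mathlib

/-!
Orbit–stabiliser counting for a subgroup acting through its ambient group, the count of a set
that is a union of classes, and the arithmetic used to show that an orbit is everything.
-/

set_option autoImplicit false

namespace Cfsg.Agent.Lib.Helper92.OrbitCount

/-- Orbit–stabiliser for a subgroup acting through the ambient group. -/
theorem card_orbit_stab {G X : Type*} [Group G] [MulAction G X] (K : Subgroup G) (x : X) :
    Nat.card ↥K = {y : X | ∃ k ∈ K, k • x = y}.ncard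
      * Nat.card ↥(K ⊓ MulAction.stabilizer G x) := by
  have h1 := Subgroup.card_mul_index (MulAction.stabilizer ↥K x)
  rw [MulAction.index_stabilizer] at h1
  have h2 : MulAction.orbit ↥K x = {y : X | ∃ k ∈ K, k • x = y} := by
    ext y
    constructor
    · rintro ⟨⟨k, hk⟩, rfl⟩
      exact ⟨k, hk, rfl⟩
    · rintro ⟨k, hk, rfl⟩
      exact ⟨⟨k, hk⟩, rfl⟩
  have h3 : Nat.card ↥(MulAction.stabilizer ↥K x)
      = Nat.card ↥(K ⊓ MulAction.stabilizer G x) := by
    apply Nat.card_congr
    exact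
      { toFun := fun k => ⟨k.1.1, k.1.2, k.2⟩
        invFun := fun k => ⟨⟨k.1, k.2.1⟩, k.2.2⟩
        left_inv := fun _ => rfl
        right_inv := fun _ => rfl }
  rw [← h1, h2, h3, mul_comm]

/-- The full group version of orbit–stabiliser. -/
theorem card_orbit_stab_top {G X : Type*} [Group G] [MulAction G X] (x : X) :
    Nat.card G = {y : X | ∃ k : G, k • x = y}.ncard
      * Nat.card ↥(MulAction.stabilizer G x) := by
  have h := card_orbit_stab (⊤ : Subgroup G) x
  rw [Subgroup.card_top, top_inf_eq] at h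
  rw [h]
  congr 2
  ext y
  simp

open Classical in
/-- A finite set which is a union of classes of a finite ambient set has as many elements as the
classes it meets. -/
theorem ncard_classes {X : Type*} (Z D : Set X) (hD : D.Finite) (c : X → ℤ) (T : Finset ℤ)
    (hZD : Z ⊆ D) (hT : ∀ x ∈ D, c x ∈ T)
    (hfull : ∀ x ∈ Z, ∀ y ∈ D, c y = c x → y ∈ Z) :
    Z.ncard = ∑ t ∈ T, if (∃ x ∈ Z, c x = t) then {y | y ∈ D ∧ c y = t}.ncard else 0 := by
  have hZ : Z.Finite := hD.subset hZD
  rw [Set.ncard_eq_toFinset_card Z hZ,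
    Finset.card_eq_sum_card_fiberwise (f := c) (t := T) (fun x hx => hT x (hZD (by simpa using hx)))]
  apply Finset.sum_congr rfl
  intro t _
  split_ifs with h
  · obtain ⟨x, hx, hxt⟩ := h
    have hfin : {y | y ∈ D ∧ c y = t}.Finite := hD.subset (fun y hy => hy.1)
    rw [Set.ncard_eq_toFinset_card _ hfin]
    congr 1
    ext y
    simp only [Finset.mem_filter, Set.Finite.mem_toFinset, Set.mem_ofPred_eq]
    constructor
    · rintro ⟨hy, hyt⟩
      exact ⟨hZD hy, hyt⟩
    · rintro ⟨hy, hyt⟩
      exact ⟨hfull x hx y hy (hyt.trans hxt.symm), hyt⟩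
  · rw [Finset.card_eq_zero, Finset.filter_eq_empty_iff]
    intro y hy hyt
    exact h ⟨y, by simpa using hy, hyt⟩

theorem arith1 (p1 p2 : Prop) [Decidable p1] [Decidable p2] (n : ℕ)
    (h : n = 1104 + ((if p1 then 97152 else 0) + (if p2 then 98304 else 0)))
    (hd : n ∣ 8315553613086720000) (hne : p1 ∨ p2) : p1 ∧ p2 := by
  by_cases h1 : p1 <;> by_cases h2 : p2
  · exact ⟨h1, h2⟩
  · exfalso
    rw [if_pos h1, if_neg h2] at h
    subst h
    revert hd
    decide
  · exfalso
    rw [if_neg h1, if_pos h2] at h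
    subst h
    revert hd
    decide
  · exact (hne.elim h1 h2).elim

theorem arith2 (p1 p2 p3 p4 : Prop) [Decidable p1] [Decidable p2] [Decidable p3] [Decidable p4]
    (n : ℕ)
    (h : n = 44 + ((if p1 then 44 else 0) + ((if p2 then 2464 else 0)
      + ((if p3 then 1024 else 0) + (if p4 then 1024 else 0)))))
    (hd : 23 ∣ n) : p1 ∧ p2 ∧ p3 ∧ p4 := by
  by_cases h1 : p1 <;> by_cases h2 : p2 <;> by_cases h3 : p3 <;> by_cases h4 : p4 <;>
    simp only [h1, h2, h3, h4, if_true, if_false] at h <;>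
    first
    | exact ⟨h1, h2, h3, h4⟩
    | (exfalso; omega)

theorem prime_dvd_chain (p a n m M : ℕ) (hp : p.Prime) (h : p ∣ a * (n * m)) (ha : ¬ p ∣ a)
    (hm : m ∣ M) (hM : ¬ p ∣ M) : p ∣ n := by
  rcases (Nat.Prime.dvd_mul hp).mp h with h1 | h1
  · exact (ha h1).elim
  · rcases (Nat.Prime.dvd_mul hp).mp h1 with h2 | h2
    · exact h2
    · exact (hM (h2.trans hm)).elim

theorem arith3 (p1 p2 p3 : Prop) [Decidable p1] [Decidable p2] [Decidable p3]
    (n : ℕ)
    (h : n = 1 + ((if p1 then 42 else 0) + ((if p2 then 336 else 0) + (if p3 then 512 else 0))))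
    (hd : 11 ∣ n) : p1 ∧ p2 ∧ p3 := by
  by_cases h1 : p1 <;> by_cases h2 : p2 <;> by_cases h3 : p3 <;>
    simp only [h1, h2, h3, if_true, if_false] at h <;>
    first
    | exact ⟨h1, h2, h3⟩
    | (exfalso; omega)

end Cfsg.Agent.Lib.Helper92.OrbitCount
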