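import Mathlib
import Cfsg.Prelude.Def_Sporadic_a
import Cfsg.Prelude.Def_SporadicCombinatorics
import Cfsg.Agent.Lib.Helper92.MaxShape
import Cfsg.Agent.Lib.Helper92.MaxCount
import Cfsg.Agent.Lib.Helper92.OrbitCount

/-!
A subgroup of the automorphism group of the rank-24 lattice properly containing the stabiliser of
the standard cross is the whole group: it is transitive on minimal vectors, then on pairs with
inner product `-16`, then on a third layer, by orbit counting and divisibility.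
-/

set_option autoImplicit false

namespace Cfsg.Agent.Lib.Helper92.MaxChain

open Cfsg Cfsg.Agent.Lib.Helper92.LeechCore Cfsg.Agent.Lib.Helper92.MinVec
open Cfsg.Agent.Lib.Helper92.LeechGen Cfsg.Agent.Lib.Helper92.Conway
open Cfsg.Agent.Lib.Helper92.Co0Orbit Cfsg.Agent.Lib.Helper92.Orbit48
open Cfsg.Agent.Lib.Helper92.Families2
open Cfsg.Agent.Lib.Helper92.Census Cfsg.Agent.Lib.Helper92.CensusSpec
open Cfsg.Agent.Lib.Helper92.ActQ Cfsg.Agent.Lib.Helper92.Frames Cfsg.Agent.Lib.Helper92.Pairs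
open Cfsg.Agent.Lib.Helper92.Counts
open Cfsg.Agent.Lib.Helper92.MaxMono Cfsg.Agent.Lib.Helper92.MaxClass
open Cfsg.Agent.Lib.Helper92.MaxShape Cfsg.Agent.Lib.Helper92.MaxCount
open Cfsg.Agent.Lib.Helper92.OrbitCount
open Cfsg.Agent.S5546 Cfsg.Agent.S0394
open Cfsg.Agent.Lib.Helper7.GolayBase Cfsg.Agent.Lib.Helper7.M24Main
open Cfsg.Agent.Lib.Helper7.GolayCode Cfsg.Agent.Lib.Helper7.M24Mem
open Cfsg.Agent.Lib.Helper93.Monomial
open scoped Pointwise

/-! ### Values of the standard vectors -/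

theorem W16_none : ((W16 : ↥leechLattice) : GolayPt → ℤ) none = -4 := by decide +kernel

theorem W16_pt0 : ((W16 : ↥leechLattice) : GolayPt → ℤ) (pt 0) = 0 := by decide +kernel

theorem W16_pt1 : ((W16 : ↥leechLattice) : GolayPt → ℤ) (pt 1) = 4 := by decide +kernel

theorem U0_none : ((U0 : ↥leechLattice) : GolayPt → ℤ) none = 4 := by decide +kernel

theorem U0_pt0 : ((U0 : ↥leechLattice) : GolayPt → ℤ) (pt 0) = -4 := by decide +kernel

theorem U0_pt1 : ((U0 : ↥leechLattice) : GolayPt → ℤ) (pt 1) = 0 := by decide +kernel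

theorem dot_V0_W16 : dotInt ((V0 : ↥leechLattice) : GolayPt → ℤ)
    ((W16 : ↥leechLattice) : GolayPt → ℤ) = -16 := by
  rw [dot_V0, W16_none, W16_pt0]
  norm_num

theorem dot_V0_U0 : dotInt ((V0 : ↥leechLattice) : GolayPt → ℤ)
    ((U0 : ↥leechLattice) : GolayPt → ℤ) = 0 := by
  rw [dot_V0, U0_none, U0_pt0]
  norm_num

theorem dot_U0_W16 : dotInt ((U0 : ↥leechLattice) : GolayPt → ℤ)
    ((W16 : ↥leechLattice) : GolayPt → ℤ) = -16 := by
  rw [dot_U0, W16_none, W16_pt0]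
  norm_num

theorem dot_W16_U0 : dotInt ((W16 : ↥leechLattice) : GolayPt → ℤ)
    ((U0 : ↥leechLattice) : GolayPt → ℤ) = -16 := by
  rw [dot_W16, U0_none, U0_pt1]
  norm_num

theorem dot_U0_U0 : dotInt ((U0 : ↥leechLattice) : GolayPt → ℤ)
    ((U0 : ↥leechLattice) : GolayPt → ℤ) = 32 := by
  rw [dot_U0, U0_none, U0_pt0]
  norm_num

theorem U0_norm : sqNorm ((U0 : ↥leechLattice) : GolayPt → ℤ) = 32 := by
  have h := dot_U0_U0
  unfold dotInt at h
  unfold sqNorm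
  rw [← h]
  apply Finset.sum_congr rfl
  intro i _
  ring

theorem W16_norm : sqNorm ((W16 : ↥leechLattice) : GolayPt → ℤ) = 32 := by
  have h := dot_W16 ((W16 : ↥leechLattice) : GolayPt → ℤ)
  rw [W16_none, W16_pt1] at h
  unfold dotInt at h
  unfold sqNorm
  have h2 : (∑ i, ((W16 : ↥leechLattice) : GolayPt → ℤ) i ^ 2)
      = ∑ i, ((W16 : ↥leechLattice) : GolayPt → ℤ) i * ((W16 : ↥leechLattice) : GolayPt → ℤ) i := by
    apply Finset.sum_congr rfl
    intro i _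
    ring
  rw [h2, h]
  norm_num

/-- `V0 + U0` is the standard vector `8 e_∞`. -/
theorem V0_add_U0 : ((V0 + U0 : ↥leechLattice) : GolayPt → ℤ) = e8 := by
  rw [AddSubgroup.coe_add, V0_val, U0_val, ← evec_eq none (pt 0) none_ne_pt0]
  exact Cfsg.Agent.S1571.evec_eq_single none

/-! ### The layers -/

/-- The minimal vectors. -/
def D1 : Set ↥leechLattice := {y | sqNorm (y : GolayPt → ℤ) = 32}

/-- The minimal vectors having inner product `-16` with `V0`. -/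
def D2 : Set ↥leechLattice := {y | sqNorm (y : GolayPt → ℤ) = 32 ∧
  dotInt ((V0 : ↥leechLattice) : GolayPt → ℤ) (y : GolayPt → ℤ) = -16}

/-- The minimal vectors orthogonal to `V0`. -/
def D0 : Set ↥leechLattice := {y | sqNorm (y : GolayPt → ℤ) = 32 ∧
  dotInt ((V0 : ↥leechLattice) : GolayPt → ℤ) (y : GolayPt → ℤ) = 0}

/-- The minimal vectors orthogonal to `V0` having inner product `-16` with `W16`. -/
def D3 : Set ↥leechLattice := {y | sqNorm (y : GolayPt → ℤ) = 32 ∧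
  dotInt ((V0 : ↥leechLattice) : GolayPt → ℤ) (y : GolayPt → ℤ) = 0 ∧
  dotInt ((W16 : ↥leechLattice) : GolayPt → ℤ) (y : GolayPt → ℤ) = -16}

theorem card_D1 : D1.ncard = 196560 := by
  unfold D1
  rw [ncard_subtype (fun y => sqNorm y = 32)]
  exact Cfsg.Agent.S0394.result

theorem card_D2 : D2.ncard = 4600 := by
  unfold D2
  rw [ncard_subtype (fun y => sqNorm y = 32 ∧
    dotInt ((V0 : ↥leechLattice) : GolayPt → ℤ) y = -16)]
  exact count_min_16 _ V0.2 V0_norm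

theorem card_D0 : D0.ncard = 93150 := by
  unfold D0
  rw [ncard_subtype (fun y => sqNorm y = 32 ∧
    dotInt ((V0 : ↥leechLattice) : GolayPt → ℤ) y = 0)]
  exact count_min_0 _ V0.2 V0_norm

theorem finite_D1 : D1.Finite := by
  apply Set.finite_of_ncard_ne_zero
  rw [card_D1]
  norm_num

theorem D2_sub : D2 ⊆ D1 := fun _ h => h.1

theorem D3_sub : D3 ⊆ D1 := fun _ h => h.1

/-! ### Orders of stabilisers -/

/-- The stabiliser of `V0`. -/
noncomputable abbrev SV : Subgroup ↥Co0 := MulAction.stabilizer ↥Co0 V0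

/-- The stabiliser of `W16`. -/
noncomputable abbrev SW : Subgroup ↥Co0 := MulAction.stabilizer ↥Co0 W16

/-- The stabiliser of `U0`. -/
noncomputable abbrev SU : Subgroup ↥Co0 := MulAction.stabilizer ↥Co0 U0

theorem card_SV : Nat.card ↥SV = 42305421312000 := by
  have h : Nat.card ↥Co0 = {y : ↥leechLattice | ∃ k : ↥Co0, k • V0 = y}.ncard * Nat.card ↥SV :=
    card_orbit_stab_top (G := ↥Co0) V0
  have h2 : {y : ↥leechLattice | ∃ k : ↥Co0, k • V0 = y} = D1 := by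
    ext y
    constructor
    · rintro ⟨k, rfl⟩
      show sqNorm _ = 32
      rw [sqNorm_smul]
      exact V0_norm
    · intro hy
      exact trans32 V0 y V0_norm hy
  rw [h2, card_D1, card_Co0] at h
  omega

theorem card_SVW : Nat.card ↥(SV ⊓ SW) = 9196830720 := by
  have h : Nat.card ↥SV = {y : ↥leechLattice | ∃ k ∈ SV, k • W16 = y}.ncard
      * Nat.card ↥(SV ⊓ SW) := card_orbit_stab SV W16
  have h2 : {y : ↥leechLattice | ∃ k ∈ SV, k • W16 = y} = D2 := by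
    ext y
    constructor
    · rintro ⟨k, hk, rfl⟩
      refine ⟨?_, ?_⟩
      · rw [sqNorm_smul]
        exact W16_norm
      · have h3 := dot_smul k V0 W16
        rw [MulAction.mem_stabilizer_iff.mp hk] at h3
        rw [h3]
        exact dot_V0_W16
    · rintro ⟨hn, hd⟩
      obtain ⟨g, hg1, hg2⟩ := trans16 V0 W16 y V0_norm W16_norm hn dot_V0_W16 hd
      exact ⟨g, MulAction.mem_stabilizer_iff.mpr hg1, hg2⟩
  rw [h2, card_D2, card_SV] at h
  omega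

theorem card_SVU : Nat.card ↥(SV ⊓ SU) = 454164480 := by
  have h : Nat.card ↥SV = {y : ↥leechLattice | ∃ k ∈ SV, k • U0 = y}.ncard
      * Nat.card ↥(SV ⊓ SU) := card_orbit_stab SV U0
  have h2 : {y : ↥leechLattice | ∃ k ∈ SV, k • U0 = y} = D0 := by
    ext y
    constructor
    · rintro ⟨k, hk, rfl⟩
      refine ⟨?_, ?_⟩
      · rw [sqNorm_smul]
        exact U0_norm
      · have h3 := dot_smul k V0 U0
        rw [MulAction.mem_stabilizer_iff.mp hk] at h3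
        rw [h3]
        exact dot_V0_U0
    · rintro ⟨hn, hd⟩
      obtain ⟨g, hg1, hg2⟩ := orth_trans V0 U0 y V0_norm U0_norm hn dot_V0_U0 hd
      exact ⟨g, MulAction.mem_stabilizer_iff.mpr hg1, hg2⟩
  rw [h2, card_D0, card_SV] at h
  omega

theorem card_SVUW : Nat.card ↥(SV ⊓ SU ⊓ SW) = 10321920 := by
  have h : Nat.card ↥(SV ⊓ SU) = {y : ↥leechLattice | ∃ k ∈ SV ⊓ SU, k • W16 = y}.ncard
      * Nat.card ↥(SV ⊓ SU ⊓ SW) := card_orbit_stab (SV ⊓ SU) W16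
  have h2 : {y : ↥leechLattice | ∃ k ∈ SV ⊓ SU, k • W16 = y} = P2 (-16) := by
    ext y
    constructor
    · rintro ⟨k, hk, rfl⟩
      have hk1 := MulAction.mem_stabilizer_iff.mp (Subgroup.mem_inf.mp hk).1
      have hk2 := MulAction.mem_stabilizer_iff.mp (Subgroup.mem_inf.mp hk).2
      refine ⟨?_, ?_, ?_⟩
      · rw [sqNorm_smul]
        exact W16_norm
      · have h3 := dot_smul k V0 W16
        rw [hk1] at h3
        rw [h3]
        exact dot_V0_W16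
      · have h3 := dot_smul k U0 W16
        rw [hk2] at h3
        rw [h3]
        exact dot_U0_W16
    · rintro ⟨hn, hd, hu⟩
      obtain ⟨σ, hσ, C, hC, f1, f2, e⟩ := L2_class W16 y W16_norm hn dot_V0_W16 hd
        (hu.trans dot_U0_W16.symm)
      exact ⟨mono σ hσ C hC, Subgroup.mem_inf.mpr ⟨MulAction.mem_stabilizer_iff.mpr
        (fix_V0 hσ hC f1 f2), MulAction.mem_stabilizer_iff.mpr (fix_U0 hσ hC f1 f2)⟩, e⟩
  rw [h2, card_P2_m16, card_SVU] at h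
  omega

/-! ### The first level: shapes of minimal vectors -/

theorem shell_iff (w : GolayPt → ℤ) : (w ∈ leechLattice ∧ sqNorm w = 32) ↔
    ((w ∈ FA ∨ w ∈ FB) ∨ w ∈ FC) := by
  have h1 := Set.ext_iff.mp set_eq w
  simp only [Finset.coe_union, Set.mem_union, Finset.mem_coe, Set.mem_ofPred_eq] at h1
  exact h1

theorem mem_D1_cases {w : ↥leechLattice} (h : w ∈ D1) :
    (w : GolayPt → ℤ) ∈ FA ∨ (w : GolayPt → ℤ) ∈ FB ∨ (w : GolayPt → ℤ) ∈ FC := by
  have h1 := (shell_iff (w : GolayPt → ℤ)).mp ⟨w.2, h⟩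
  tauto

open Classical in
/-- The shape class of a lattice vector. -/
noncomputable def c1 (w : ↥leechLattice) : ℤ :=
  if (w : GolayPt → ℤ) ∈ FA then 0 else if (w : GolayPt → ℤ) ∈ FB then 1 else 2

theorem c1_eq0 {w : ↥leechLattice} : c1 w = 0 ↔ (w : GolayPt → ℤ) ∈ FA := by
  unfold c1
  split_ifs with h1 h2 <;> simp [h1]

theorem c1_eq1 {w : ↥leechLattice} : c1 w = 1 ↔ (w : GolayPt → ℤ) ∈ FB := by
  unfold c1
  split_ifs with h1 h2
  · have := Finset.disjoint_left.mp disj_AB h1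
    simp [this]
  · simp [h2]
  · simp [h2]

theorem c1_eq2 {w : ↥leechLattice} (hw : w ∈ D1) : c1 w = 2 ↔ (w : GolayPt → ℤ) ∈ FC := by
  unfold c1
  split_ifs with h1 h2
  · have := Finset.disjoint_left.mp disj_AC h1
    simp [this]
  · have := Finset.disjoint_left.mp disj_BC h2
    simp [this]
  · rcases mem_D1_cases hw with h | h | h
    · exact (h1 h).elim
    · exact (h2 h).elim
    · simp [h]

theorem c1_mem (w : ↥leechLattice) : c1 w ∈ ({0, 1, 2} : Finset ℤ) := by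
  unfold c1
  split_ifs <;> simp

theorem ncard_fin (F : Finset (GolayPt → ℤ)) (hF : ∀ x ∈ F, x ∈ leechLattice) :
    {y : ↥leechLattice | (y : GolayPt → ℤ) ∈ F}.ncard = F.card := by
  rw [ncard_subtype (fun y => y ∈ F), ← Set.ncard_coe_finset F]
  congr 1
  ext x
  simp only [Set.mem_ofPred_eq, Finset.mem_coe]
  exact ⟨fun h => h.2, fun h => ⟨hF x h, h⟩⟩

theorem card_class0 : {y : ↥leechLattice | y ∈ D1 ∧ c1 y = 0}.ncard = 1104 := by
  rw [← card_FA, ← ncard_fin FA (fun x hx => ((shell_iff x).mpr (Or.inl (Or.inl hx))).1)]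
  congr 1
  ext y
  simp only [Set.mem_ofPred_eq]
  constructor
  · rintro ⟨_, h⟩
    exact c1_eq0.mp h
  · intro h
    exact ⟨((shell_iff _).mpr (Or.inl (Or.inl h))).2, c1_eq0.mpr h⟩

theorem card_class1 : {y : ↥leechLattice | y ∈ D1 ∧ c1 y = 1}.ncard = 97152 := by
  rw [← card_FB, ← ncard_fin FB (fun x hx => ((shell_iff x).mpr (Or.inl (Or.inr hx))).1)]
  congr 1
  ext y
  simp only [Set.mem_ofPred_eq]
  constructor
  · rintro ⟨_, h⟩
    exact c1_eq1.mp h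
  · intro h
    exact ⟨((shell_iff _).mpr (Or.inl (Or.inr h))).2, c1_eq1.mpr h⟩

theorem card_class2 : {y : ↥leechLattice | y ∈ D1 ∧ c1 y = 2}.ncard = 98304 := by
  rw [← card_FC, ← ncard_fin FC (fun x hx => ((shell_iff x).mpr (Or.inr hx)).1)]
  congr 1
  ext y
  simp only [Set.mem_ofPred_eq]
  constructor
  · rintro ⟨h0, h⟩
    exact (c1_eq2 h0).mp h
  · intro h
    have h0 : y ∈ D1 := ((shell_iff _).mpr (Or.inr h)).2
    exact ⟨h0, (c1_eq2 h0).mpr h⟩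

/-- A subgroup containing the stabiliser of the standard cross properly is transitive on the
minimal vectors. -/
theorem level1 (K : Subgroup ↥Co0) (hN : ∀ g : ↥Co0, g • c0 = c0 → g ∈ K)
    (hK : ∃ k ∈ K, k • c0 ≠ c0) :
    ∀ w ∈ D1, ∃ k ∈ K, k • V0 = w := by
  have hmono : ∀ σ (hσ : σ ∈ M24) C (hC : IsCW C), mono σ hσ C hC ∈ K :=
    fun σ hσ C hC => hN _ (mono_c0 σ hσ C hC)
  have hΩD : {y : ↥leechLattice | ∃ k ∈ K, k • V0 = y} ⊆ D1 := by
    rintro y ⟨k, hk, rfl⟩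
    show sqNorm _ = 32
    rw [sqNorm_smul]
    exact V0_norm
  have hA : ∀ w : ↥leechLattice, (w : GolayPt → ℤ) ∈ FA →
      w ∈ {y : ↥leechLattice | ∃ k ∈ K, k • V0 = y} := by
    intro w hw
    obtain ⟨σ, hσ, C, hC, e⟩ := L1_A w hw
    exact ⟨_, hmono σ hσ C hC, e⟩
  have hmove : ∀ x ∈ {y : ↥leechLattice | ∃ k ∈ K, k • V0 = y}, ∀ σ (hσ : σ ∈ M24) C
      (hC : IsCW C), mono σ hσ C hC • x ∈ {y : ↥leechLattice | ∃ k ∈ K, k • V0 = y} := by
    rintro x ⟨k, hk, rfl⟩ σ hσ C hC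
    exact ⟨mono σ hσ C hC * k, K.mul_mem (hmono σ hσ C hC) hk, mul_smul _ _ _⟩
  have hfull : ∀ x ∈ {y : ↥leechLattice | ∃ k ∈ K, k • V0 = y}, ∀ y ∈ D1, c1 y = c1 x →
      y ∈ {y : ↥leechLattice | ∃ k ∈ K, k • V0 = y} := by
    intro x hx y hy hc
    rcases mem_D1_cases (hΩD hx) with h | h | h
    · exact hA y (c1_eq0.mp (hc.trans (c1_eq0.mpr h)))
    · have hy' := c1_eq1.mp (hc.trans (c1_eq1.mpr h))
      obtain ⟨σ, hσ, C, hC, e⟩ := L1_B x y h hy'
      rw [← e]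
      exact hmove x hx σ hσ C hC
    · have hy' := (c1_eq2 hy).mp (hc.trans ((c1_eq2 (hΩD hx)).mpr h))
      obtain ⟨σ, hσ, C, hC, e⟩ := L1_C x y h hy'
      rw [← e]
      exact hmove x hx σ hσ C hC
  have hsum := ncard_classes _ D1 finite_D1 c1 {0, 1, 2} hΩD (fun x _ => c1_mem x) hfull
  rw [Finset.sum_insert (by decide), Finset.sum_insert (by decide), Finset.sum_singleton,
    card_class0, card_class1, card_class2] at hsum
  have hp0 : ∃ x ∈ {y : ↥leechLattice | ∃ k ∈ K, k • V0 = y}, c1 x = 0 := by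
    have hne : FA.Nonempty := by
      rw [← Finset.card_pos, card_FA]
      norm_num
    obtain ⟨x, hx⟩ := hne
    have hxl : x ∈ leechLattice := ((shell_iff x).mpr (Or.inl (Or.inl hx))).1
    exact ⟨⟨x, hxl⟩, hA ⟨x, hxl⟩ hx, c1_eq0.mpr hx⟩
  rw [if_pos hp0] at hsum
  have hne : (∃ x ∈ {y : ↥leechLattice | ∃ k ∈ K, k • V0 = y}, c1 x = 1) ∨
      (∃ x ∈ {y : ↥leechLattice | ∃ k ∈ K, k • V0 = y}, c1 x = 2) := by
    by_contra hcon
    have hall : ∀ x ∈ {y : ↥leechLattice | ∃ k ∈ K, k • V0 = y}, (x : GolayPt → ℤ) ∈ FA := by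
      intro x hx
      rcases mem_D1_cases (hΩD hx) with h | h | h
      · exact h
      · exact (hcon (Or.inl ⟨x, hx, c1_eq1.mpr h⟩)).elim
      · exact (hcon (Or.inr ⟨x, hx, (c1_eq2 (hΩD hx)).mpr h⟩)).elim
    obtain ⟨k, hk, hkc⟩ := hK
    apply hkc
    apply collapse
    intro w hw
    obtain ⟨k', hk', rfl⟩ := hA w hw
    apply hall
    exact ⟨k⁻¹ * k', K.mul_mem (K.inv_mem hk) hk', mul_smul _ _ _⟩
  have hdvd : {y : ↥leechLattice | ∃ k ∈ K, k • V0 = y}.ncard ∣ 8315553613086720000 := by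
    have h1 := card_orbit_stab K V0
    rw [← card_Co0]
    exact (Dvd.intro _ h1.symm).trans (Subgroup.card_subgroup_dvd_card K)
  have hq := by
    classical
    exact arith1 _ _ _ hsum hdvd hne
  obtain ⟨q1, q2⟩ := hq
  intro w hw
  have hc := c1_mem w
  simp only [Finset.mem_insert, Finset.mem_singleton] at hc
  rcases hc with h | h | h
  · obtain ⟨x, hx, hxc⟩ := hp0
    exact hfull x hx w hw (h.trans hxc.symm)
  · obtain ⟨x, hx, hxc⟩ := q1
    exact hfull x hx w hw (h.trans hxc.symm)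
  · obtain ⟨x, hx, hxc⟩ := q2
    exact hfull x hx w hw (h.trans hxc.symm)

/-! ### The second and third levels -/

/-- The inner product with `U0`. -/
noncomputable def cU (y : ↥leechLattice) : ℤ :=
  dotInt ((U0 : ↥leechLattice) : GolayPt → ℤ) (y : GolayPt → ℤ)

theorem class2_eq (t : ℤ) : {y : ↥leechLattice | y ∈ D2 ∧ cU y = t} = P2 t := by
  ext y
  exact ⟨fun ⟨⟨a, b⟩, c⟩ => ⟨a, b, c⟩, fun ⟨a, b, c⟩ => ⟨⟨a, b⟩, c⟩⟩

theorem class3_eq (t : ℤ) : {y : ↥leechLattice | y ∈ D3 ∧ cU y = t} = P3 t := by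
  ext y
  exact ⟨fun ⟨⟨a, b, c⟩, d⟩ => ⟨a, b, c, d⟩, fun ⟨a, b, c, d⟩ => ⟨⟨a, b, c⟩, d⟩⟩

theorem cU_mem2 (x : ↥leechLattice) (hx : x ∈ D2) : cU x ∈ ({-16, 16, 0, -8, 8} : Finset ℤ) := by
  have h := key2 x.2 hx.1 (by rw [← dot_V0]; exact hx.2)
  unfold cU
  rw [dot_U0]
  simp only [Finset.mem_insert, Finset.mem_singleton]
  omega

theorem cU_mem3 (x : ↥leechLattice) (hx : x ∈ D3) : cU x ∈ ({32, 0, 16, 8} : Finset ℤ) := by
  have h := key3 x.2 hx.1 (by rw [← dot_V0]; exact hx.2.1) (by rw [← dot_W16]; exact hx.2.2)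
  unfold cU
  rw [dot_U0]
  simp only [Finset.mem_insert, Finset.mem_singleton]
  omega

theorem card_dvd_K (K : Subgroup ↥Co0) (hN : ∀ g : ↥Co0, g • c0 = c0 → g ∈ K) :
    4096 * 244823040 ∣ Nat.card ↥K := by
  rw [← card_stab]
  exact Subgroup.card_dvd_of_le (fun g hg => hN g (MulAction.mem_stabilizer_iff.mp hg))

theorem card_K1 (K : Subgroup ↥Co0) (h1 : ∀ w ∈ D1, ∃ k ∈ K, k • V0 = w) :
    Nat.card ↥K = 196560 * Nat.card ↥(K ⊓ SV) := by
  have e1 : Nat.card ↥K = {y : ↥leechLattice | ∃ k ∈ K, k • V0 = y}.ncard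
      * Nat.card ↥(K ⊓ SV) := card_orbit_stab K V0
  have hΩ : {y : ↥leechLattice | ∃ k ∈ K, k • V0 = y} = D1 := by
    ext y
    constructor
    · rintro ⟨k, hk, rfl⟩
      show sqNorm _ = 32
      rw [sqNorm_smul]
      exact V0_norm
    · intro hy
      exact h1 y hy
  rw [hΩ, card_D1] at e1
  exact e1

theorem sub_D2 (K : Subgroup ↥Co0) : {y : ↥leechLattice | ∃ k ∈ K ⊓ SV, k • W16 = y} ⊆ D2 := by
  rintro y ⟨k, hk, rfl⟩
  have hk1 := MulAction.mem_stabilizer_iff.mp (Subgroup.mem_inf.mp hk).2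
  refine ⟨?_, ?_⟩
  · rw [sqNorm_smul]
    exact W16_norm
  · have h3 := dot_smul k V0 W16
    rw [hk1] at h3
    rw [h3]
    exact dot_V0_W16

/-- The stabiliser of `V0` in the larger subgroup is transitive on the second layer. -/
theorem level2 (K : Subgroup ↥Co0) (hN : ∀ g : ↥Co0, g • c0 = c0 → g ∈ K)
    (h1 : ∀ w ∈ D1, ∃ k ∈ K, k • V0 = w) :
    ∀ w ∈ D2, ∃ k ∈ K ⊓ SV, k • W16 = w := by
  have hmono : ∀ σ (hσ : σ ∈ M24) C (hC : IsCW C), mono σ hσ C hC ∈ K :=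
    fun σ hσ C hC => hN _ (mono_c0 σ hσ C hC)
  have hZD := sub_D2 K
  have hfull : ∀ x ∈ {y : ↥leechLattice | ∃ k ∈ K ⊓ SV, k • W16 = y}, ∀ y ∈ D2,
      cU y = cU x → y ∈ {y : ↥leechLattice | ∃ k ∈ K ⊓ SV, k • W16 = y} := by
    intro x hx y hy hc
    obtain ⟨σ, hσ, C, hC, f1, f2, e⟩ := L2_class x y (hZD hx).1 hy.1 (hZD hx).2 hy.2 hc
    obtain ⟨k, hk, rfl⟩ := hx
    refine ⟨mono σ hσ C hC * k, ?_, by rw [mul_smul]; exact e⟩
    exact (K ⊓ SV).mul_mem (Subgroup.mem_inf.mpr ⟨hmono σ hσ C hC,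
      MulAction.mem_stabilizer_iff.mpr (fix_V0 hσ hC f1 f2)⟩) hk
  have hsum := ncard_classes _ D2 (finite_D1.subset D2_sub) cU {-16, 16, 0, -8, 8} hZD
    cU_mem2 hfull
  rw [Finset.sum_insert (by decide), Finset.sum_insert (by decide),
    Finset.sum_insert (by decide), Finset.sum_insert (by decide), Finset.sum_singleton] at hsum
  simp only [class2_eq] at hsum
  rw [card_P2_m16, card_P2_16, card_P2_0, card_P2_m8, card_P2_8] at hsum
  have hp0 : ∃ x ∈ {y : ↥leechLattice | ∃ k ∈ K ⊓ SV, k • W16 = y}, cU x = -16 :=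
    ⟨W16, ⟨1, one_mem _, one_smul _ _⟩, dot_U0_W16⟩
  rw [if_pos hp0] at hsum
  have hd23 : 23 ∣ {y : ↥leechLattice | ∃ k ∈ K ⊓ SV, k • W16 = y}.ncard := by
    have e1 := card_K1 K h1
    have e2 : Nat.card ↥(K ⊓ SV) = {y : ↥leechLattice | ∃ k ∈ K ⊓ SV, k • W16 = y}.ncard
        * Nat.card ↥(K ⊓ SV ⊓ SW) := card_orbit_stab (K ⊓ SV) W16
    rw [e2] at e1
    have h23 : 23 ∣ 196560 * ({y : ↥leechLattice | ∃ k ∈ K ⊓ SV, k • W16 = y}.ncard
        * Nat.card ↥(K ⊓ SV ⊓ SW)) := by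
      rw [← e1]
      exact (by norm_num : 23 ∣ 4096 * 244823040).trans (card_dvd_K K hN)
    have hm : Nat.card ↥(K ⊓ SV ⊓ SW) ∣ 9196830720 := by
      rw [← card_SVW]
      exact Subgroup.card_dvd_of_le (inf_le_inf_right SW inf_le_right)
    exact prime_dvd_chain 23 196560 _ _ 9196830720 (by norm_num) h23 (by norm_num) hm
      (by norm_num)
  have hq := by
    classical
    exact arith2 _ _ _ _ _ hsum hd23
  obtain ⟨q1, q2, q3, q4⟩ := hq
  intro w hw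
  have hc := cU_mem2 w hw
  simp only [Finset.mem_insert, Finset.mem_singleton] at hc
  rcases hc with h | h | h | h | h
  · obtain ⟨x, hx, hxc⟩ := hp0
    exact hfull x hx w hw (h.trans hxc.symm)
  · obtain ⟨x, hx, hxc⟩ := q1
    exact hfull x hx w hw (h.trans hxc.symm)
  · obtain ⟨x, hx, hxc⟩ := q2
    exact hfull x hx w hw (h.trans hxc.symm)
  · obtain ⟨x, hx, hxc⟩ := q3
    exact hfull x hx w hw (h.trans hxc.symm)
  · obtain ⟨x, hx, hxc⟩ := q4
    exact hfull x hx w hw (h.trans hxc.symm)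

theorem card_K2 (K : Subgroup ↥Co0) (h2 : ∀ w ∈ D2, ∃ k ∈ K ⊓ SV, k • W16 = w) :
    Nat.card ↥(K ⊓ SV) = 4600 * Nat.card ↥(K ⊓ SV ⊓ SW) := by
  have e2 : Nat.card ↥(K ⊓ SV) = {y : ↥leechLattice | ∃ k ∈ K ⊓ SV, k • W16 = y}.ncard
      * Nat.card ↥(K ⊓ SV ⊓ SW) := card_orbit_stab (K ⊓ SV) W16
  have hΩ : {y : ↥leechLattice | ∃ k ∈ K ⊓ SV, k • W16 = y} = D2 :=
    Set.Subset.antisymm (sub_D2 K) (fun y hy => h2 y hy)
  rw [hΩ, card_D2] at e2
  exact e2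

theorem sub_D3 (K : Subgroup ↥Co0) :
    {y : ↥leechLattice | ∃ k ∈ K ⊓ SV ⊓ SW, k • U0 = y} ⊆ D3 := by
  rintro y ⟨k, hk, rfl⟩
  have hk1 := MulAction.mem_stabilizer_iff.mp (Subgroup.mem_inf.mp (Subgroup.mem_inf.mp hk).1).2
  have hk2 := MulAction.mem_stabilizer_iff.mp (Subgroup.mem_inf.mp hk).2
  refine ⟨?_, ?_, ?_⟩
  · rw [sqNorm_smul]
    exact U0_norm
  · have h3 := dot_smul k V0 U0
    rw [hk1] at h3
    rw [h3]
    exact dot_V0_U0
  · have h3 := dot_smul k W16 U0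
    rw [hk2] at h3
    rw [h3]
    exact dot_W16_U0

/-- The stabiliser of `V0` and `W16` in the larger subgroup is transitive on the third layer. -/
theorem level3 (K : Subgroup ↥Co0) (hN : ∀ g : ↥Co0, g • c0 = c0 → g ∈ K)
    (h1 : ∀ w ∈ D1, ∃ k ∈ K, k • V0 = w) (h2 : ∀ w ∈ D2, ∃ k ∈ K ⊓ SV, k • W16 = w) :
    ∀ w ∈ D3, ∃ k ∈ K ⊓ SV ⊓ SW, k • U0 = w := by
  have hmono : ∀ σ (hσ : σ ∈ M24) C (hC : IsCW C), mono σ hσ C hC ∈ K :=
    fun σ hσ C hC => hN _ (mono_c0 σ hσ C hC)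
  have hZD := sub_D3 K
  have hfull : ∀ x ∈ {y : ↥leechLattice | ∃ k ∈ K ⊓ SV ⊓ SW, k • U0 = y}, ∀ y ∈ D3,
      cU y = cU x → y ∈ {y : ↥leechLattice | ∃ k ∈ K ⊓ SV ⊓ SW, k • U0 = y} := by
    intro x hx y hy hc
    obtain ⟨σ, hσ, C, hC, f1, f2, e⟩ := L3_class x y (hZD hx).1 hy.1 (hZD hx).2.1 hy.2.1
      (hZD hx).2.2 hy.2.2 hc
    obtain ⟨k, hk, rfl⟩ := hx
    refine ⟨mono σ hσ C hC * k, ?_, by rw [mul_smul]; exact e⟩
    exact (K ⊓ SV ⊓ SW).mul_mem (Subgroup.mem_inf.mpr ⟨Subgroup.mem_inf.mpr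
      ⟨hmono σ hσ C hC, MulAction.mem_stabilizer_iff.mpr (fix_V0 hσ hC
        (fun i hi => f1 i (F2_sub_F3 hi)) (fun i hi => f2 i (F2_sub_F3 hi)))⟩,
      MulAction.mem_stabilizer_iff.mpr (fix_W16 hσ hC f1 f2)⟩) hk
  have hsum := ncard_classes _ D3 (finite_D1.subset D3_sub) cU {32, 0, 16, 8} hZD
    cU_mem3 hfull
  rw [Finset.sum_insert (by decide), Finset.sum_insert (by decide),
    Finset.sum_insert (by decide), Finset.sum_singleton] at hsum
  simp only [class3_eq] at hsum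
  rw [card_P3_32, card_P3_0, card_P3_16, card_P3_8] at hsum
  have hp0 : ∃ x ∈ {y : ↥leechLattice | ∃ k ∈ K ⊓ SV ⊓ SW, k • U0 = y}, cU x = 32 :=
    ⟨U0, ⟨1, one_mem _, one_smul _ _⟩, dot_U0_U0⟩
  rw [if_pos hp0] at hsum
  have hd11 : 11 ∣ {y : ↥leechLattice | ∃ k ∈ K ⊓ SV ⊓ SW, k • U0 = y}.ncard := by
    have e1 := card_K1 K h1
    have e2 := card_K2 K h2
    have e3 : Nat.card ↥(K ⊓ SV ⊓ SW)
        = {y : ↥leechLattice | ∃ k ∈ K ⊓ SV ⊓ SW, k • U0 = y}.ncard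
          * Nat.card ↥(K ⊓ SV ⊓ SW ⊓ SU) := card_orbit_stab (K ⊓ SV ⊓ SW) U0
    rw [e2, e3, ← mul_assoc] at e1
    have h11 : 11 ∣ 196560 * 4600 * ({y : ↥leechLattice | ∃ k ∈ K ⊓ SV ⊓ SW, k • U0 = y}.ncard
        * Nat.card ↥(K ⊓ SV ⊓ SW ⊓ SU)) := by
      rw [← e1]
      exact (by norm_num : 11 ∣ 4096 * 244823040).trans (card_dvd_K K hN)
    have hm : Nat.card ↥(K ⊓ SV ⊓ SW ⊓ SU) ∣ 10321920 := by
      rw [← card_SVUW]
      apply Subgroup.card_dvd_of_le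
      intro g hg
      have a := Subgroup.mem_inf.mp hg
      have b := Subgroup.mem_inf.mp a.1
      have c := Subgroup.mem_inf.mp b.1
      exact Subgroup.mem_inf.mpr ⟨Subgroup.mem_inf.mpr ⟨c.2, a.2⟩, b.2⟩
    exact prime_dvd_chain 11 (196560 * 4600) _ _ 10321920 (by norm_num) h11 (by norm_num) hm
      (by norm_num)
  have hq := by
    classical
    exact arith3 _ _ _ _ hsum hd11
  obtain ⟨q1, q2, q3⟩ := hq
  intro w hw
  have hc := cU_mem3 w hw
  simp only [Finset.mem_insert, Finset.mem_singleton] at hc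
  rcases hc with h | h | h | h
  · obtain ⟨x, hx, hxc⟩ := hp0
    exact hfull x hx w hw (h.trans hxc.symm)
  · obtain ⟨x, hx, hxc⟩ := q1
    exact hfull x hx w hw (h.trans hxc.symm)
  · obtain ⟨x, hx, hxc⟩ := q2
    exact hfull x hx w hw (h.trans hxc.symm)
  · obtain ⟨x, hx, hxc⟩ := q3
    exact hfull x hx w hw (h.trans hxc.symm)

/-- A subgroup of the automorphism group containing the stabiliser of the standard cross and an
element outside it is the whole group. -/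
theorem maximal_aux (K : Subgroup ↥Co0) (hN : ∀ g : ↥Co0, g • c0 = c0 → g ∈ K)
    (hK : ∃ k ∈ K, k • c0 ≠ c0) : K = ⊤ := by
  have h1 := level1 K hN hK
  have h2 := level2 K hN h1
  have h3 := level3 K hN h1 h2
  rw [eq_top_iff]
  intro g _
  obtain ⟨k1, hk1, e1⟩ := h1 (g • V0) (by
    show sqNorm _ = 32
    rw [sqNorm_smul]
    exact V0_norm)
  have f1 : (k1⁻¹ * g) • V0 = V0 := by
    rw [mul_smul, inv_smul_eq_iff, e1]
  obtain ⟨k2, hk2, e2⟩ := h2 ((k1⁻¹ * g) • W16) ⟨by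
    rw [sqNorm_smul]
    exact W16_norm, by
    have h := dot_smul (k1⁻¹ * g) V0 W16
    rw [f1] at h
    rw [h]
    exact dot_V0_W16⟩
  have hk2V := MulAction.mem_stabilizer_iff.mp (Subgroup.mem_inf.mp hk2).2
  have f2V : (k2⁻¹ * (k1⁻¹ * g)) • V0 = V0 := by
    rw [mul_smul, f1, inv_smul_eq_iff, hk2V]
  have f2W : (k2⁻¹ * (k1⁻¹ * g)) • W16 = W16 := by
    rw [mul_smul, inv_smul_eq_iff, e2]
  obtain ⟨k3, hk3, e3⟩ := h3 ((k2⁻¹ * (k1⁻¹ * g)) • U0) ⟨by
    rw [sqNorm_smul]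
    exact U0_norm, by
    have h := dot_smul (k2⁻¹ * (k1⁻¹ * g)) V0 U0
    rw [f2V] at h
    rw [h]
    exact dot_V0_U0, by
    have h := dot_smul (k2⁻¹ * (k1⁻¹ * g)) W16 U0
    rw [f2W] at h
    rw [h]
    exact dot_W16_U0⟩
  have hk3K := (Subgroup.mem_inf.mp (Subgroup.mem_inf.mp hk3).1).1
  have hk3V := MulAction.mem_stabilizer_iff.mp (Subgroup.mem_inf.mp (Subgroup.mem_inf.mp hk3).1).2
  have f3V : (k3⁻¹ * (k2⁻¹ * (k1⁻¹ * g))) • V0 = V0 := by
    rw [mul_smul, f2V, inv_smul_eq_iff, hk3V]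
  have f3U : (k3⁻¹ * (k2⁻¹ * (k1⁻¹ * g))) • U0 = U0 := by
    rw [mul_smul, inv_smul_eq_iff, e3]
  have hc : (k3⁻¹ * (k2⁻¹ * (k1⁻¹ * g))) • c0 = c0 := by
    have h0 : c0 = cls ((V0 + U0 : ↥leechLattice) : GolayPt → ℤ) := by
      rw [V0_add_U0]
      rfl
    rw [h0, smul_cls, smul_add', f3V, f3U]
  have hg : g = k1 * (k2 * (k3 * (k3⁻¹ * (k2⁻¹ * (k1⁻¹ * g))))) := by
    group
  rw [hg]
  exact K.mul_mem hk1 (K.mul_mem (Subgroup.mem_inf.mp hk2).1 (K.mul_mem hk3K (hN _ hc)))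

end Cfsg.Agent.Lib.Helper92.MaxChain
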