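import Mathlib
import Cfsg.Prelude.Def_MonsterType

/-!
Groups of Monster type: elementary consequences of the identification of `Q / Z(Q)` with the
Leech lattice modulo 2 (abstract form `LIso`), the squaring map and the commutator pairing, and a
chain construction of elementary abelian subgroups.
-/

set_option autoImplicit false

namespace Cfsg.Agent.Lib.Helper92.MonQ

open Cfsg

/-! ### Adjoining a commuting involution to an elementary abelian 2-subgroup -/

section ext

variable {H : Type*} [Group H]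

theorem extend_elemAb [Finite H] (E : Subgroup H) (hE : IsElementaryAbelian 2 E) (x : H)
    (hx2 : x * x = 1) (hxE : x ∉ E) (hcomm : ∀ y ∈ E, x * y = y * x) :
    ∃ E' : Subgroup H, IsElementaryAbelian 2 E' ∧ Nat.card E' = 2 * Nat.card E ∧
      ∀ y ∈ E', y ∈ E ∨ y * x ∈ E := by
  obtain ⟨hEc, hE2⟩ := hE
  have hEcomm : ∀ a ∈ E, ∀ b ∈ E, a * b = b * a := by
    intro a ha b hb
    have := (isMulCommutative_iff.mp hEc) ⟨a, ha⟩ ⟨b, hb⟩
    exact congrArg Subtype.val this
  have hxinv : x⁻¹ = x := inv_eq_of_mul_eq_one_left hx2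
  -- if `a * x ∈ E` then `x` commutes with `a`
  have hxa : ∀ a : H, a * x ∈ E → x * a = a * x := by
    intro a ha
    have h1 := hcomm _ ha
    have h3 := congrArg (fun t => t * x⁻¹) h1
    simp only [mul_assoc, mul_inv_cancel, mul_one] at h3
    rw [h3]
  let E' : Subgroup H :=
    { carrier := {y | y ∈ E ∨ y * x ∈ E}
      one_mem' := Or.inl E.one_mem
      mul_mem' := by
        rintro a b (ha | ha) (hb | hb)
        · exact Or.inl (E.mul_mem ha hb)
        · right
          rw [mul_assoc]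
          exact E.mul_mem ha hb
        · right
          have : a * b * x = (a * x) * b := by
            rw [mul_assoc, ← hcomm b hb, ← mul_assoc]
          rw [this]
          exact E.mul_mem ha hb
        · left
          have : a * b = (a * x) * (b * x) := by
            rw [mul_assoc a x, ← mul_assoc x b x, hxa b hb, mul_assoc b x x, hx2, mul_one]
          rw [this]
          exact E.mul_mem ha hb
      inv_mem' := by
        rintro a (ha | ha)
        · exact Or.inl (E.inv_mem ha)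
        · right
          have h1 : (a * x)⁻¹ ∈ E := E.inv_mem ha
          have h2 : (a * x)⁻¹ = a⁻¹ * x := by
            rw [← hxa a ha, mul_inv_rev, hxinv]
          rwa [h2] at h1 }
  have hmem : ∀ y : H, y ∈ E' ↔ y ∈ E ∨ y * x ∈ E := fun y => Iff.rfl
  have hform : ∀ y ∈ E', ∃ e ∈ E, y = e ∨ y = e * x := by
    intro y hy
    rcases (hmem y).mp hy with h | h
    · exact ⟨y, h, Or.inl rfl⟩
    · exact ⟨y * x, h, Or.inr (by rw [mul_assoc, hx2, mul_one])⟩
  refine ⟨E', ⟨?_, ?_⟩, ?_, fun y hy => (hmem y).mp hy⟩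
  · rw [isMulCommutative_iff]
    rintro ⟨a, ha⟩ ⟨b, hb⟩
    apply Subtype.ext
    show a * b = b * a
    obtain ⟨e, he, h | h⟩ := hform a ha <;> obtain ⟨f, hf, h' | h'⟩ := hform b hb <;> rw [h, h']
    · exact hEcomm e he f hf
    · rw [← mul_assoc, hEcomm e he f hf, mul_assoc, mul_assoc, hcomm e he]
    · rw [mul_assoc, hcomm f hf, ← mul_assoc, hEcomm e he f hf, mul_assoc]
    · have h1 : e * x * (f * x) = e * f := by
        rw [mul_assoc e x, ← mul_assoc x f x, hcomm f hf, mul_assoc f x x, hx2, mul_one]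
      have h2 : f * x * (e * x) = f * e := by
        rw [mul_assoc f x, ← mul_assoc x e x, hcomm e he, mul_assoc e x x, hx2, mul_one]
      rw [h1, h2, hEcomm e he f hf]
  · intro a ha
    obtain ⟨e, he, h | h⟩ := hform a ha <;> rw [h]
    · exact hE2 e he
    · have h1 : e * e = 1 := by
        have := hE2 e he
        rwa [pow_two] at this
      rw [pow_two, mul_assoc e x, ← mul_assoc x e x, hcomm e he, mul_assoc e x x, hx2, mul_one, h1]
  · have hset : (E' : Set H) = (E : Set H) ∪ (fun y => y * x⁻¹) '' (E : Set H) := by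
      ext y
      simp only [Set.mem_union, Set.mem_image, SetLike.mem_coe]
      rw [hmem]
      constructor
      · rintro (h | h)
        · exact Or.inl h
        · exact Or.inr ⟨y * x, h, by rw [mul_assoc, mul_inv_cancel, mul_one]⟩
      · rintro (h | ⟨e, he, rfl⟩)
        · exact Or.inl h
        · right
          rw [mul_assoc, inv_mul_cancel, mul_one]
          exact he
    have hdisj : Disjoint (E : Set H) ((fun y => y * x⁻¹) '' (E : Set H)) := by
      rw [Set.disjoint_left]
      rintro y hy ⟨e, he, rfl⟩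
      apply hxE
      have h1 : (e * x⁻¹)⁻¹ * e ∈ E := E.mul_mem (E.inv_mem hy) he
      have h2 : (e * x⁻¹)⁻¹ * e = x := by
        rw [mul_inv_rev, inv_inv, mul_assoc, inv_mul_cancel, mul_one]
      rwa [h2] at h1
    have hinj : Function.Injective (fun y : H => y * x⁻¹) := mul_left_injective _
    have hc1 : Nat.card E' = (E' : Set H).ncard := (Nat.card_coe_set_eq _)
    have hc2 : Nat.card E = (E : Set H).ncard := (Nat.card_coe_set_eq _)
    rw [hc1, hc2, hset, Set.ncard_union_eq hdisj (Set.toFinite _) (Set.toFinite _),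
      Set.ncard_image_of_injective _ hinj]
    ring

end ext

/-! ### The abstract setting -/

section liso

variable {C : Type*} [Group C] (Q : Subgroup C) [Q.Normal]

/-- Abstract form of the identification of `Q / Z(Q)` with the Leech lattice modulo 2: the centre
of `Q` has order 2, `ψ` is additive, onto, with kernel the doubles, and every lattice automorphism
is matched by the conjugation action of some element of the ambient group. -/
structure LIso (ψ : leechLattice → ↥Q ⧸ Subgroup.center ↥Q) : Prop where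
  card : Nat.card (Subgroup.center ↥Q) = 2
  add : ∀ v w : leechLattice, ψ (v + w) = ψ v * ψ w
  surj : Function.Surjective ψ
  ker : ∀ v : leechLattice, ψ v = 1 ↔ ∃ w : leechLattice, v = w + w
  lift : ∀ g : Co0, ∃ h : C, ∀ (v : leechLattice) (q : Q), ψ v = QuotientGroup.mk q →
      ψ (g • v) = QuotientGroup.mk
        ⟨h * q * h⁻¹, (inferInstance : Q.Normal).conj_mem (q : C) q.2 h⟩

variable {Q} {ψ : leechLattice → ↥Q ⧸ Subgroup.center ↥Q}

theorem LIso.exists_c (hL : LIso Q ψ) : ∃ c : Q, c ∈ Subgroup.center ↥Q ∧ c ≠ 1 ∧ c * c = 1 ∧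
    ∀ x ∈ Subgroup.center ↥Q, x = 1 ∨ x = c := by
  obtain ⟨⟨c, hc⟩, hc1, huniq⟩ := (Nat.card_eq_two_iff' (1 : Subgroup.center ↥Q)).mp hL.card
  have hne : c ≠ 1 := fun h => hc1 (Subtype.ext h)
  have hcases : ∀ x ∈ Subgroup.center ↥Q, x = 1 ∨ x = c := by
    intro x hx
    by_cases h : x = 1
    · exact Or.inl h
    · right
      have := huniq ⟨x, hx⟩ (fun h' => h (congrArg Subtype.val h'))
      exact congrArg Subtype.val this
  refine ⟨c, hc, hne, ?_, hcases⟩
  rcases hcases (c * c) (Subgroup.mul_mem _ hc hc) with h | h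
  · exact h
  · exfalso
    apply hne
    have : c * c = c * 1 := by rw [h, mul_one]
    exact mul_left_cancel this

/-- The non-trivial central element of `Q`. -/
noncomputable def LIso.c (hL : LIso Q ψ) : Q := Classical.choose hL.exists_c

theorem LIso.c_mem (hL : LIso Q ψ) : hL.c ∈ Subgroup.center ↥Q := (Classical.choose_spec hL.exists_c).1

theorem LIso.c_ne (hL : LIso Q ψ) : hL.c ≠ 1 := (Classical.choose_spec hL.exists_c).2.1

theorem LIso.c_sq (hL : LIso Q ψ) : hL.c * hL.c = 1 := (Classical.choose_spec hL.exists_c).2.2.1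

theorem LIso.cases (hL : LIso Q ψ) {x : Q} (hx : x ∈ Subgroup.center ↥Q) : x = 1 ∨ x = hL.c :=
  (Classical.choose_spec hL.exists_c).2.2.2 x hx

theorem LIso.c_comm (hL : LIso Q ψ) (q : Q) : q * hL.c = hL.c * q :=
  Subgroup.mem_center_iff.mp hL.c_mem q

theorem LIso.sq_of_mem (hL : LIso Q ψ) {x : Q} (hx : x ∈ Subgroup.center ↥Q) : x * x = 1 := by
  rcases hL.cases hx with h | h
  · rw [h, mul_one]
  · rw [h, hL.c_sq]

theorem LIso.mk_eq (hL : LIso Q ψ) {x y : Q}
    (h : (QuotientGroup.mk x : ↥Q ⧸ Subgroup.center ↥Q) = QuotientGroup.mk y) :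
    y = x ∨ y = x * hL.c := by
  have h1 : x⁻¹ * y ∈ Subgroup.center ↥Q := QuotientGroup.eq.mp h
  rcases hL.cases h1 with h2 | h2
  · left
    have := congrArg (fun t => x * t) h2
    simpa using this
  · right
    have := congrArg (fun t => x * t) h2
    simpa using this

theorem LIso.psi_zero (hL : LIso Q ψ) : ψ 0 = 1 := (hL.ker 0).mpr ⟨0, (add_zero 0).symm⟩

theorem LIso.psi_dbl (hL : LIso Q ψ) (v : leechLattice) : ψ (v + v) = 1 := (hL.ker _).mpr ⟨v, rfl⟩

theorem LIso.psi_sq (hL : LIso Q ψ) (v : leechLattice) : ψ v * ψ v = 1 := by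
  rw [← hL.add, hL.psi_dbl]

theorem LIso.psi_congr (hL : LIso Q ψ) (v w : leechLattice) : ψ (v + (w + w)) = ψ v := by
  rw [hL.add, hL.psi_dbl, mul_one]

theorem LIso.sq_mem (hL : LIso Q ψ) (x : Q) : x * x ∈ Subgroup.center ↥Q := by
  obtain ⟨v, hv⟩ := hL.surj (QuotientGroup.mk x)
  rw [← QuotientGroup.eq_one_iff, QuotientGroup.mk_mul, ← hv, hL.psi_sq]

theorem LIso.mk_comm (hL : LIso Q ψ) (x y : Q) :
    (QuotientGroup.mk x : ↥Q ⧸ Subgroup.center ↥Q) * QuotientGroup.mk y =
      QuotientGroup.mk y * QuotientGroup.mk x := by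
  obtain ⟨v, hv⟩ := hL.surj (QuotientGroup.mk x)
  obtain ⟨w, hw⟩ := hL.surj (QuotientGroup.mk y)
  rw [← hv, ← hw, ← hL.add, ← hL.add, add_comm]

/-- The commutator of two elements of `Q`. -/
def kap (x y : Q) : Q := x * y * x⁻¹ * y⁻¹

theorem LIso.kap_mem (hL : LIso Q ψ) (x y : Q) : kap x y ∈ Subgroup.center ↥Q := by
  unfold kap
  rw [← QuotientGroup.eq_one_iff, QuotientGroup.mk_mul, QuotientGroup.mk_mul, QuotientGroup.mk_mul,
    hL.mk_comm x y, QuotientGroup.mk_inv, QuotientGroup.mk_inv]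
  group

theorem kap_eq_one {x y : Q} (h : kap x y = 1) : x * y = y * x := by
  unfold kap at h
  have := congrArg (fun t => t * y * x) h
  simpa [mul_assoc] using this

theorem kap_of_comm {x y : Q} (h : x * y = y * x) : kap x y = 1 := by
  unfold kap
  rw [h]
  group

theorem LIso.kap_central (hL : LIso Q ψ) {x : Q} (hx : x ∈ Subgroup.center ↥Q) (y : Q) :
    kap x y = 1 :=
  kap_of_comm (Subgroup.mem_center_iff.mp hx y).symm

theorem LIso.kap_mul (hL : LIso Q ψ) (x x' y : Q) : kap (x * x') y = kap x y * kap x' y := by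
  have h1 := Subgroup.mem_center_iff.mp (hL.kap_mem x' y)
  have h2 : kap (x * x') y = x * kap x' y * y * x⁻¹ * y⁻¹ := by
    unfold kap
    group
  rw [h2, h1 x, h1 (kap x y)]
  unfold kap
  group

theorem LIso.mul_sq (hL : LIso Q ψ) (x y : Q) :
    (x * y) * (x * y) = (x * x) * (y * y) * kap y x := by
  have h1 := Subgroup.mem_center_iff.mp (hL.kap_mem y x)
  have h2 : (x * y) * (x * y) = x * kap y x * x * y * y := by
    unfold kap
    group
  rw [h2, h1 x]
  have h3 : x * x * (y * y) * kap y x = kap y x * (x * x * (y * y)) := h1 _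
  rw [h3]
  group

theorem LIso.conj_c (hL : LIso Q ψ) (h : C) : h * (hL.c : C) * h⁻¹ = (hL.c : C) := by
  set c' : Q := ⟨h * (hL.c : C) * h⁻¹, (inferInstance : Q.Normal).conj_mem _ hL.c.2 h⟩ with hc'
  have hmem : c' ∈ Subgroup.center ↥Q := by
    rw [Subgroup.mem_center_iff]
    intro q
    apply Subtype.ext
    show (q : C) * (h * (hL.c : C) * h⁻¹) = h * (hL.c : C) * h⁻¹ * (q : C)
    have hq' : h⁻¹ * (q : C) * h ∈ Q := by
      have := (inferInstance : Q.Normal).conj_mem _ q.2 h⁻¹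
      rwa [inv_inv] at this
    have h1 := congrArg Subtype.val (hL.c_comm ⟨_, hq'⟩)
    have h2 : (h⁻¹ * (q : C) * h) * (hL.c : C) = (hL.c : C) * (h⁻¹ * (q : C) * h) := h1
    calc (q : C) * (h * (hL.c : C) * h⁻¹) = h * ((h⁻¹ * (q : C) * h) * (hL.c : C)) * h⁻¹ := by group
      _ = h * ((hL.c : C) * (h⁻¹ * (q : C) * h)) * h⁻¹ := by rw [h2]
      _ = h * (hL.c : C) * h⁻¹ * (q : C) := by group
  rcases hL.cases hmem with h1 | h1
  · exfalso
    apply hL.c_ne
    apply Subtype.ext
    have h2 : h * (hL.c : C) * h⁻¹ = 1 := congrArg Subtype.val h1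
    have h3 := congrArg (fun t => h⁻¹ * t * h) h2
    simpa [mul_assoc] using h3
  · exact congrArg Subtype.val h1

theorem LIso.conj_central (hL : LIso Q ψ) (h : C) {x : Q} (hx : x ∈ Subgroup.center ↥Q) :
    h * (x : C) * h⁻¹ = (x : C) := by
  rcases hL.cases hx with h1 | h1
  · rw [h1]
    simp
  · rw [h1, hL.conj_c]

theorem LIso.exists_conj_c (hL : LIso Q ψ) {x : Q} (hx : x ∉ Subgroup.center ↥Q) :
    ∃ q : Q, q * x * q⁻¹ = x * hL.c := by
  rw [Subgroup.mem_center_iff] at hx
  push Not at hx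
  obtain ⟨q, hq⟩ := hx
  refine ⟨q, ?_⟩
  rcases hL.cases (hL.kap_mem q x) with h1 | h1
  · exact absurd (kap_eq_one h1) hq
  · have h2 : q * x * q⁻¹ = kap q x * x := by
      unfold kap
      group
    rw [h2, h1, hL.c_comm]

/-! ### The squaring map and the commutator pairing on the lattice -/

/-- A lift to `Q` of the image of a lattice vector. -/
noncomputable def lft (ψ : leechLattice → ↥Q ⧸ Subgroup.center ↥Q) (v : leechLattice) : Q :=
  (ψ v).out

theorem mk_lft (v : leechLattice) : (QuotientGroup.mk (lft ψ v) : ↥Q ⧸ Subgroup.center ↥Q) = ψ v :=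
  QuotientGroup.out_eq' _

/-- The square of any lift of the image of a lattice vector. -/
noncomputable def S (ψ : leechLattice → ↥Q ⧸ Subgroup.center ↥Q) (v : leechLattice) : Q :=
  lft ψ v * lft ψ v

/-- The commutator of lifts. -/
noncomputable def K (ψ : leechLattice → ↥Q ⧸ Subgroup.center ↥Q) (v w : leechLattice) : Q :=
  kap (lft ψ v) (lft ψ w)

theorem LIso.S_mem (hL : LIso Q ψ) (v : leechLattice) : S ψ v ∈ Subgroup.center ↥Q := hL.sq_mem _

theorem LIso.S_sq (hL : LIso Q ψ) (v : leechLattice) : S ψ v * S ψ v = 1 := hL.sq_of_mem (hL.S_mem v)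

theorem LIso.S_eq (hL : LIso Q ψ) {v : leechLattice} {q : Q} (h : ψ v = QuotientGroup.mk q) :
    q * q = S ψ v := by
  have h1 : (QuotientGroup.mk (lft ψ v) : ↥Q ⧸ Subgroup.center ↥Q) = QuotientGroup.mk q := by
    rw [mk_lft, h]
  unfold S
  rcases hL.mk_eq h1 with h2 | h2
  · rw [h2]
  · rw [h2]
    have e : lft ψ v * hL.c * (lft ψ v * hL.c) = lft ψ v * (hL.c * lft ψ v) * hL.c := by group
    rw [e, ← hL.c_comm, mul_assoc, mul_assoc, hL.c_sq, mul_one]

theorem S_psi {v w : leechLattice} (h : ψ v = ψ w) : S ψ v = S ψ w := by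
  unfold S lft
  rw [h]

theorem LIso.S_congr (hL : LIso Q ψ) (v w : leechLattice) : S ψ (v + (w + w)) = S ψ v :=
  S_psi (hL.psi_congr v w)

theorem LIso.S_smul (hL : LIso Q ψ) (g : Co0) (v : leechLattice) : S ψ (g • v) = S ψ v := by
  obtain ⟨h, hh⟩ := hL.lift g
  have h1 := hh v (lft ψ v) (mk_lft v).symm
  rw [← hL.S_eq h1]
  apply Subtype.ext
  show h * (lft ψ v : C) * h⁻¹ * (h * (lft ψ v : C) * h⁻¹) = ((S ψ v : Q) : C)
  have h2 : h * (lft ψ v : C) * h⁻¹ * (h * (lft ψ v : C) * h⁻¹)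
      = h * ((S ψ v : Q) : C) * h⁻¹ := by
    show _ = h * ((lft ψ v : C) * (lft ψ v : C)) * h⁻¹
    group
  rw [h2, hL.conj_central h (hL.S_mem v)]

theorem LIso.S_add (hL : LIso Q ψ) (v w : leechLattice) :
    S ψ (v + w) = S ψ v * S ψ w * K ψ w v := by
  have h1 : ψ (v + w) = QuotientGroup.mk (lft ψ v * lft ψ w) := by
    rw [hL.add, QuotientGroup.mk_mul, mk_lft, mk_lft]
  rw [← hL.S_eq h1, hL.mul_sq]
  rfl

theorem LIso.K_of_ker (hL : LIso Q ψ) {v : leechLattice} (h : ψ v = 1) (w : leechLattice) :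
    K ψ v w = 1 := by
  apply hL.kap_central
  rw [← QuotientGroup.eq_one_iff, mk_lft, h]

theorem LIso.K_add (hL : LIso Q ψ) (v v' w : leechLattice) :
    K ψ (v + v') w = K ψ v w * K ψ v' w := by
  have h1 : (QuotientGroup.mk (lft ψ v * lft ψ v') : ↥Q ⧸ Subgroup.center ↥Q)
      = QuotientGroup.mk (lft ψ (v + v')) := by
    rw [QuotientGroup.mk_mul, mk_lft, mk_lft, mk_lft, hL.add]
  unfold K
  rcases hL.mk_eq h1 with h2 | h2
  · rw [h2, hL.kap_mul]
  · rw [h2, hL.kap_mul, hL.kap_mul, hL.kap_central hL.c_mem, mul_one]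

theorem LIso.K_mem (hL : LIso Q ψ) (v w : leechLattice) : K ψ v w ∈ Subgroup.center ↥Q :=
  hL.kap_mem _ _

/-- If the squaring map is trivial at `v`, `w` and `v + w`, any lifts commute. -/
theorem LIso.comm_of_S (hL : LIso Q ψ) {v w : leechLattice} (hv : S ψ v = 1) (hw : S ψ w = 1)
    (hvw : S ψ (v + w) = 1) {x y : Q} (hx : ψ v = QuotientGroup.mk x)
    (hy : ψ w = QuotientGroup.mk y) : x * y = y * x := by
  have h1 := hL.S_add v w
  rw [hv, hw, hvw, one_mul, one_mul] at h1
  have h2 : lft ψ w * lft ψ v = lft ψ v * lft ψ w := kap_eq_one h1.symm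
  have hx' : (QuotientGroup.mk (lft ψ v) : ↥Q ⧸ Subgroup.center ↥Q) = QuotientGroup.mk x := by
    rw [mk_lft, hx]
  have hy' : (QuotientGroup.mk (lft ψ w) : ↥Q ⧸ Subgroup.center ↥Q) = QuotientGroup.mk y := by
    rw [mk_lft, hy]
  have hc := hL.c_comm
  rcases hL.mk_eq hx' with h3 | h3 <;> rcases hL.mk_eq hy' with h4 | h4 <;> rw [h3, h4]
  · exact h2.symm
  · rw [← mul_assoc, ← h2, mul_assoc, hc, mul_assoc]
  · rw [mul_assoc, ← hc, ← mul_assoc, ← h2, mul_assoc]
  · have e1 : lft ψ v * hL.c * (lft ψ w * hL.c) = (lft ψ v * lft ψ w) * (hL.c * hL.c) := by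
      calc lft ψ v * hL.c * (lft ψ w * hL.c) = lft ψ v * (hL.c * lft ψ w) * hL.c := by group
        _ = lft ψ v * (lft ψ w * hL.c) * hL.c := by rw [← hc]
        _ = (lft ψ v * lft ψ w) * (hL.c * hL.c) := by group
    have e2 : lft ψ w * hL.c * (lft ψ v * hL.c) = (lft ψ w * lft ψ v) * (hL.c * hL.c) := by
      calc lft ψ w * hL.c * (lft ψ v * hL.c) = lft ψ w * (hL.c * lft ψ v) * hL.c := by group
        _ = lft ψ w * (lft ψ v * hL.c) * hL.c := by rw [← hc]
        _ = (lft ψ w * lft ψ v) * (hL.c * hL.c) := by group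
    rw [e1, e2, h2]

/-! ### Elementary abelian subgroups from lattice vectors -/

theorem LIso.center_elemAb (hL : LIso Q ψ) : IsElementaryAbelian 2 (Subgroup.center ↥Q) := by
  refine ⟨?_, ?_⟩
  · rw [isMulCommutative_iff]
    rintro ⟨a, ha⟩ ⟨b, hb⟩
    apply Subtype.ext
    exact Subgroup.mem_center_iff.mp hb a
  · intro a ha
    rw [pow_two]
    exact hL.sq_of_mem ha

theorem LIso.exists_elemAb [Finite Q] (hL : LIso Q ψ) {ι : Type*} [DecidableEq ι] (s : Finset ι)
    (b : ι → leechLattice) (h1 : ∀ i ∈ s, S ψ (b i) = 1)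
    (h2 : ∀ i ∈ s, ∀ j ∈ s, i ≠ j → S ψ (b i + b j) = 1)
    (hind : ∀ J : Finset ι, J ⊆ s → J.Nonempty → ψ (∑ j ∈ J, b j) ≠ 1) :
    ∃ E : Subgroup Q, IsElementaryAbelian 2 E ∧ Nat.card E = 2 ^ (s.card + 1) ∧
      ∀ y ∈ E, ∃ J : Finset ι, J ⊆ s ∧
        (QuotientGroup.mk y : ↥Q ⧸ Subgroup.center ↥Q) = ψ (∑ j ∈ J, b j) := by
  induction s using Finset.induction_on with
  | empty =>
    refine ⟨Subgroup.center ↥Q, hL.center_elemAb, ?_, ?_⟩
    · rw [hL.card]
      rfl
    · intro y hy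
      refine ⟨∅, Finset.Subset.refl _, ?_⟩
      rw [Finset.sum_empty, hL.psi_zero, QuotientGroup.eq_one_iff]
      exact hy
  | insert i s hi ih =>
    obtain ⟨E, hE, hcard, hEy⟩ := ih (fun j hj => h1 j (Finset.mem_insert_of_mem hj))
      (fun j hj k hk => h2 j (Finset.mem_insert_of_mem hj) k (Finset.mem_insert_of_mem hk))
      (fun J hJ => hind J (hJ.trans (Finset.subset_insert _ _)))
    have hi1 := h1 i (Finset.mem_insert_self _ _)
    have hx2 : lft ψ (b i) * lft ψ (b i) = 1 := hi1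
    have hcomm : ∀ y ∈ E, lft ψ (b i) * y = y * lft ψ (b i) := by
      intro y hy
      obtain ⟨J, hJ, hyJ⟩ := hEy y hy
      have hK : K ψ (∑ j ∈ J, b j) (b i) = 1 := by
        apply Finset.sum_induction b (fun v => K ψ v (b i) = 1)
        · intro v v' hv hv'
          rw [hL.K_add, hv, hv', mul_one]
        · exact hL.K_of_ker hL.psi_zero _
        · intro j hj
          have hjs := hJ hj
          have hij : i ≠ j := fun h => hi (h ▸ hjs)
          have e := hL.S_add (b i) (b j)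
          rw [h2 i (Finset.mem_insert_self _ _) j (Finset.mem_insert_of_mem hjs) hij, hi1,
            h1 j (Finset.mem_insert_of_mem hjs), one_mul, one_mul] at e
          exact e.symm
      have h3 : lft ψ (∑ j ∈ J, b j) * lft ψ (b i) = lft ψ (b i) * lft ψ (∑ j ∈ J, b j) :=
        kap_eq_one hK
      have h4 : (QuotientGroup.mk (lft ψ (∑ j ∈ J, b j)) : ↥Q ⧸ Subgroup.center ↥Q)
          = QuotientGroup.mk y := by
        rw [mk_lft, hyJ]
      rcases hL.mk_eq h4 with h5 | h5
      · rw [h5, h3]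
      · rw [h5, ← mul_assoc, ← h3, mul_assoc, hL.c_comm, mul_assoc]
    have hxE : lft ψ (b i) ∉ E := by
      intro hx
      obtain ⟨J, hJ, hxJ⟩ := hEy _ hx
      have hiJ : i ∉ J := fun h => hi (hJ h)
      apply hind (insert i J) (Finset.insert_subset_insert _ hJ) (Finset.insert_nonempty _ _)
      rw [Finset.sum_insert hiJ, hL.add, ← hxJ, mk_lft, hL.psi_sq]
    obtain ⟨E', hE', hcard', hE'y⟩ := extend_elemAb E hE (lft ψ (b i)) hx2 hxE hcomm
    refine ⟨E', hE', ?_, ?_⟩
    · rw [hcard', hcard, Finset.card_insert_of_notMem hi]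
      ring
    · intro y hy
      rcases hE'y y hy with h | h
      · obtain ⟨J, hJ, hyJ⟩ := hEy y h
        exact ⟨J, hJ.trans (Finset.subset_insert _ _), hyJ⟩
      · obtain ⟨J, hJ, hyJ⟩ := hEy _ h
        have hiJ : i ∉ J := fun h => hi (hJ h)
        refine ⟨insert i J, Finset.insert_subset_insert _ hJ, ?_⟩
        rw [Finset.sum_insert hiJ, hL.add, ← hyJ, QuotientGroup.mk_mul, mk_lft]
        have e1 := hL.mk_comm (lft ψ (b i)) y
        rw [mk_lft] at e1
        rw [← mul_assoc, e1, mul_assoc, hL.psi_sq, mul_one]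

end liso

/-! ### From the Monster-type hypothesis -/

section monster

variable {G : Type*} [Group G] {z : G} {Q : Subgroup (Subgroup.centralizer ({z} : Set G))}
  [Q.Normal]

theorem LIso.of_monster (hM : IsOfMonsterType z Q) :
    ∃ ψ : leechLattice → ↥Q ⧸ Subgroup.center ↥Q, LIso Q ψ := by
  obtain ⟨⟨hz2, hgfs, hES, hcard, hconj⟩, e, ψ, hadd, hsurj, hker, hequiv⟩ := hM
  refine ⟨ψ, ⟨hES.2, hadd, hsurj, hker, ?_⟩⟩
  intro g
  obtain ⟨h, hh⟩ := QuotientGroup.mk_surjective (e.symm (QuotientGroup.mk g))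
  refine ⟨h, fun v q hq => hequiv h g ?_ v q hq⟩
  rw [hh, MulEquiv.apply_symm_apply]

/-- The central involution, as an element of its centralizer. -/
def zC (z : G) : Subgroup.centralizer ({z} : Set G) :=
  ⟨z, by
    rw [Subgroup.mem_centralizer_iff]
    intro h hh
    rw [Set.mem_singleton_iff] at hh
    rw [hh]⟩

theorem zC_mem_center (z : G) : zC z ∈ Subgroup.center (Subgroup.centralizer ({z} : Set G)) := by
  rw [Subgroup.mem_center_iff]
  rintro ⟨g, hg⟩
  apply Subtype.ext
  show g * z = z * g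
  rw [Subgroup.mem_centralizer_iff] at hg
  exact (hg z rfl).symm

theorem zC_mem (hM : IsOfMonsterType z Q) : zC z ∈ Q := by
  obtain ⟨⟨hz2, hgfs, hES, hcard, hconj⟩, -⟩ := hM
  rw [← hgfs]
  have h1 : Subgroup.center (Subgroup.centralizer ({z} : Set G))
      ≤ fittingSubgroup (Subgroup.centralizer ({z} : Set G)) := by
    apply le_sSup
    exact ⟨inferInstance, ⟨⟨1, by rw [Subgroup.upperCentralSeries_one]; exact Subgroup.center_eq_top⟩⟩⟩
  exact (h1.trans le_sup_right) (zC_mem_center z)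

/-- The central involution, as an element of `Q`. -/
def zQ (hM : IsOfMonsterType z Q) : Q := ⟨zC z, zC_mem hM⟩

theorem zQ_mem_center (hM : IsOfMonsterType z Q) : zQ hM ∈ Subgroup.center ↥Q := by
  rw [Subgroup.mem_center_iff]
  rintro ⟨g, hg⟩
  apply Subtype.ext
  exact Subgroup.mem_center_iff.mp (zC_mem_center z) g

theorem z_ne_one (hM : IsOfMonsterType z Q) : z ≠ 1 := by
  intro h
  have := hM.1.1
  rw [h, orderOf_one] at this
  omega

theorem z_sq (hM : IsOfMonsterType z Q) : z * z = 1 := by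
  have := hM.1.1
  rw [← pow_two, ← this]
  exact pow_orderOf_eq_one z

theorem LIso.c_eq {ψ : leechLattice → ↥Q ⧸ Subgroup.center ↥Q} (hL : LIso Q ψ)
    (hM : IsOfMonsterType z Q) : hL.c = zQ hM := by
  rcases hL.cases (zQ_mem_center hM) with h | h
  · exfalso
    apply z_ne_one hM
    have h1 : ((zQ hM : Q) : Subgroup.centralizer ({z} : Set G)) = 1 := congrArg Subtype.val h
    exact congrArg Subtype.val h1
  · exact h.symm

end monster

end Cfsg.Agent.Lib.Helper92.MonQ
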