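import Mathlib
import Cfsg.Prelude.Def_MonsterType
import Cfsg.Agent.Lib.Helper92.Cross
import Cfsg.Agent.Lib.Helper92.MonQ

/-!
Groups of Monster type: the lattice side. Every class of the rank-24 lattice modulo doubles has a
short representative, the automorphism group is transitive on the classes of each short shell,
and the consequences for the squaring map and for conjugacy in `Q`.
-/

set_option autoImplicit false

namespace Cfsg.Agent.Lib.Helper92.MonLat

open Cfsg Cfsg.Agent.Lib.Helper92.LeechCore Cfsg.Agent.Lib.Helper92.Co0Orbit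
open Cfsg.Agent.Lib.Helper92.Orbit48 Cfsg.Agent.Lib.Helper92.Cross
open Cfsg.Agent.Lib.Helper92.Shells Cfsg.Agent.Lib.Helper92.MonQ

/-- Transitivity modulo doubles on each short shell. -/
theorem trans_mod (v w : leechLattice) {n : ℤ} (hn : n = 32 ∨ n = 48 ∨ n = 64)
    (hv : sqNorm (v : GolayPt → ℤ) = n) (hw : sqNorm (w : GolayPt → ℤ) = n) :
    ∃ g : Co0, ∃ u : leechLattice, g • v = w + (u + u) := by
  rcases hn with rfl | rfl | rfl
  · obtain ⟨f, hf, hx, hy, e⟩ := (all32 v.2 hv).trans (all32 w.2 hw).symm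
    exact ⟨⟨f, hf⟩, 0, by rw [add_zero, add_zero]; exact e⟩
  · obtain ⟨f, hf, hx, hy, e⟩ := (all48 v.2 hv).trans (all48 w.2 hw).symm
    exact ⟨⟨f, hf⟩, 0, by rw [add_zero, add_zero]; exact e⟩
  · obtain ⟨y', ⟨f, hf, hx, hy, e⟩, z, hz, hyz⟩ := trans64 v.2 hv w.2 hw
    refine ⟨⟨f, hf⟩, ⟨z, hz⟩, ?_⟩
    have h1 : (⟨y', hy⟩ : leechLattice) = w + (⟨z, hz⟩ + ⟨z, hz⟩) := by
      apply Subtype.ext
      show y' = (w : GolayPt → ℤ) + (z + z)
      rw [← two_nsmul, ← hyz]
      abel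
    rw [← h1]
    exact e

/-- Every class modulo doubles is trivial or has a representative of sum of squares 32, 48
or 64. -/
theorem short_rep (v : leechLattice) :
    (∃ w : leechLattice, v = w + w) ∨
    ∃ y u : leechLattice, v = y + (u + u) ∧
      (sqNorm (y : GolayPt → ℤ) = 32 ∨ sqNorm (y : GolayPt → ℤ) = 48 ∨
        sqNorm (y : GolayPt → ℤ) = 64) := by
  obtain ⟨y, hy, hn, z, hz, e⟩ := exists_short v.2
  have e' : v = (⟨y, hy⟩ : leechLattice) + (⟨z, hz⟩ + ⟨z, hz⟩) := by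
    apply Subtype.ext
    show (v : GolayPt → ℤ) = y + (z + z)
    rw [← two_nsmul, ← e]
    abel
  by_cases h0 : y = 0
  · left
    refine ⟨⟨z, hz⟩, ?_⟩
    rw [e']
    apply Subtype.ext
    show y + (z + z) = z + z
    rw [h0, zero_add]
  · right
    refine ⟨⟨y, hy⟩, ⟨z, hz⟩, e', ?_⟩
    have h1 := min_norm hy h0
    obtain ⟨k, hk⟩ := sqNorm_dvd16 hy
    show sqNorm y = 32 ∨ sqNorm y = 48 ∨ sqNorm y = 64
    omega

section liso

variable {C : Type*} [Group C] {Q : Subgroup C} [Q.Normal]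
  {ψ : leechLattice → ↥Q ⧸ Subgroup.center ↥Q}

/-- The squaring map is constant on each short shell. -/
theorem S_const (hL : LIso Q ψ) (v w : leechLattice) {n : ℤ} (hn : n = 32 ∨ n = 48 ∨ n = 64)
    (hv : sqNorm (v : GolayPt → ℤ) = n) (hw : sqNorm (w : GolayPt → ℤ) = n) :
    S ψ v = S ψ w := by
  obtain ⟨g, u, e⟩ := trans_mod v w hn hv hw
  rw [← hL.S_smul g v, e, hL.S_congr]

/-- A non-central element of `Q` is represented by a short vector. -/
theorem exists_rep (hL : LIso Q ψ) {x : Q} (hx : x ∉ Subgroup.center ↥Q) :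
    ∃ v : leechLattice, ψ v = QuotientGroup.mk x ∧
      (sqNorm (v : GolayPt → ℤ) = 32 ∨ sqNorm (v : GolayPt → ℤ) = 48 ∨
        sqNorm (v : GolayPt → ℤ) = 64) := by
  obtain ⟨v, hv⟩ := hL.surj (QuotientGroup.mk x)
  rcases short_rep v with ⟨w, hw⟩ | ⟨y, u, e, hn⟩
  · exfalso
    apply hx
    rw [← QuotientGroup.eq_one_iff, ← hv]
    exact (hL.ker v).mpr ⟨w, hw⟩
  · exact ⟨y, by rw [← hv, e, hL.psi_congr], hn⟩

/-- Two non-central elements of `Q` represented by vectors of the same short shell are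
conjugate in the ambient group. -/
theorem conj_of_norm (hL : LIso Q ψ) {x y : Q} (hy : y ∉ Subgroup.center ↥Q)
    {v w : leechLattice} (hxv : ψ v = QuotientGroup.mk x) (hyw : ψ w = QuotientGroup.mk y)
    {n : ℤ} (hn : n = 32 ∨ n = 48 ∨ n = 64)
    (hv : sqNorm (v : GolayPt → ℤ) = n) (hw : sqNorm (w : GolayPt → ℤ) = n) :
    ∃ h : C, h * (x : C) * h⁻¹ = (y : C) := by
  obtain ⟨g, u, e⟩ := trans_mod v w hn hv hw
  obtain ⟨h, hh⟩ := hL.lift g
  have h1 := hh v x hxv
  rw [e, hL.psi_congr, hyw] at h1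
  rcases hL.mk_eq h1 with h2 | h2
  · exact ⟨h, congrArg Subtype.val h2⟩
  · obtain ⟨q, hq⟩ := hL.exists_conj_c hy
    refine ⟨(q : C)⁻¹ * h, ?_⟩
    have h3 : h * (x : C) * h⁻¹ = (y : C) * (hL.c : C) := congrArg Subtype.val h2
    have h4 : (q : C) * (y : C) * (q : C)⁻¹ = (y : C) * (hL.c : C) := congrArg Subtype.val hq
    calc (q : C)⁻¹ * h * (x : C) * ((q : C)⁻¹ * h)⁻¹
        = (q : C)⁻¹ * (h * (x : C) * h⁻¹) * (q : C) := by group
      _ = (q : C)⁻¹ * ((q : C) * (y : C) * (q : C)⁻¹) * (q : C) := by rw [h3, h4]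
      _ = y := by group

end liso

end Cfsg.Agent.Lib.Helper92.MonLat
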