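import Mathlib
import Cfsg.Prelude.Def_MonsterType
import Cfsg.Agent.Lib.Helper92.Pairs
import Cfsg.Agent.Lib.Helper92.MonLat

/-!
Groups of Monster type: lifts of minimal vectors are involutions, and twelve minimal vectors
with a common coordinate, independent modulo doubles, whose lifts commute.
-/

set_option autoImplicit false

namespace Cfsg.Agent.Lib.Helper92.MonVec

open Cfsg Cfsg.Agent.Lib.Helper92.LeechCore Cfsg.Agent.Lib.Helper92.MinVec
open Cfsg.Agent.Lib.Helper92.LeechGen Cfsg.Agent.Lib.Helper92.Pairs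
open Cfsg.Agent.Lib.Helper92.MonQ Cfsg.Agent.Lib.Helper92.MonLat
open Cfsg.Agent.Lib.Helper7.GolayBase Cfsg.Agent.Lib.Helper7.GolayCode
open Cfsg.Agent.S5546 Cfsg.Agent.S5392 Cfsg.Agent.S5552

/-! ### Three minimal vectors -/

theorem pt_ne {i j : ℕ} (hi : i < 24) (hj : j < 24) (h : i ≠ j) : pt i ≠ pt j := by
  intro e
  apply h
  have := congrArg idx e
  rwa [idx_pt hi, idx_pt hj] at this

theorem O8_pt2 : pt 2 ∈ O8 := by
  unfold O8
  rw [mem_mk]
  decide +kernel

/-- `4 e_1 + 4 e_0`. -/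
noncomputable def uu : leechLattice :=
  ⟨mvec 1 (pt 1) (pt 0), mvec_mem 1 (Or.inl rfl) _ _ (pt_ne (by norm_num) (by norm_num) (by norm_num))⟩

/-- `4 e_2 - 4 e_0`. -/
noncomputable def vv : leechLattice :=
  ⟨mvec (-1) (pt 2) (pt 0), mvec_mem (-1) (Or.inr rfl) _ _ (pt_ne (by norm_num) (by norm_num) (by norm_num))⟩

/-- `2` on a fixed octad containing the points `1`, `2` and not `0`. -/
noncomputable def xx : leechLattice :=
  ⟨shape 2 O8 ∅, shape2_mem O8_cw (Finset.empty_subset _) ⟨0, rfl⟩⟩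

theorem uu_norm : sqNorm (uu : GolayPt → ℤ) = 32 :=
  mvec_sq 1 (Or.inl rfl) _ _ (pt_ne (by norm_num) (by norm_num) (by norm_num))

theorem vv_norm : sqNorm (vv : GolayPt → ℤ) = 32 :=
  mvec_sq (-1) (Or.inr rfl) _ _ (pt_ne (by norm_num) (by norm_num) (by norm_num))

theorem xx_norm : sqNorm (xx : GolayPt → ℤ) = 32 := by
  show sqNorm (shape 2 O8 ∅) = 32
  rw [sqNorm_shape 2 (Finset.empty_subset _), O8_card]
  norm_num

theorem xx_apply (i : GolayPt) : (xx : GolayPt → ℤ) i = if i ∈ O8 then 2 else 0 := by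
  show shape 2 O8 ∅ i = _
  unfold shape
  simp

theorem dot_xx_uu : dotInt (xx : GolayPt → ℤ) (uu : GolayPt → ℤ) = 8 := by
  show dotInt (xx : GolayPt → ℤ) (mvec 1 (pt 1) (pt 0)) = 8
  rw [dot_mvec, xx_apply, xx_apply, if_pos O8_pt1, if_neg O8_pt0]
  norm_num

theorem dot_xx_vv : dotInt (xx : GolayPt → ℤ) (vv : GolayPt → ℤ) = 8 := by
  show dotInt (xx : GolayPt → ℤ) (mvec (-1) (pt 2) (pt 0)) = 8
  rw [dot_mvec, xx_apply, xx_apply, if_pos O8_pt2, if_neg O8_pt0]
  norm_num

theorem dot_uu_vv : dotInt (uu : GolayPt → ℤ) (vv : GolayPt → ℤ) = -16 := by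
  show dotInt (mvec 1 (pt 1) (pt 0)) (mvec (-1) (pt 2) (pt 0)) = -16
  rw [dot_mvec]
  have h1 : mvec 1 (pt 1) (pt 0) (pt 2) = 0 := by
    unfold mvec
    rw [if_neg (pt_ne (by norm_num) (by norm_num) (by norm_num)),
      if_neg (pt_ne (by norm_num) (by norm_num) (by norm_num))]
    norm_num
  have h2 : mvec 1 (pt 1) (pt 0) (pt 0) = 4 := by
    unfold mvec
    rw [if_neg (pt_ne (by norm_num) (by norm_num) (by norm_num)), if_pos rfl]
    norm_num
  rw [h1, h2]
  norm_num

section liso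

variable {C : Type*} [Group C] {Q : Subgroup C} [Q.Normal]
  {ψ : leechLattice → ↥Q ⧸ Subgroup.center ↥Q}

/-- Lifts of minimal vectors are involutions. -/
theorem S_32 (hL : LIso Q ψ) (v : leechLattice) (hv : sqNorm (v : GolayPt → ℤ) = 32) :
    S ψ v = 1 := by
  have h32 : (32 : ℤ) = 32 ∨ (32 : ℤ) = 48 ∨ (32 : ℤ) = 64 := Or.inl rfl
  have h48 : (48 : ℤ) = 32 ∨ (48 : ℤ) = 48 ∨ (48 : ℤ) = 64 := Or.inr (Or.inl rfl)
  rw [S_const hL v xx h32 hv xx_norm]
  -- norms
  have n_uv : sqNorm ((uu + vv : leechLattice) : GolayPt → ℤ) = 32 := by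
    rw [AddSubgroup.coe_add, LeechCore.sqNorm_add, uu_norm, vv_norm, dot_uu_vv]
    norm_num
  have n_w : sqNorm ((-(uu + vv) : leechLattice) : GolayPt → ℤ) = 32 := by
    rw [AddSubgroup.coe_neg, sqNorm_neg, n_uv]
  have d_x_uv : dotInt (xx : GolayPt → ℤ) ((uu + vv : leechLattice) : GolayPt → ℤ) = 16 := by
    rw [AddSubgroup.coe_add, dot_comm, dot_add_left, dot_comm, dot_xx_uu, dot_comm, dot_xx_vv]
    norm_num
  have n_xw : sqNorm ((xx + -(uu + vv) : leechLattice) : GolayPt → ℤ) = 32 := by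
    have e : ((xx + -(uu + vv) : leechLattice) : GolayPt → ℤ)
        = (xx : GolayPt → ℤ) - ((uu + vv : leechLattice) : GolayPt → ℤ) := by
      rw [AddSubgroup.coe_add, AddSubgroup.coe_neg, sub_eq_add_neg]
    rw [e, sqNorm_sub, xx_norm, n_uv, d_x_uv]
    norm_num
  have n_xu : sqNorm ((xx - uu : leechLattice) : GolayPt → ℤ) = 48 := by
    rw [AddSubgroup.coe_sub, sqNorm_sub, xx_norm, uu_norm, dot_xx_uu]
    norm_num
  have n_xv : sqNorm ((xx - vv : leechLattice) : GolayPt → ℤ) = 48 := by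
    rw [AddSubgroup.coe_sub, sqNorm_sub, xx_norm, vv_norm, dot_xx_vv]
    norm_num
  -- values of the squaring map
  set a := S ψ xx with ha
  have haa : a * a = 1 := hL.S_sq xx
  have hSu : S ψ uu = a := S_const hL uu xx h32 uu_norm xx_norm
  have hSv : S ψ vv = a := S_const hL vv xx h32 vv_norm xx_norm
  have hSw : S ψ (-(uu + vv)) = a := S_const hL _ xx h32 n_w xx_norm
  have hSxw : S ψ (xx + -(uu + vv)) = a := S_const hL _ xx h32 n_xw xx_norm
  have hSxu : S ψ (xx + uu) = S ψ (xx - uu) := by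
    have e : xx + uu = (xx - uu) + (uu + uu) := by abel
    rw [e, hL.S_congr]
  have hSxv : S ψ (xx + vv) = S ψ (xx - vv) := by
    have e : xx + vv = (xx - vv) + (vv + vv) := by abel
    rw [e, hL.S_congr]
  have hb : S ψ (xx + vv) = S ψ (xx + uu) := by
    rw [hSxu, hSxv]
    exact S_const hL _ _ h48 n_xv n_xu
  have hbb : S ψ (xx + uu) * S ψ (xx + uu) = 1 := hL.S_sq _
  -- the commutator pairing
  have k1 : K ψ (-(uu + vv)) xx = a := by
    have e := hL.S_add xx (-(uu + vv))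
    rw [hSxw, hSw, ← ha, haa, one_mul] at e
    exact e.symm
  have k2 : K ψ uu xx = S ψ (xx + uu) := by
    have e := hL.S_add xx uu
    rw [hSu, ← ha, haa, one_mul] at e
    exact e.symm
  have k3 : K ψ vv xx = S ψ (xx + uu) := by
    have e := hL.S_add xx vv
    rw [hSv, ← ha, haa, one_mul, hb] at e
    exact e.symm
  have k4 : K ψ (uu + vv + -(uu + vv)) xx = 1 := by
    apply hL.K_of_ker
    rw [add_neg_cancel]
    exact hL.psi_zero
  rw [hL.K_add, hL.K_add, k1, k2, k3, hbb, one_mul] at k4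
  exact k4

end liso

/-! ### Twelve minimal vectors with a common coordinate -/

/-- `4 e_0 + 4 e_{k+12}`. -/
noncomputable def bb (k : Fin 12) : leechLattice :=
  ⟨mvec 1 (pt 0) (pt (k.val + 12)), mvec_mem 1 (Or.inl rfl) _ _
    (pt_ne (by norm_num) (by have := k.2; omega) (by omega))⟩

theorem bb_norm (k : Fin 12) : sqNorm (bb k : GolayPt → ℤ) = 32 :=
  mvec_sq 1 (Or.inl rfl) _ _ (pt_ne (by norm_num) (by have := k.2; omega) (by omega))

theorem dot_bb {i j : Fin 12} (hij : i ≠ j) :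
    dotInt (bb i : GolayPt → ℤ) (bb j : GolayPt → ℤ) = 16 := by
  show dotInt (mvec 1 (pt 0) (pt (i.val + 12))) (mvec 1 (pt 0) (pt (j.val + 12))) = 16
  rw [dot_mvec]
  have hi := i.2
  have hj := j.2
  have hne : i.val ≠ j.val := fun h => hij (Fin.ext h)
  have h1 : mvec 1 (pt 0) (pt (i.val + 12)) (pt 0) = 4 := by
    unfold mvec
    rw [if_pos rfl, if_neg (pt_ne (by norm_num) (by omega) (by omega))]
    norm_num
  have h2 : mvec 1 (pt 0) (pt (i.val + 12)) (pt (j.val + 12)) = 0 := by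
    unfold mvec
    rw [if_neg (pt_ne (by omega) (by norm_num) (by omega)),
      if_neg (pt_ne (by omega) (by omega) (by omega))]
    norm_num
  rw [h1, h2]
  norm_num

theorem bb_sub_norm {i j : Fin 12} (hij : i ≠ j) :
    sqNorm ((bb i - bb j : leechLattice) : GolayPt → ℤ) = 32 := by
  rw [AddSubgroup.coe_sub, sqNorm_sub, bb_norm, bb_norm, dot_bb hij]
  norm_num

/-- Masks of twelve octads, the `k`-th meeting the points `12, …, 23` in the point `k + 12`
only. -/
def dl : List ℕ :=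
  [5279, 10558, 18147, 36294, 69395, 133817, 262637, 525274, 1050548, 2101096, 4196943, 8391797]

/-- The `k`-th mask. -/
def dm (k : Fin 12) : ℕ := dl.getD k.val 0

theorem dm_code : ∀ k : Fin 12, inCode (dm k) = true := by decide +kernel

/-- The dual vectors. -/
def Y (k : Fin 12) : GolayPt → ℤ :=
  shape 2 (mk (dm k)) ∅ + (if (dm k).testBit 0 = true then w3 (pt 1) else 0)

theorem Y_mem (k : Fin 12) : Y k ∈ leechLattice := by
  unfold Y
  apply leechLattice.add_mem
  · exact shape2_mem (mk_mem_supports (inCode_sound (dm_code k))) (Finset.empty_subset _) ⟨0, rfl⟩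
  · split_ifs
    · exact w3_mem _
    · exact zero_mem _

/-- Computable form of the dual vectors. -/
def Yc (k : Fin 12) (p : GolayPt) : ℤ :=
  (if (dm k).testBit (idx p) = true then 2 else 0) +
    (if (dm k).testBit 0 = true then (if p = pt 1 then -3 else 1) else 0)

theorem Y_eq (k : Fin 12) (p : GolayPt) : Y k p = Yc k p := by
  unfold Y Yc
  rw [Pi.add_apply]
  congr 1
  · unfold shape
    rw [if_neg (Finset.notMem_empty _)]
    by_cases h : p ∈ mk (dm k)
    · rw [if_pos h, if_pos (mem_mk.mp h)]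
    · rw [if_neg h, if_neg (fun h' => h (mem_mk.mpr h'))]
  · split_ifs <;> simp_all [w3]

theorem table : ∀ j k : Fin 12,
    (4 * Yc k (pt 0) + 1 * (4 * Yc k (pt (j.val + 12)))) % 16 = if j = k then 8 else 0 := by
  decide +kernel

theorem dot_Y_bb (j k : Fin 12) :
    dotInt (Y k) (bb j : GolayPt → ℤ) % 16 = if j = k then 8 else 0 := by
  show dotInt (Y k) (mvec 1 (pt 0) (pt (j.val + 12))) % 16 = _
  rw [dot_mvec, Y_eq, Y_eq]
  exact table j k

/-- Pairing with a fixed vector, as an additive map on the lattice. -/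
def dotHom (y : GolayPt → ℤ) : leechLattice →+ ℤ where
  toFun v := dotInt y (v : GolayPt → ℤ)
  map_zero' := by simp [dotInt]
  map_add' := by
    intro a b
    simp [dotInt, mul_add, Finset.sum_add_distrib]

/-- The twelve vectors are independent modulo doubles. -/
theorem indep (J : Finset (Fin 12)) (hJ : J.Nonempty) (w : leechLattice) :
    ∑ j ∈ J, bb j ≠ w + w := by
  obtain ⟨k, hk⟩ := hJ
  intro h
  have h1 := congrArg (dotHom (Y k)) h
  rw [map_sum, map_add, ← Finset.add_sum_erase J _ hk] at h1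
  have h2 : (16 : ℤ) ∣ ∑ j ∈ J.erase k, dotHom (Y k) (bb j) := by
    apply Finset.dvd_sum
    intro j hj
    have hjk : j ≠ k := Finset.ne_of_mem_erase hj
    have := dot_Y_bb j k
    rw [if_neg hjk] at this
    exact Int.dvd_of_emod_eq_zero this
  have h3 : dotHom (Y k) (bb k) % 16 = 8 := by
    have := dot_Y_bb k k
    rwa [if_pos rfl] at this
  have h4 : (8 : ℤ) ∣ dotHom (Y k) w := dot_dvd8 (Y_mem k) w.2
  obtain ⟨a, ha⟩ := h2
  obtain ⟨c, hc⟩ := h4
  rw [ha, hc] at h1
  omega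

section liso2

variable {C : Type*} [Group C] {Q : Subgroup C} [Q.Normal]
  {ψ : leechLattice → ↥Q ⧸ Subgroup.center ↥Q}

theorem S_bb (hL : LIso Q ψ) (i : Fin 12) : S ψ (bb i) = 1 := S_32 hL _ (bb_norm i)

theorem S_bb_add (hL : LIso Q ψ) {i j : Fin 12} (hij : i ≠ j) : S ψ (bb i + bb j) = 1 := by
  have e : bb i + bb j = (bb i - bb j) + (bb j + bb j) := by abel
  rw [e, hL.S_congr]
  exact S_32 hL _ (bb_sub_norm hij)

/-- `Q` contains an elementary abelian subgroup of order `2 ^ 13`. -/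
theorem exists_E [Finite Q] (hL : LIso Q ψ) :
    ∃ E : Subgroup Q, IsElementaryAbelian 2 E ∧ Nat.card E = 2 ^ 13 := by
  obtain ⟨E, hE, hcard, -⟩ := hL.exists_elemAb (Finset.univ : Finset (Fin 12)) bb
    (fun i _ => S_bb hL i) (fun i _ j _ hij => S_bb_add hL hij)
    (fun J _ hJ h => by
      obtain ⟨w, hw⟩ := (hL.ker _).mp h
      exact indep J hJ w hw)
  refine ⟨E, hE, ?_⟩
  rw [hcard]
  rfl

end liso2

end Cfsg.Agent.Lib.Helper92.MonVec
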