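import Mathlib
import Cfsg.Prelude.Def_Sporadic_a
import Cfsg.Agent.Lib.Helper92.MaxChain
import Cfsg.Agent.Lib.Helper92.MonVec

/-!
The stabiliser of a minimal vector of the rank-24 lattice in the automorphism group has no
non-trivial normal 2-subgroup.
-/

set_option autoImplicit false

namespace Cfsg.Agent.Lib.Helper92.O2Co2

open Cfsg Cfsg.Agent.Lib.Helper92.LeechCore Cfsg.Agent.Lib.Helper92.MinVec
open Cfsg.Agent.Lib.Helper92.Conway Cfsg.Agent.Lib.Helper92.LeechGen
open Cfsg.Agent.Lib.Helper92.ActQ Cfsg.Agent.Lib.Helper92.Frames Cfsg.Agent.Lib.Helper92.Pairs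
open Cfsg.Agent.Lib.Helper92.MaxChain Cfsg.Agent.Lib.Helper92.OrbitCount
open Cfsg.Agent.Lib.Helper92.MonVec
open Cfsg.Agent.Lib.Helper7.GolayBase Cfsg.Agent.Lib.Helper7.GolayCode
open Cfsg.Agent.S5546 Cfsg.Agent.S5392 Cfsg.Agent.S5552

/-- An automorphism fixing all the vectors `8 e_p` is the identity. -/
theorem fix_all (g : Co0) (h : ∀ p, g • elat p = elat p) : g = 1 := by
  apply Subtype.ext
  apply Equiv.ext
  intro v
  have hk := Cfsg.Agent.S1571.eight_smul g.1 g.2 v
  have hE : ∀ p, g.1 (elat p) = elat p := h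
  simp only [hE] at hk
  rw [← decomp8'_lat v] at hk
  have h9 : (8 : ℤ) • ((g.1 v : leechLattice) : GolayPt → ℤ) = (8 : ℤ) • (v : GolayPt → ℤ) := by
    rw [← AddSubgroup.coe_zsmul, hk, AddSubgroup.coe_zsmul]
  apply Subtype.ext
  funext p
  have h10 := congrFun h9 p
  simp only [Pi.smul_apply, smul_eq_mul] at h10
  show ((g.1 v : leechLattice) : GolayPt → ℤ) p = (v : GolayPt → ℤ) p
  linarith

/-- An automorphism fixing the class of a minimal vector fixes or negates the vector. -/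
theorem pm_of_cls (g : Co0) (w : leechLattice) (hw : sqNorm (w : GolayPt → ℤ) = 32)
    (h : g • cls (w : GolayPt → ℤ) = cls (w : GolayPt → ℤ)) : g • w = w ∨ g • w = -w := by
  rw [smul_cls] at h
  have h1 := (cls_eq_iff (g • w).2 w.2).mp h
  have h2 := short_congr (g • w).2 w.2 (by rw [sqNorm_smul, hw]; norm_num)
    (by rw [hw]; norm_num) h1
  rcases h2 with h3 | h3 | h3
  · left
    exact Subtype.ext h3.symm
  · right
    apply Subtype.ext
    rw [AddSubgroup.coe_neg, h3, neg_neg]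
  · exfalso
    have := h3.2.1
    rw [hw] at this
    norm_num at this

theorem cls_neg (w : leechLattice) :
    cls ((-w : leechLattice) : GolayPt → ℤ) = cls (w : GolayPt → ℤ) := by
  rw [cls_eq_iff (-w).2 w.2]
  refine ⟨((-w : leechLattice) : GolayPt → ℤ), (-w).2, ?_⟩
  rw [AddSubgroup.coe_neg, two_nsmul]
  abel

theorem U0_ne_neg : (U0 : leechLattice) ≠ -U0 := by
  intro h
  have h1 := congrArg (fun v : leechLattice => (v : GolayPt → ℤ) none) h
  simp only [AddSubgroup.coe_neg, Pi.neg_apply] at h1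
  rw [U0_none] at h1
  norm_num at h1

/-- The stabiliser in `SV` of the class of `U0`. -/
noncomputable abbrev KU : Subgroup Co0 :=
  SV ⊓ MulAction.stabilizer Co0 (cls ((U0 : leechLattice) : GolayPt → ℤ))

theorem card_KU : Nat.card KU = 908328960 := by
  have h := card_orbit_stab (G := Co0) KU U0
  have h1 : KU ⊓ MulAction.stabilizer Co0 U0 = SV ⊓ Cfsg.Agent.Lib.Helper92.MaxChain.SU := by
    ext g
    simp only [Subgroup.mem_inf, MulAction.mem_stabilizer_iff]
    constructor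
    · rintro ⟨⟨h1, -⟩, h2⟩
      exact ⟨h1, h2⟩
    · rintro ⟨h1, h2⟩
      refine ⟨⟨h1, ?_⟩, h2⟩
      rw [smul_cls, h2]
  have h2 : {y : leechLattice | ∃ k ∈ KU, k • U0 = y} = {U0, -U0} := by
    ext y
    constructor
    · rintro ⟨k, hk, rfl⟩
      exact pm_of_cls k U0 U0_norm (MulAction.mem_stabilizer_iff.mp hk.2)
    · rintro (rfl | rfl)
      · exact ⟨1, one_mem _, one_smul _ _⟩
      · obtain ⟨g, hg1, hg2⟩ := orth_trans V0 U0 (-U0) V0_norm U0_norm
          (by rw [AddSubgroup.coe_neg, sqNorm_neg]; exact U0_norm) dot_V0_U0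
          (by rw [AddSubgroup.coe_neg, dot_comm, dotInt_neg_left, dot_comm, dot_V0_U0]; rfl)
        refine ⟨g, ⟨MulAction.mem_stabilizer_iff.mpr hg1, ?_⟩, hg2⟩
        show g • cls ((U0 : leechLattice) : GolayPt → ℤ) = cls ((U0 : leechLattice) : GolayPt → ℤ)
        rw [smul_cls, hg2, cls_neg]
  have h3 : ({U0, -U0} : Set leechLattice).ncard = 2 := Set.ncard_pair U0_ne_neg
  rw [h1, h2, h3, card_SVU] at h
  rw [h]

theorem card_orbit :
    {c : Q | ∃ k ∈ SV, k • cls ((U0 : leechLattice) : GolayPt → ℤ) = c}.ncard = 46575 := by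
  have h := card_orbit_stab (G := Co0) SV (cls ((U0 : leechLattice) : GolayPt → ℤ))
  have h1 : Nat.card ↥(SV ⊓ MulAction.stabilizer Co0 (cls ((U0 : leechLattice) : GolayPt → ℤ)))
      = 908328960 := card_KU
  rw [card_SV, h1] at h
  omega

/-- A normal 2-subgroup of `SV` fixes the class of `U0`. -/
theorem fix_cls (M : Subgroup Co0) (hM : IsPGroup 2 M) (hle : M ≤ SV)
    (hnorm : ∀ k ∈ SV, ∀ m ∈ M, k * m * k⁻¹ ∈ M) :
    ∀ m ∈ M, m • cls ((U0 : leechLattice) : GolayPt → ℤ)
      = cls ((U0 : leechLattice) : GolayPt → ℤ) := by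
  let O : Set Q := {c : Q | ∃ k ∈ SV, k • cls ((U0 : leechLattice) : GolayPt → ℤ) = c}
  let OM : SubMulAction M Q :=
    { carrier := O
      smul_mem' := by
        rintro ⟨m, hm⟩ c ⟨k, hk, rfl⟩
        exact ⟨m * k, SV.mul_mem (hle hm) hk, mul_smul m k _⟩ }
  have hcard : Nat.card OM = 46575 := by
    have : Nat.card OM = O.ncard := Nat.card_coe_set_eq O
    rw [this]
    exact card_orbit
  have : Fact (Nat.Prime 2) := ⟨Nat.prime_two⟩
  obtain ⟨⟨c, hc⟩, hfix⟩ := hM.nonempty_fixed_point_of_prime_not_dvd_card OM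
    (by rw [hcard]; norm_num)
  obtain ⟨k, hk, rfl⟩ := hc
  intro m hm
  have h1 := hnorm k hk m hm
  have h2 := hfix ⟨k * m * k⁻¹, h1⟩
  have h3 : (k * m * k⁻¹) • (k • cls ((U0 : leechLattice) : GolayPt → ℤ))
      = k • cls ((U0 : leechLattice) : GolayPt → ℤ) := congrArg Subtype.val h2
  have e : k * m * k⁻¹ * k = k * m := by group
  rw [← mul_smul, e, mul_smul] at h3
  exact smul_left_cancel k h3

/-- A normal 2-subgroup of `SV` fixes or negates each minimal vector orthogonal to `V0`. -/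
theorem pm_D0 (M : Subgroup Co0) (hM : IsPGroup 2 M) (hle : M ≤ SV)
    (hnorm : ∀ k ∈ SV, ∀ m ∈ M, k * m * k⁻¹ ∈ M) (m : Co0) (hm : m ∈ M) (w : leechLattice)
    (hw : sqNorm (w : GolayPt → ℤ) = 32)
    (hd : dotInt ((V0 : leechLattice) : GolayPt → ℤ) (w : GolayPt → ℤ) = 0) :
    m • w = w ∨ m • w = -w := by
  obtain ⟨k, hk1, hk2⟩ := orth_trans V0 U0 w V0_norm U0_norm hw dot_V0_U0 hd
  have hkSV : k ∈ SV := MulAction.mem_stabilizer_iff.mpr hk1
  have h1 := hnorm k⁻¹ (SV.inv_mem hkSV) m hm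
  rw [inv_inv] at h1
  have h2 := fix_cls M hM hle hnorm _ h1
  have e : k * (k⁻¹ * m * k) = m * k := by group
  rcases pm_of_cls _ U0 U0_norm h2 with h3 | h3
  · left
    have h4 : k • ((k⁻¹ * m * k) • U0) = k • U0 := congrArg (fun x => k • x) h3
    rw [← mul_smul, e, mul_smul, hk2] at h4
    exact h4
  · right
    have h4 : k • ((k⁻¹ * m * k) • U0) = k • (-U0) := congrArg (fun x => k • x) h3
    rw [← mul_smul, e, mul_smul, smul_neg', hk2] at h4
    exact h4

/-! ### The hub vector and the family of vectors `4 e_i ± 4 e_j` -/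

/-- An octad containing the points `∞`, `0`, `2`, `4` and not `1`. -/
def OO : Finset GolayPt := mk 8391797

theorem OO_cw : IsCW OO := mk_mem_supports (inCode_sound (by decide +kernel))

theorem OO_card : OO.card = 8 := by
  unfold OO
  rw [card_mk]
  decide +kernel

theorem OO_none : (none : GolayPt) ∈ OO := by
  unfold OO
  rw [mem_mk]
  decide +kernel

theorem OO_pt0 : pt 0 ∈ OO := by
  unfold OO
  rw [mem_mk]
  decide +kernel

theorem OO_pt2 : pt 2 ∈ OO := by
  unfold OO
  rw [mem_mk]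
  decide +kernel

theorem OO_pt4 : pt 4 ∈ OO := by
  unfold OO
  rw [mem_mk]
  decide +kernel

theorem OO_pt1 : pt 1 ∉ OO := by
  unfold OO
  rw [mem_mk]
  decide +kernel

theorem hub_sub : ({pt 0, pt 2} : Finset GolayPt) ⊆ OO := by
  intro p hp
  rw [Finset.mem_insert, Finset.mem_singleton] at hp
  rcases hp with rfl | rfl
  · exact OO_pt0
  · exact OO_pt2

/-- The hub: `2` on the octad `OO`, with signs changed at the points `0` and `2`. -/
noncomputable def hub : leechLattice :=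
  ⟨shape 2 OO {pt 0, pt 2}, shape2_mem OO_cw hub_sub
    ⟨1, by rw [Finset.card_pair (pt_ne (by norm_num) (by norm_num) (by norm_num))]⟩⟩

theorem hub_apply (i : GolayPt) : (hub : GolayPt → ℤ) i =
    if i ∈ ({pt 0, pt 2} : Finset GolayPt) then -2 else if i ∈ OO then 2 else 0 := rfl

theorem hub_none : (hub : GolayPt → ℤ) none = 2 := by
  rw [hub_apply, if_neg (by decide), if_pos OO_none]

theorem hub_pt0 : (hub : GolayPt → ℤ) (pt 0) = -2 := by
  rw [hub_apply, if_pos (by simp)]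

theorem hub_pt1 : (hub : GolayPt → ℤ) (pt 1) = 0 := by
  rw [hub_apply, if_neg (by decide), if_neg OO_pt1]

theorem hub_pt4 : (hub : GolayPt → ℤ) (pt 4) = 2 := by
  rw [hub_apply, if_neg (by decide), if_pos OO_pt4]

theorem hub_in {i : GolayPt} (hi : i ∈ OO) :
    (hub : GolayPt → ℤ) i = 2 ∨ (hub : GolayPt → ℤ) i = -2 := by
  rw [hub_apply]
  split_ifs
  · right; rfl
  · left; rfl

theorem hub_out {i : GolayPt} (hi : i ∉ OO) : (hub : GolayPt → ℤ) i = 0 := by
  rw [hub_apply, if_neg (fun h => hi (hub_sub h)), if_neg hi]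

theorem hub_norm : sqNorm (hub : GolayPt → ℤ) = 32 := by
  show sqNorm (shape 2 OO {pt 0, pt 2}) = 32
  rw [sqNorm_shape 2 hub_sub, OO_card]
  norm_num

theorem dot_V0_hub :
    dotInt ((V0 : leechLattice) : GolayPt → ℤ) (hub : GolayPt → ℤ) = 0 := by
  rw [dot_V0, hub_none, hub_pt0]
  norm_num

theorem dot_hub_U0 :
    dotInt (hub : GolayPt → ℤ) ((U0 : leechLattice) : GolayPt → ℤ) = 16 := by
  rw [dot_comm, dot_U0, hub_none, hub_pt0]
  norm_num

/-- The partner index. -/
def sg (i : GolayPt) : GolayPt := if i ∈ OO then pt 1 else pt 4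

theorem sg_ne (i : GolayPt) : i ≠ sg i := by
  unfold sg
  split_ifs with h
  · intro e
    rw [e] at h
    exact OO_pt1 h
  · intro e
    rw [e] at h
    exact h OO_pt4

theorem sg_none (i : GolayPt) : sg i ≠ none := by
  unfold sg
  split_ifs <;> decide

theorem sg_pt0 (i : GolayPt) : sg i ≠ pt 0 := by
  unfold sg
  split_ifs <;> decide

/-- The vectors `4 e_i ± 4 e_{sg i}`. -/
noncomputable def fv (s : ℤ) (hs : s = 1 ∨ s = -1) (i : GolayPt) : leechLattice :=
  ⟨mvec s i (sg i), mvec_mem s hs i (sg i) (sg_ne i)⟩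

theorem fv_norm (s : ℤ) (hs : s = 1 ∨ s = -1) (i : GolayPt) :
    sqNorm (fv s hs i : GolayPt → ℤ) = 32 := mvec_sq s hs i (sg i) (sg_ne i)

theorem dot_V0_fv (s : ℤ) (hs : s = 1 ∨ s = -1) (i : GolayPt) (h1 : i ≠ none) (h2 : i ≠ pt 0) :
    dotInt ((V0 : leechLattice) : GolayPt → ℤ) (fv s hs i : GolayPt → ℤ) = 0 := by
  show dotInt ((V0 : leechLattice) : GolayPt → ℤ) (mvec s i (sg i)) = 0
  rw [dot_mvec, V0_other h1 h2, V0_other (sg_none i) (sg_pt0 i)]
  ring

theorem dot_hub_fv (s : ℤ) (hs : s = 1 ∨ s = -1) (i : GolayPt) :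
    dotInt (hub : GolayPt → ℤ) (fv s hs i : GolayPt → ℤ) ≠ 0 := by
  show dotInt (hub : GolayPt → ℤ) (mvec s i (sg i)) ≠ 0
  rw [dot_mvec]
  by_cases hi : i ∈ OO
  · have e : sg i = pt 1 := if_pos hi
    rw [e, hub_pt1]
    rcases hub_in hi with h | h <;> rw [h] <;> norm_num
  · have e : sg i = pt 4 := if_neg hi
    rw [e, hub_pt4, hub_out hi]
    rcases hs with rfl | rfl <;> norm_num

theorem elat_none : elat none = V0 + U0 := by
  apply Subtype.ext
  rw [V0_add_U0]
  exact Cfsg.Agent.S1571.evec_eq_single none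

theorem elat_pt0 : elat (pt 0) = V0 - U0 := by
  apply Subtype.ext
  show evec (pt 0) = ((V0 : leechLattice) : GolayPt → ℤ) - ((U0 : leechLattice) : GolayPt → ℤ)
  rw [V0_val, U0_val]
  funext r
  unfold evec mvec
  simp only [Pi.sub_apply]
  split_ifs <;> ring

theorem W8_none : ((W8 : leechLattice) : GolayPt → ℤ) none = -3 := by
  show w3 none none = -3
  unfold w3
  rw [if_pos rfl]

theorem W8_pt0 : ((W8 : leechLattice) : GolayPt → ℤ) (pt 0) = 1 := by
  show w3 none (pt 0) = 1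
  unfold w3
  rw [if_neg (Ne.symm none_ne_pt0)]

theorem norm8 : sqNorm (fun i : GolayPt => if i = none then (-2 : ℤ) else if i = pt 0 then -2 else 0)
    = 8 := by decide +kernel

/-- `SV` has no non-trivial normal 2-subgroup. -/
theorem O2_SV (M : Subgroup Co0) (hM : IsPGroup 2 M) (hle : M ≤ SV)
    (hnorm : ∀ k ∈ SV, ∀ m ∈ M, k * m * k⁻¹ ∈ M) : ∀ m ∈ M, m = 1 := by
  intro m hm
  have hmV : m • V0 = V0 := MulAction.mem_stabilizer_iff.mp (hle hm)
  have pm := pm_D0 M hM hle hnorm m hm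
  have prop1 : ∀ a b : leechLattice, m • a = a →
      dotInt (a : GolayPt → ℤ) (b : GolayPt → ℤ) ≠ 0 → (m • b = b ∨ m • b = -b) → m • b = b := by
    intro a b ha hab hb
    rcases hb with hb | hb
    · exact hb
    · exfalso
      have hd := dot_smul m a b
      rw [ha, hb, AddSubgroup.coe_neg, dot_comm, dotInt_neg_left, dot_comm] at hd
      exact hab (by linarith)
  have prop2 : ∀ a b : leechLattice, m • a = -a →
      dotInt (a : GolayPt → ℤ) (b : GolayPt → ℤ) ≠ 0 → (m • b = b ∨ m • b = -b) → m • b = -b := by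
    intro a b ha hab hb
    rcases hb with hb | hb
    · exfalso
      have hd := dot_smul m a b
      rw [ha, hb, AddSubgroup.coe_neg, dotInt_neg_left] at hd
      exact hab (by linarith)
    · exact hb
  have hpmU := pm U0 U0_norm dot_V0_U0
  have hpmF : ∀ (s : ℤ) (hs : s = 1 ∨ s = -1) (i : GolayPt), i ≠ none → i ≠ pt 0 →
      (m • fv s hs i = fv s hs i ∨ m • fv s hs i = -fv s hs i) :=
    fun s hs i h1 h2 => pm _ (fv_norm s hs i) (dot_V0_fv s hs i h1 h2)
  rcases pm hub hub_norm dot_V0_hub with hh | hh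
  · have hU : m • U0 = U0 := prop1 hub U0 hh (by rw [dot_hub_U0]; norm_num) hpmU
    have hF : ∀ (s : ℤ) (hs : s = 1 ∨ s = -1) (i : GolayPt), i ≠ none → i ≠ pt 0 →
        m • fv s hs i = fv s hs i :=
      fun s hs i h1 h2 => prop1 hub _ hh (dot_hub_fv s hs i) (hpmF s hs i h1 h2)
    apply fix_all
    intro p
    by_cases h1 : p = none
    · rw [h1, elat_none, smul_add', hmV, hU]
    by_cases h2 : p = pt 0
    · rw [h2, elat_pt0, smul_sub', hmV, hU]
    · have e : elat p = fv 1 (Or.inl rfl) p + fv (-1) (Or.inr rfl) p :=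
        Subtype.ext (evec_eq p (sg p) (sg_ne p))
      rw [e, smul_add', hF _ _ p h1 h2, hF _ _ p h1 h2]
  · exfalso
    have hU : m • U0 = -U0 := prop2 hub U0 hh (by rw [dot_hub_U0]; norm_num) hpmU
    have hF : ∀ (s : ℤ) (hs : s = 1 ∨ s = -1) (i : GolayPt), i ≠ none → i ≠ pt 0 →
        m • fv s hs i = -fv s hs i :=
      fun s hs i h1 h2 => prop2 hub _ hh (dot_hub_fv s hs i) (hpmF s hs i h1 h2)
    have key : ∀ w : leechLattice, m • w = -w →
        dotInt ((m • W8 + W8 : leechLattice) : GolayPt → ℤ) (w : GolayPt → ℤ) = 0 := by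
      intro w hw
      have h1 : m • (-w) = w := by rw [smul_neg', hw, neg_neg]
      have h2 := dot_smul m W8 (-w)
      rw [h1, AddSubgroup.coe_neg, dot_comm ((W8 : leechLattice) : GolayPt → ℤ), dotInt_neg_left,
        dot_comm (w : GolayPt → ℤ)] at h2
      rw [AddSubgroup.coe_add, dot_add_left, h2]
      ring
    have hyV : dotInt ((m • W8 + W8 : leechLattice) : GolayPt → ℤ)
        ((V0 : leechLattice) : GolayPt → ℤ) = -16 := by
      have h2 := dot_smul m W8 V0
      rw [hmV] at h2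
      rw [AddSubgroup.coe_add, dot_add_left, h2, dot_comm, dot_V0, W8_none, W8_pt0]
      norm_num
    have hy0 : ∀ i, i ≠ none → i ≠ pt 0 →
        ((m • W8 + W8 : leechLattice) : GolayPt → ℤ) i = 0 := by
      intro i h1 h2
      have e1 : dotInt ((m • W8 + W8 : leechLattice) : GolayPt → ℤ) (mvec 1 i (sg i)) = 0 :=
        key _ (hF 1 (Or.inl rfl) i h1 h2)
      have e2 : dotInt ((m • W8 + W8 : leechLattice) : GolayPt → ℤ) (mvec (-1) i (sg i)) = 0 :=
        key _ (hF (-1) (Or.inr rfl) i h1 h2)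
      rw [dot_mvec] at e1 e2
      linarith
    have hyU := key U0 hU
    rw [dot_comm, dot_U0] at hyU
    rw [dot_comm, dot_V0] at hyV
    have hn : ((m • W8 + W8 : leechLattice) : GolayPt → ℤ) none = -2 := by linarith
    have h0 : ((m • W8 + W8 : leechLattice) : GolayPt → ℤ) (pt 0) = -2 := by linarith
    have hyfun : ((m • W8 + W8 : leechLattice) : GolayPt → ℤ)
        = fun i => if i = none then -2 else if i = pt 0 then -2 else 0 := by
      funext i
      by_cases h1 : i = none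
      · rw [h1, hn, if_pos rfl]
      · by_cases h2 : i = pt 0
        · rw [h2, h0, if_neg (Ne.symm none_ne_pt0), if_pos rfl]
        · rw [hy0 i h1 h2, if_neg h1, if_neg h2]
    have hne : ((m • W8 + W8 : leechLattice) : GolayPt → ℤ) ≠ 0 := by
      intro h
      rw [h] at hn
      norm_num at hn
    have hmin := min_norm (m • W8 + W8 : leechLattice).2 hne
    rw [hyfun, norm8] at hmin
    norm_num at hmin

/-- The stabiliser of any minimal vector has no non-trivial normal 2-subgroup. -/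
theorem O2_stab (v : leechLattice) (hv : sqNorm (v : GolayPt → ℤ) = 32) (M : Subgroup Co0)
    (hM : IsPGroup 2 M) (hMv : ∀ m ∈ M, m • v = v)
    (hnorm : ∀ k : Co0, k • v = v → ∀ m ∈ M, k * m * k⁻¹ ∈ M) : ∀ m ∈ M, m = 1 := by
  obtain ⟨a, ha⟩ := trans32 v V0 hv V0_norm
  have hmem : ∀ x, x ∈ M.map (MulAut.conj a).toMonoidHom ↔ a⁻¹ * x * a ∈ M := by
    intro x
    constructor
    · rintro ⟨m, hm, rfl⟩
      show a⁻¹ * (a * m * a⁻¹) * a ∈ M
      have e : a⁻¹ * (a * m * a⁻¹) * a = m := by group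
      rw [e]
      exact hm
    · intro h
      refine ⟨a⁻¹ * x * a, h, ?_⟩
      show a * (a⁻¹ * x * a) * a⁻¹ = x
      group
  have h1 := O2_SV (M.map (MulAut.conj a).toMonoidHom) (hM.map _) ?_ ?_
  · intro m hm
    have e : a⁻¹ * (a * m * a⁻¹) * a = m := by group
    have h2 := h1 (a * m * a⁻¹) ((hmem _).mpr (by rw [e]; exact hm))
    have h3 := congrArg (fun t => a⁻¹ * t * a) h2
    simpa [mul_assoc] using h3
  · intro x hx
    rw [hmem] at hx
    have h2 := hMv _ hx
    rw [MulAction.mem_stabilizer_iff, ← ha]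
    have e : x * a = a * (a⁻¹ * x * a) := by group
    rw [← mul_smul, e, mul_smul, h2]
  · intro k hk x hx
    rw [hmem] at hx ⊢
    have hk' : (a⁻¹ * k * a) • v = v := by
      rw [mul_smul, mul_smul, ha, MulAction.mem_stabilizer_iff.mp hk, ← ha, ← mul_smul,
        inv_mul_cancel, one_smul]
    have h2 := hnorm _ hk' _ hx
    have e : a⁻¹ * (k * x * k⁻¹) * a = a⁻¹ * k * a * (a⁻¹ * x * a) * (a⁻¹ * k * a)⁻¹ := by group
    rw [e]
    exact h2

end Cfsg.Agent.Lib.Helper92.O2Co2
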