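import Mathlib
import Cfsg.Prelude.Def_Sporadic_a
import Cfsg.Prelude.Def_SporadicCombinatorics
import Cfsg.Agent.Lib.Helper92.O2Co2
import Cfsg.Agent.Lib.Helper7.MathieuSimple
import Cfsg.Agent.Lib.Helper7.M12Thm

/-!
Normal 2-subgroups of the monomial group of the rank-24 lattice (the stabiliser of the class of
`8 e_∞` modulo twice the lattice): such a subgroup consists of sign changes on code words, and if
it contains `-1` it is either `{1, -1}` or the full group of sign changes.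
-/

set_option autoImplicit false

namespace Cfsg.Agent.Lib.Helper92.NormalMono

open Cfsg Cfsg.Agent.Lib.Helper92.LeechCore Cfsg.Agent.Lib.Helper92.MinVec
open Cfsg.Agent.Lib.Helper92.ActQ Cfsg.Agent.Lib.Helper92.MaxMono
open Cfsg.Agent.Lib.Helper7.GolayBase Cfsg.Agent.Lib.Helper7.GolayCode
open Cfsg.Agent.Lib.Helper7.M24Main Cfsg.Agent.Lib.Helper7.M24Mem
open Cfsg.Agent.Lib.Helper93.Monomial
open Cfsg.Agent.S0398
open scoped Pointwise

theorem co0_ext {g h : ↥Co0}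
    (H : ∀ v : ↥leechLattice, ((g • v : ↥leechLattice) : GolayPt → ℤ)
      = ((h • v : ↥leechLattice) : GolayPt → ℤ)) : g = h :=
  Subtype.ext (Equiv.ext fun v => Subtype.ext (H v))

theorem signedPerm_comp (σ τ : Equiv.Perm GolayPt) (c d : Finset GolayPt) (x : GolayPt → ℤ) :
    signedPerm σ c (signedPerm τ d x) = signedPerm (σ * τ) (symmDiff c (σ • d)) x := by
  funext i
  unfold signedPerm
  have h1 : (σ * τ).symm i = τ.symm (σ.symm i) := rfl
  have h2 : i ∈ symmDiff c (σ • d) ↔ (i ∈ c ∧ σ.symm i ∉ d ∨ σ.symm i ∈ d ∧ i ∉ c) := by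
    rw [Finset.mem_symmDiff, Cfsg.Agent.S1571.mem_smul_iff]
  rw [h1]
  by_cases hc : i ∈ c <;> by_cases hd : σ.symm i ∈ d <;> simp [hc, hd, h2]

theorem mono_congr {σ σ' : Equiv.Perm GolayPt} {c c' : Finset GolayPt} (hσ : σ ∈ M24)
    (hc : IsCW c) (h1 : σ = σ') (h2 : c = c') :
    mono σ hσ c hc = mono σ' (h1 ▸ hσ) c' (h2 ▸ hc) := by
  subst h1
  subst h2
  rfl

theorem mono_mul (σ τ : Equiv.Perm GolayPt) (hσ : σ ∈ M24) (hτ : τ ∈ M24)
    (c d : Finset GolayPt) (hc : IsCW c) (hd : IsCW d) :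
    mono σ hσ c hc * mono τ hτ d hd = mono (σ * τ) (M24.mul_mem hσ hτ) (symmDiff c (σ • d))
      (symmDiff_mem hc (smul_mem_supports hσ hd)) := by
  apply co0_ext
  intro v
  rw [mul_smul, mono_val, mono_val, mono_val, signedPerm_comp]

theorem mono_one : mono 1 M24.one_mem ∅ empty_mem = 1 := by
  apply co0_ext
  intro v
  rw [mono_val, one_smul]
  funext i
  simp [signedPerm]
  rfl

theorem mono_inj {σ σ' : Equiv.Perm GolayPt} {hσ : σ ∈ M24} {hσ' : σ' ∈ M24}
    {c c' : Finset GolayPt} {hc : IsCW c} {hc' : IsCW c'}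
    (h : mono σ hσ c hc = mono σ' hσ' c' hc') : σ = σ' ∧ c = c' := by
  have h1 : Cfsg.Agent.S1571.toStab (⟨σ, hσ⟩, ⟨c, hc⟩)
      = Cfsg.Agent.S1571.toStab (⟨σ', hσ'⟩, ⟨c', hc'⟩) := Subtype.ext h
  have h2 := Cfsg.Agent.S1571.toStab_injective h1
  exact ⟨congrArg (fun x => (x.1 : Equiv.Perm GolayPt)) h2,
    congrArg (fun x => (x.2 : Finset GolayPt)) h2⟩

theorem stab_eq_mono (g : ↥Co0) (hg : g • c0 = c0) :
    ∃ σ, ∃ hσ : σ ∈ M24, ∃ c, ∃ hc : IsCW c, g = mono σ hσ c hc := by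
  obtain ⟨σ, hσ, c, hc, formula⟩ := Cfsg.Agent.S1571.monomial_of_stab g.1 g.2
    (fun v hv => (stab_iff g).mp hg v hv)
  exact ⟨σ, hσ, c, hc, co0_ext fun v => formula v⟩

theorem mono_inv (σ : Equiv.Perm GolayPt) (hσ : σ ∈ M24) (c : Finset GolayPt) (hc : IsCW c) :
    (mono σ hσ c hc)⁻¹ = mono σ⁻¹ (M24.inv_mem hσ) (σ⁻¹ • c)
      (smul_mem_supports (M24.inv_mem hσ) hc) := by
  apply inv_eq_of_mul_eq_one_right
  rw [mono_mul]
  refine (mono_congr _ _ (mul_inv_cancel σ) ?_).trans mono_one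
  rw [smul_inv_smul, symmDiff_self]
  rfl

theorem mono_pow (σ : Equiv.Perm GolayPt) (hσ : σ ∈ M24) (c : Finset GolayPt) (hc : IsCW c)
    (n : ℕ) : ∃ c', ∃ hc' : IsCW c',
      (mono σ hσ c hc) ^ n = mono (σ ^ n) (M24.pow_mem hσ n) c' hc' := by
  induction n with
  | zero =>
    refine ⟨∅, empty_mem, ?_⟩
    rw [pow_zero]
    exact mono_one.symm.trans (mono_congr _ _ (pow_zero σ).symm rfl)
  | succ n ih =>
    obtain ⟨c', hc', h⟩ := ih
    refine ⟨symmDiff c' (σ ^ n • c),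
      symmDiff_mem hc' (smul_mem_supports (M24.pow_mem hσ n) hc), ?_⟩
    rw [pow_succ, h, mono_mul]
    exact mono_congr _ _ (pow_succ σ n).symm rfl

/-- The permutation parts of the elements of a set of monomial automorphisms. -/
def permPart (M : Subgroup ↥Co0) : Subgroup ↥M24 where
  carrier := {σ | ∃ c, ∃ hc : IsCW c, mono σ.1 σ.2 c hc ∈ M}
  one_mem' := ⟨∅, empty_mem, by
    have : mono (1 : ↥M24).1 (1 : ↥M24).2 ∅ empty_mem = 1 := mono_one
    rw [this]
    exact M.one_mem⟩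
  mul_mem' := by
    rintro σ τ ⟨c, hc, h1⟩ ⟨d, hd, h2⟩
    have := M.mul_mem h1 h2
    rw [mono_mul] at this
    exact ⟨_, _, this⟩
  inv_mem' := by
    rintro σ ⟨c, hc, h1⟩
    have := M.inv_mem h1
    rw [mono_inv] at this
    exact ⟨_, _, this⟩

theorem permPart_normal {M : Subgroup ↥Co0}
    (hnorm : ∀ k : ↥Co0, k • c0 = c0 → ∀ m ∈ M, k * m * k⁻¹ ∈ M) : (permPart M).Normal := by
  constructor
  rintro σ ⟨c, hc, h1⟩ τ
  have h2 := hnorm (mono τ.1 τ.2 ∅ empty_mem) (mono_c0 _ _ _ _) _ h1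
  rw [mono_inv, mono_mul, mono_mul] at h2
  exact ⟨_, _, h2⟩

theorem permPart_pgroup {M : Subgroup ↥Co0} (hMp : IsPGroup 2 M) : IsPGroup 2 (permPart M) := by
  rintro ⟨σ, c, hc, h1⟩
  obtain ⟨k, hk⟩ := hMp ⟨_, h1⟩
  refine ⟨k, ?_⟩
  have hk' : (mono σ.1 σ.2 c hc) ^ 2 ^ k = 1 := congrArg Subtype.val hk
  obtain ⟨c', hc', h2⟩ := mono_pow σ.1 σ.2 c hc (2 ^ k)
  rw [h2, ← mono_one] at hk'
  have h3 := (mono_inj hk').1
  apply Subtype.ext
  apply Subtype.ext
  exact h3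

theorem permPart_bot {M : Subgroup ↥Co0} (hMp : IsPGroup 2 M)
    (hnorm : ∀ k : ↥Co0, k • c0 = c0 → ∀ m ∈ M, k * m * k⁻¹ ∈ M) : permPart M = ⊥ := by
  have : IsSimpleGroup ↥M24 := Cfsg.Agent.Lib.Helper7.MathieuSimple.m24_simple
  rcases (permPart_normal hnorm).eq_bot_or_eq_top with h | h
  · exact h
  · exfalso
    have hp := permPart_pgroup hMp
    rw [h] at hp
    obtain ⟨n, hn⟩ := IsPGroup.exists_card_eq hp
    rw [Subgroup.card_top, card_M24] at hn
    have h3 : 3 ∣ 2 ^ n := by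
      rw [← hn]
      norm_num
    have h4 := Nat.Prime.dvd_of_dvd_pow Nat.prime_three h3
    omega

/-- Sign change on a code word. -/
noncomputable def eps (c : Finset GolayPt) (hc : IsCW c) : ↥Co0 := mono 1 M24.one_mem c hc

theorem eps_val (c : Finset GolayPt) (hc : IsCW c) (v : ↥leechLattice) :
    ((eps c hc • v : ↥leechLattice) : GolayPt → ℤ) = signedPerm 1 c v := rfl

theorem eps_mul (c d : Finset GolayPt) (hc : IsCW c) (hd : IsCW d) :
    eps c hc * eps d hd = eps (symmDiff c d) (symmDiff_mem hc hd) := by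
  unfold eps
  rw [mono_mul]
  exact mono_congr _ _ (one_mul 1) (by rw [one_smul])

theorem eps_empty : eps ∅ empty_mem = 1 := mono_one

theorem eps_univ : eps Finset.univ univ_mem = negC := by
  apply co0_ext
  intro v
  rw [eps_val]
  funext i
  simp [signedPerm]
  rfl

theorem eps_inj {c d : Finset GolayPt} {hc : IsCW c} {hd : IsCW d}
    (h : eps c hc = eps d hd) : c = d := (mono_inj h).2

theorem eps_conj (τ : Equiv.Perm GolayPt) (hτ : τ ∈ M24) (c : Finset GolayPt) (hc : IsCW c) :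
    mono τ hτ ∅ empty_mem * eps c hc * (mono τ hτ ∅ empty_mem)⁻¹
      = eps (τ • c) (smul_mem_supports hτ hc) := by
  have h : mono τ hτ ∅ empty_mem * eps c hc
      = eps (τ • c) (smul_mem_supports hτ hc) * mono τ hτ ∅ empty_mem := by
    unfold eps
    rw [mono_mul, mono_mul]
    have e1 : symmDiff (∅ : Finset GolayPt) (τ • c) = τ • c := by
      ext i
      simp [Finset.mem_symmDiff]
    have e2 : symmDiff (τ • c) ((1 : Equiv.Perm GolayPt) • (∅ : Finset GolayPt)) = τ • c := by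
      ext i
      simp [Finset.mem_symmDiff]
    exact (mono_congr _ _ (mul_one τ) e1).trans (mono_congr _ _ (one_mul τ) e2).symm
  rw [h, mul_inv_cancel_right]

theorem mem_eps {M : Subgroup ↥Co0} (hMp : IsPGroup 2 M) (hstab : ∀ m ∈ M, m • c0 = c0)
    (hnorm : ∀ k : ↥Co0, k • c0 = c0 → ∀ m ∈ M, k * m * k⁻¹ ∈ M) {m : ↥Co0} (hm : m ∈ M) :
    ∃ c, ∃ hc : IsCW c, m = eps c hc := by
  obtain ⟨σ, hσ, c, hc, rfl⟩ := stab_eq_mono m (hstab m hm)
  have h1 : (⟨σ, hσ⟩ : ↥M24) ∈ permPart M := ⟨c, hc, hm⟩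
  rw [permPart_bot hMp hnorm, Subgroup.mem_bot] at h1
  have h2 : σ = 1 := congrArg Subtype.val h1
  subst h2
  exact ⟨c, hc, rfl⟩

/-- The code words whose sign change lies in `M`. -/
def signSet (M : Subgroup ↥Co0) : Set (Finset GolayPt) := {c | ∃ hc : IsCW c, eps c hc ∈ M}

theorem signSet_sd {M : Subgroup ↥Co0} {a b : Finset GolayPt} (ha : a ∈ signSet M)
    (hb : b ∈ signSet M) : symmDiff a b ∈ signSet M := by
  obtain ⟨ha1, ha2⟩ := ha
  obtain ⟨hb1, hb2⟩ := hb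
  refine ⟨symmDiff_mem ha1 hb1, ?_⟩
  rw [← eps_mul a b ha1 hb1]
  exact M.mul_mem ha2 hb2

theorem signSet_smul {M : Subgroup ↥Co0}
    (hnorm : ∀ k : ↥Co0, k • c0 = c0 → ∀ m ∈ M, k * m * k⁻¹ ∈ M) {τ : Equiv.Perm GolayPt}
    (hτ : τ ∈ M24) {a : Finset GolayPt} (ha : a ∈ signSet M) : τ • a ∈ signSet M := by
  obtain ⟨ha1, ha2⟩ := ha
  refine ⟨smul_mem_supports hτ ha1, ?_⟩
  rw [← eps_conj τ hτ a ha1]
  exact hnorm _ (mono_c0 _ _ _ _) _ ha2

theorem signSet_empty (M : Subgroup ↥Co0) : (∅ : Finset GolayPt) ∈ signSet M :=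
  ⟨empty_mem, by rw [eps_empty]; exact M.one_mem⟩

theorem signSet_univ {M : Subgroup ↥Co0} (hneg : negC ∈ M) :
    (Finset.univ : Finset GolayPt) ∈ signSet M :=
  ⟨univ_mem, by rw [eps_univ]; exact hneg⟩

theorem echelon_octad : ∀ e ∈ echelon, popc e = 8 := by decide +kernel

theorem basis_dodecad : ∀ b ∈ basisMasks, b = full ∨ popc b = 12 := by decide +kernel

theorem signSet_of_octads {M : Subgroup ↥Co0}
    (hoct : ∀ o ∈ octads, o ∈ signSet M) : ∀ d, IsCW d → d ∈ signSet M := by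
  intro d hd
  obtain ⟨m, hm, rfl⟩ := (mem_supports_iff d).mp hd
  have h1 : m ∈ spanList echelon := by
    have h2 := inCode_complete m hm
    unfold inCode at h2
    have h3 : reduce echelon m = 0 := by simpa using h2
    have h4 := reduce_xor_mem echelon m
    rw [h3, Nat.xor_zero] at h4
    exact h4
  exact spanList_induction (P := fun m => mk m ∈ signSet M)
    (by rw [mk_zero]; exact signSet_empty M)
    (fun a b ha hb => by rw [mk_xor]; exact signSet_sd ha hb)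
    (fun b hb => hoct _ ⟨mk_mem_supports (echelon_mem_codeList b hb), by
      rw [card_mk]; exact echelon_octad b hb⟩) m h1

theorem signSet_of_dodecads {M : Subgroup ↥Co0} (hneg : negC ∈ M)
    (hdod : ∀ o ∈ dodecads, o ∈ signSet M) : ∀ d, IsCW d → d ∈ signSet M := by
  intro d hd
  obtain ⟨m, hm, rfl⟩ := (mem_supports_iff d).mp hd
  exact spanList_induction (P := fun m => mk m ∈ signSet M)
    (by rw [mk_zero]; exact signSet_empty M)
    (fun a b ha hb => by rw [mk_xor]; exact signSet_sd ha hb)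
    (fun b hb => by
      rcases basis_dodecad b hb with h | h
      · rw [h, mk_full]; exact signSet_univ hneg
      · exact hdod _ ⟨mk_mem_supports (mem_spanList_of_mem hb), by rw [card_mk]; exact h⟩) m hm

theorem signSet_all {M : Subgroup ↥Co0}
    (hnorm : ∀ k : ↥Co0, k • c0 = c0 → ∀ m ∈ M, k * m * k⁻¹ ∈ M) (hneg : negC ∈ M)
    {c : Finset GolayPt} (hc : c ∈ signSet M) (h0 : c ≠ ∅) (h1 : c ≠ Finset.univ) :
    ∀ d, IsCW d → d ∈ signSet M := by
  have hcw : IsCW c := by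
    obtain ⟨h, -⟩ := hc
    exact h
  obtain ⟨m, hm, hmc⟩ := (mem_supports_iff c).mp hcw
  have hoct : ∀ o : Finset GolayPt, o ∈ signSet M → o.card = 8 →
      ∀ d, IsCW d → d ∈ signSet M := by
    intro o ho hcard
    apply signSet_of_octads
    intro o' ho'
    have how : IsCW o := by
      obtain ⟨h, -⟩ := ho
      exact h
    obtain ⟨g, hg, hgo⟩ := Cfsg.Agent.Lib.Helper7.M24Octad.octad_transitive (o := o) (o' := o')
      ⟨how, hcard⟩ ho'
    rw [← hgo]
    exact signSet_smul hnorm hg ho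
  have hcard : c.card = popc m := by rw [← hmc, card_mk]
  rcases weights m hm with h | h | h | h | h
  · exfalso
    apply h0
    rw [← hmc, weight_zero m hm h, mk_zero]
  · exact hoct c hc (by rw [hcard, h])
  · apply signSet_of_dodecads hneg
    intro o' ho'
    obtain ⟨g, hgo⟩ := Cfsg.Agent.Lib.Helper7.M12Thm.dodecad_transitive c o'
      ⟨hcw, by rw [hcard, h]⟩ ho'
    have hgo' : (g : Equiv.Perm GolayPt) • c = o' := hgo
    rw [← hgo']
    exact signSet_smul hnorm g.2 hc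
  · refine hoct (symmDiff c Finset.univ) (signSet_sd hc (signSet_univ hneg)) ?_
    have h2 : symmDiff c Finset.univ = cᶜ := by
      ext i
      simp [Finset.mem_symmDiff]
    rw [h2, Finset.card_compl, hcard, h]
    rfl
  · exfalso
    apply h1
    rw [← hmc, weight_full m hm h, mk_full]

/-- A normal 2-subgroup of the monomial group containing `-1` is `{1, -1}` or the group of all
sign changes on code words. -/
theorem normal_two {M : Subgroup ↥Co0} (hMp : IsPGroup 2 M) (hstab : ∀ m ∈ M, m • c0 = c0)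
    (hnorm : ∀ k : ↥Co0, k • c0 = c0 → ∀ m ∈ M, k * m * k⁻¹ ∈ M) (hneg : negC ∈ M) :
    (∀ m ∈ M, m = 1 ∨ m = negC) ∨
      (∀ m : ↥Co0, m ∈ M ↔ ∃ c, ∃ hc : IsCW c, m = eps c hc) := by
  by_cases hex : ∃ c ∈ signSet M, c ≠ ∅ ∧ c ≠ Finset.univ
  · right
    obtain ⟨c, hc, h0, h1⟩ := hex
    intro m
    constructor
    · exact fun hm => mem_eps hMp hstab hnorm hm
    · rintro ⟨d, hd, rfl⟩
      obtain ⟨_, h2⟩ := signSet_all hnorm hneg hc h0 h1 d hd
      exact h2
  · left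
    push Not at hex
    intro m hm
    obtain ⟨c, hc, rfl⟩ := mem_eps hMp hstab hnorm hm
    by_cases h0 : c = ∅
    · left
      subst h0
      exact eps_empty
    · right
      have h1 := hex c ⟨hc, hm⟩ (Finset.nonempty_iff_ne_empty.mpr h0)
      subst h1
      exact eps_univ

theorem card_eps {M : Subgroup ↥Co0}
    (h : ∀ m : ↥Co0, m ∈ M ↔ ∃ c, ∃ hc : IsCW c, m = eps c hc) : Nat.card M = 4096 := by
  rw [← Cfsg.Agent.S1571.card_supports]
  symm
  apply Nat.card_congr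
  refine Equiv.ofBijective (fun c : ↥(supports (golayCode : Set (GolayPt → ZMod 2))) =>
    (⟨eps c.1 c.2, (h _).mpr ⟨c.1, c.2, rfl⟩⟩ : M)) ⟨?_, ?_⟩
  · intro c d hcd
    exact Subtype.ext (eps_inj (congrArg Subtype.val hcd))
  · rintro ⟨m, hm⟩
    obtain ⟨c, hc, rfl⟩ := (h m).mp hm
    exact ⟨⟨c, hc⟩, rfl⟩

theorem card_eps_conj {M : Subgroup ↥Co0} (a : ↥Co0)
    (h : ∀ m : ↥Co0, m ∈ M ↔ ∃ c, ∃ hc : IsCW c, m = a * eps c hc * a⁻¹) :
    Nat.card M = 4096 := by
  rw [← Cfsg.Agent.S1571.card_supports]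
  symm
  apply Nat.card_congr
  refine Equiv.ofBijective (fun c : ↥(supports (golayCode : Set (GolayPt → ZMod 2))) =>
    (⟨a * eps c.1 c.2 * a⁻¹, (h _).mpr ⟨c.1, c.2, rfl⟩⟩ : M)) ⟨?_, ?_⟩
  · intro c d hcd
    have h1 : a * eps c.1 c.2 * a⁻¹ = a * eps d.1 d.2 * a⁻¹ := congrArg Subtype.val hcd
    exact Subtype.ext (eps_inj (mul_left_cancel (mul_right_cancel h1)))
  · rintro ⟨m, hm⟩
    obtain ⟨c, hc, rfl⟩ := (h m).mp hm
    exact ⟨⟨c, hc⟩, rfl⟩

end Cfsg.Agent.Lib.Helper92.NormalMono
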