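import Mathlib
import Cfsg.Agent.Lib.Helper25.ACOddStmt

/-!
# S3911 / SYLIN (call by helper25, second seat): for a minimal normal subgroup `M` of odd order and
a prime `p ∣ #M`, a Sylow `p`-subgroup of `G` lies in `M`, or `M` is a `p`-group
(from `ExpIn`, `SylUniq`, `CycOdd`, `PCompl`).
-/

set_option autoImplicit false

namespace Cfsg.Agent.Lib.Helper92.AOSYLIN

open Cfsg.Agent.Lib.Helper25.ACStmt Cfsg.Agent.Lib.Helper25.ACOddStmt

universe u

theorem main (hE : ExpIn.{u}) (hU : SylUniq.{u}) (hC : CycOdd.{u}) (hP : PCompl.{u}) :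
    SylIn.{u} := by
  intro G _ _ hB M hMn hodd hmin p hp hpM P
  have hp2 : p ≠ 2 := by
    rintro rfl
    rcases hodd with ⟨k, hk⟩
    omega
  by_cases hexp : ∀ x ∈ (P : Subgroup G), x ^ p = 1
  · exact Or.inl (hE G hB M hMn p hpM P hexp)
  · push Not at hexp
    obtain ⟨x, hx, hxp⟩ := hexp
    obtain ⟨Z₀, hZP, hZcard, hZall⟩ := hU G hB p P ⟨x, hx, hxp⟩
    have hcyc : IsCyclic ↥(P : Subgroup G) := by
      apply hC ↥(P : Subgroup G) p hp2 P.isPGroup' (Z₀.subgroupOf (P : Subgroup G))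
      · exact (Nat.card_congr (Subgroup.subgroupOfEquivOfLe hZP).toEquiv).trans hZcard
      · intro y hy
        rw [Subgroup.mem_subgroupOf]
        exact hZall (y : G) y.2 ((Subgroup.orderOf_coe y).trans hy)
    by_cases hPM : (P : Subgroup G) ≤ M
    · exact Or.inl hPM
    · right
      obtain ⟨K, hKn, hKM, hKcop, j, hj⟩ := hP G p P hcyc M hMn hPM
      rcases hmin K hKn hKM with hK | hK
      · apply IsPGroup.of_card (n := j)
        rw [hj, hK]
        simp
      · exfalso
        rw [hK] at hKcop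
        exact (Nat.Prime.coprime_iff_not_dvd hp.out).1 hKcop.symm hpM

end Cfsg.Agent.Lib.Helper92.AOSYLIN
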