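import Mathlib
import Cfsg.Agent.Lib.Helper88.CEStmt
import Cfsg.Agent.Lib.Helper88.FCStmt
import Cfsg.Agent.Lib.Helper87.PCStmt
import Cfsg.Agent.Lib.Helper87.FSAlperin
import Cfsg.Agent.Lib.Helper88.AlpCentric
import Cfsg.Agent.S5097

/-! Piece ALPC of S5127 (helper92, second seat): a subgroup `X` of `C_S(T)` centralizes `E` as soon
as every automorphism in `E` of every `E`-centric subgroup fully automized in `E` extends to a map
of `F` fixing `X` elementwise.  Alperin-type induction in `E` against the system of the maps of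
`E` lying in `C_F(X)`. -/

set_option autoImplicit false

namespace Cfsg.Agent.Lib.Helper92.CEALPC

open Cfsg Cfsg.FusionSystem Cfsg.Agent.Lib.Helper88.FCStmt Cfsg.Agent.Lib.Helper88.CEStmt

universe u

theorem main : AlpCrit.{u} := by
  intro Ω _ S _ p _ hS F hF T E hE X hX hyp
  have hEF : E.IsSubsystemOf F := hE.1.2.2.1
  have hTS : T ≤ S := hE.1.2.2.2.1.1
  have hXS : X ≤ S := fun x hx => (hX hx).1
  obtain ⟨CX, hCX⟩ := Cfsg.Agent.S5097.result F X hXS
  have hTC : T ≤ centralizerIn S X := by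
    intro t ht
    refine ⟨hTS ht, ?_⟩
    show t ∈ Subgroup.centralizer (X : Set Ω)
    rw [Subgroup.mem_centralizer_iff]
    intro x hx
    exact ((hX hx).2 t ht).symm
  have hfinT : Finite T := Cfsg.Agent.Lib.Helper87.FSSat.finite_of_le hTS
  have hpT : IsPGroup p T := hS.to_le hTS
  have hgen := Cfsg.Agent.Lib.Helper87.FSAlperin.alperin_induction hpT E hE.1.1
    (Cfsg.Agent.Lib.Helper87.PCStmt.mixSys E CX hTC) (by
    intro Y hfa hrec IH α hα hr
    by_cases hc : E.IsCentric Y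
    · refine ⟨hα, ?_⟩
      rw [hCX Y]
      have hYT : Y ≤ T := hc.1
      obtain ⟨ψ, hψ, hψ1, hψ2⟩ := hyp Y hc hfa
        (Cfsg.Agent.Lib.Helper87.FSBasic.autOfMap α (E.injective_of_mem hα) hr)
        (Cfsg.Agent.Lib.Helper87.FSBasic.autOfMap_mem E hα hr)
      exact ⟨hEF Y hα, hYT.trans hTC, fun x => hTC ((E.le_of_mem hα).2 x), ψ, hψ,
        fun x => (hψ1 x).trans
          (Cfsg.Agent.Lib.Helper87.FSBasic.autOfMap_coe α (E.injective_of_mem hα) hr x), hψ2⟩
    · obtain ⟨R, hYR, hlt, α', hα', hext⟩ :=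
        Cfsg.Agent.Lib.Helper88.AlpCentric.extends_of_not_centric E hrec hα hr hc
      have h1 := IH R hlt hα'
      have h2 := Cfsg.Agent.Lib.Helper87.FSBasic.restrict_mem
        (Cfsg.Agent.Lib.Helper87.PCStmt.mixSys E CX hTC) h1 hYR
      exact Cfsg.Agent.Lib.Helper87.FSBasic.mem_of_eq _ h2 (fun x => (hext x).symm))
  intro P φ hφ
  have h2 := (hgen P hφ).2
  rw [hCX P] at h2
  exact h2

end Cfsg.Agent.Lib.Helper92.CEALPC
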