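import Mathlib
import Cfsg.Agent.Lib.Helper88.CESStmt
import Cfsg.Agent.Lib.Helper88.WNStmt
import Cfsg.Agent.Lib.Helper30.WNWSYL
import Cfsg.Agent.Lib.Helper87.FSBasic
import Cfsg.Agent.Lib.Helper87.FSSat

/-! Piece LGNU of S5127 (helper92, second seat): `μ⁻¹ c_t μ` is induced by an element of `S`. -/

set_option autoImplicit false

namespace Cfsg.Agent.Lib.Helper92.CELGNU

open Cfsg Cfsg.FusionSystem Cfsg.Agent.Lib.Helper88.FCStmt Cfsg.Agent.Lib.Helper88.CESStmt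
open Cfsg.Agent.Lib.Helper88.WNStmt

universe u

/-- Elements of the join of two elementwise commuting subgroups are products. -/
theorem exists_mul {Ω : Type u} [Group Ω] {A B : Subgroup Ω}
    (hcomm : ∀ a ∈ A, ∀ b ∈ B, a * b = b * a) {y : Ω} (hy : y ∈ A ⊔ B) :
    ∃ a ∈ A, ∃ b ∈ B, y = a * b := by
  rw [Subgroup.sup_eq_closure] at hy
  induction hy using Subgroup.closure_induction with
  | mem x hx =>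
    rcases hx with hx | hx
    · exact ⟨x, hx, 1, B.one_mem, (mul_one x).symm⟩
    · exact ⟨1, A.one_mem, x, hx, (one_mul x).symm⟩
  | one => exact ⟨1, A.one_mem, 1, B.one_mem, (mul_one 1).symm⟩
  | mul x y _ _ hx hy =>
    obtain ⟨a, ha, b, hb, rfl⟩ := hx
    obtain ⟨a', ha', b', hb', rfl⟩ := hy
    refine ⟨a * a', A.mul_mem ha ha', b * b', B.mul_mem hb hb', ?_⟩
    have h := hcomm a' ha' b hb
    calc a * b * (a' * b') = a * (b * a') * b' := by group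
      _ = a * (a' * b) * b' := by rw [h]
      _ = a * a' * (b * b') := by group
  | inv x _ hx =>
    obtain ⟨a, ha, b, hb, rfl⟩ := hx
    refine ⟨a⁻¹, A.inv_mem ha, b⁻¹, B.inv_mem hb, ?_⟩
    have h := hcomm a⁻¹ (A.inv_mem ha) b⁻¹ (B.inv_mem hb)
    rw [mul_inv_rev, h]

theorem lgnu_aux {Ω : Type u} [Group Ω] {S : Subgroup Ω} [Finite S] (p : ℕ) [Fact p.Prime]
    (hS : IsPGroup p S) (F : FusionSystem S) (T : Subgroup Ω) (hT : F.StronglyClosed T)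
    (R' C₁ : Subgroup Ω) (hR' : R' ≤ S) (hC₁T : C₁ ≤ T)
    (hcomm : ∀ r ∈ R', ∀ c ∈ C₁, r * c = c * r)
    (hcap : ∀ y ∈ R' ⊔ C₁, y ∈ T → y ∈ C₁)
    (hfa : F.IsFullyAutomized p (R' ⊔ C₁))
    (t : Ω) (htT : t ∈ T) (htN : t ∈ Subgroup.normalizer ((R' ⊔ C₁ : Subgroup Ω) : Set Ω))
    (μ : ↥(R' ⊔ C₁) →* Ω) (hμ : μ ∈ F.Hom (R' ⊔ C₁))
    (hμC : ∀ c : ↥C₁, μ (Subgroup.inclusion le_sup_right c) = c)
    (hμR : ∀ r : R', μ (Subgroup.inclusion le_sup_left r) ∈ centralizerIn S T)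
    (hW : WSyl.{u}) :
    ∃ g ∈ S, ∀ y : ↥(R' ⊔ C₁), ∃ y' : ↥(R' ⊔ C₁),
      (y' : Ω) = g * (y : Ω) * g⁻¹ ∧ μ y' = t * μ y * t⁻¹ := by
  have hTS : T ≤ S := hT.1
  have htS : t ∈ S := hTS htT
  have hYS : R' ⊔ C₁ ≤ S := sup_le hR' (hC₁T.trans hTS)
  have hRY : R' ≤ R' ⊔ C₁ := le_sup_left
  have hCY : C₁ ≤ R' ⊔ C₁ := le_sup_right
  have hTn : ∀ s ∈ S, ∀ x ∈ T, s * x * s⁻¹ ∈ T := by
    intro s hs x hx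
    exact hT.2 T le_rfl (conjHom T s) (F.conj_mem hTS hs) ⟨x, hx⟩
  have htY : ∀ y ∈ R' ⊔ C₁, t * y * t⁻¹ ∈ R' ⊔ C₁ := fun y hy =>
    (Subgroup.mem_normalizer_iff.mp htN y).mp hy
  have htY' : ∀ y ∈ R' ⊔ C₁, t⁻¹ * y * t ∈ R' ⊔ C₁ := by
    intro y hy
    apply (Subgroup.mem_normalizer_iff.mp htN (t⁻¹ * y * t)).mpr
    have e : t * (t⁻¹ * y * t) * t⁻¹ = y := by group
    rw [e]; exact hy
  have htC : ∀ c ∈ C₁, t * c * t⁻¹ ∈ C₁ := fun c hc =>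
    hcap _ (htY c (hCY hc)) (T.mul_mem (T.mul_mem htT (hC₁T hc)) (T.inv_mem htT))
  have htC' : ∀ c ∈ C₁, t⁻¹ * c * t ∈ C₁ := fun c hc =>
    hcap _ (htY' c (hCY hc)) (T.mul_mem (T.mul_mem (T.inv_mem htT) (hC₁T hc)) htT)
  have hμc : ∀ (c : Ω) (hc : c ∈ C₁), μ ⟨c, hCY hc⟩ = c := fun c hc => hμC ⟨c, hc⟩
  have hμrc : ∀ (r : Ω) (hr : r ∈ R') (c : Ω) (hc : c ∈ C₁) (h : r * c ∈ R' ⊔ C₁),
      μ ⟨r * c, h⟩ = μ ⟨r, hRY hr⟩ * c := by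
    intro r hr c hc h
    have e : (⟨r * c, h⟩ : ↥(R' ⊔ C₁)) = ⟨r, hRY hr⟩ * ⟨c, hCY hc⟩ := rfl
    rw [e, map_mul, hμc c hc]
  have hμt : ∀ (r : Ω) (hr : r ∈ R'), t * μ ⟨r, hRY hr⟩ = μ ⟨r, hRY hr⟩ * t := by
    intro r hr
    have h := (hμR ⟨r, hr⟩).2
    exact Subgroup.mem_centralizer_iff.mp h t htT
  have heC : ∀ r ∈ R', t * r⁻¹ * t⁻¹ * r ∈ C₁ := by
    intro r hr
    refine hcap _ ?_ ?_
    · exact Subgroup.mul_mem _ (htY _ (hRY (R'.inv_mem hr))) (hRY hr)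
    · have h1 : r⁻¹ * t⁻¹ * r⁻¹⁻¹ ∈ T := hTn r⁻¹ (S.inv_mem (hR' hr)) t⁻¹ (T.inv_mem htT)
      have e : t * r⁻¹ * t⁻¹ * r = t * (r⁻¹ * t⁻¹ * r⁻¹⁻¹) := by group
      rw [e]
      exact T.mul_mem htT h1
  have hecomm : ∀ r ∈ R', ∀ c ∈ C₁, (t * r⁻¹ * t⁻¹ * r) * c = c * (t * r⁻¹ * t⁻¹ * r) := by
    intro r hr c hc
    have h1 := hcomm r hr c hc
    have hx : Commute r (t⁻¹ * c * t) := hcomm r hr (t⁻¹ * c * t) (htC' c hc)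
    have hx' : Commute r⁻¹ (t⁻¹ * c * t) := hx.inv_left
    calc t * r⁻¹ * t⁻¹ * r * c = t * r⁻¹ * t⁻¹ * (r * c) := by group
      _ = t * r⁻¹ * t⁻¹ * (c * r) := by rw [h1]
      _ = t * (r⁻¹ * (t⁻¹ * c * t)) * t⁻¹ * r := by group
      _ = t * ((t⁻¹ * c * t) * r⁻¹) * t⁻¹ * r := by rw [hx'.eq]
      _ = c * (t * r⁻¹ * t⁻¹ * r) := by group
  have hconj : ∀ (r : Ω) (hr : r ∈ R') (c : Ω) (hc : c ∈ C₁) (h : r * c ∈ R' ⊔ C₁)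
      (h' : r * (t * c * t⁻¹) ∈ R' ⊔ C₁),
      t * μ ⟨r * c, h⟩ * t⁻¹ = μ ⟨r * (t * c * t⁻¹), h'⟩ := by
    intro r hr c hc h h'
    rw [hμrc r hr c hc h, hμrc r hr _ (htC c hc) h']
    have h1 := hμt r hr
    calc t * (μ ⟨r, hRY hr⟩ * c) * t⁻¹ = (t * μ ⟨r, hRY hr⟩) * c * t⁻¹ := by group
      _ = (μ ⟨r, hRY hr⟩ * t) * c * t⁻¹ := by rw [h1]
      _ = μ ⟨r, hRY hr⟩ * (t * c * t⁻¹) := by group
  obtain ⟨ψ, hψ, hψP, hinv1, hinv2, -⟩ := Cfsg.Agent.Lib.Helper87.FSBasic.exists_inv F hμ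
  have hrS : μ.range ≤ S := Cfsg.Agent.Lib.Helper87.FSBasic.range_le F hμ
  let θ : ↥(R' ⊔ C₁) →* Ω :=
    (conjHom μ.range t).comp (μ.codRestrict μ.range (fun x => ⟨x, rfl⟩))
  have hθ : θ ∈ F.Hom (R' ⊔ C₁) := F.comp_mem hμ (F.conj_mem hrS htS) (fun x => ⟨x, rfl⟩)
  have hθv : ∀ y : ↥(R' ⊔ C₁), θ y = t * μ y * t⁻¹ := fun y => rfl
  have hθr : ∀ y : ↥(R' ⊔ C₁), θ y ∈ μ.range := by
    intro y
    obtain ⟨r, hr, c, hc, hy⟩ := exists_mul hcomm y.2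
    have h' : r * (t * c * t⁻¹) ∈ R' ⊔ C₁ := Subgroup.mul_mem _ (hRY hr) (hCY (htC c hc))
    have hy' : y = ⟨r * c, hy ▸ y.2⟩ := Subtype.ext hy
    refine ⟨⟨r * (t * c * t⁻¹), h'⟩, ?_⟩
    rw [hθv, hy']
    exact (hconj r hr c hc _ h').symm
  let ν : ↥(R' ⊔ C₁) →* Ω := ψ.comp (θ.codRestrict μ.range hθr)
  have hν : ν ∈ F.Hom (R' ⊔ C₁) := F.comp_mem hθ hψ hθr
  have hνY : ∀ y : ↥(R' ⊔ C₁), ν y ∈ R' ⊔ C₁ := fun y => hψP _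
  have hνμ : ∀ y : ↥(R' ⊔ C₁), μ ⟨ν y, hνY y⟩ = t * μ y * t⁻¹ :=
    fun y => hinv2 ⟨θ y, hθr y⟩
  have hP : ∀ (y z : ↥(R' ⊔ C₁)), t * μ y * t⁻¹ = μ z → ν y = (z : Ω) := by
    intro y z h
    have h1 : μ ⟨ν y, hνY y⟩ = μ z := (hνμ y).trans h
    have h2 := F.injective_of_mem hμ h1
    exact congrArg Subtype.val h2
  have hcY : ∀ y : ↥(R' ⊔ C₁), conjHom (R' ⊔ C₁) t⁻¹ y ∈ R' ⊔ C₁ := by
    intro y
    show t⁻¹ * (y : Ω) * t⁻¹⁻¹ ∈ R' ⊔ C₁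
    rw [inv_inv]
    exact htY' y y.2
  let ξh : ↥(R' ⊔ C₁) →* Ω := ν.comp ((conjHom (R' ⊔ C₁) t⁻¹).codRestrict (R' ⊔ C₁) hcY)
  have hξh : ξh ∈ F.Hom (R' ⊔ C₁) := F.comp_mem (F.conj_mem hYS (S.inv_mem htS)) hν hcY
  have hξdef : ∀ y : ↥(R' ⊔ C₁), ξh y = ν ⟨t⁻¹ * (y : Ω) * t⁻¹⁻¹, hcY y⟩ := fun y => rfl
  have hξv : ∀ (r : Ω) (hr : r ∈ R') (c : Ω) (hc : c ∈ C₁) (h : r * c ∈ R' ⊔ C₁),
      ξh ⟨r * c, h⟩ = r * (t * r⁻¹ * t⁻¹ * r) * c := by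
    intro r hr c hc h
    have hd : r⁻¹ * t⁻¹ * r * t ∈ C₁ := by
      have h1 := htC' _ (heC r hr)
      have e : t⁻¹ * (t * r⁻¹ * t⁻¹ * r) * t = r⁻¹ * t⁻¹ * r * t := by group
      rwa [e] at h1
    have hdc : r⁻¹ * t⁻¹ * r * t * (t⁻¹ * c * t) ∈ C₁ := C₁.mul_mem hd (htC' c hc)
    have e1 : t⁻¹ * (r * c) * t⁻¹⁻¹ = r * (r⁻¹ * t⁻¹ * r * t * (t⁻¹ * c * t)) := by group
    have hz : r * ((t * r⁻¹ * t⁻¹ * r) * c) ∈ R' ⊔ C₁ :=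
      Subgroup.mul_mem _ (hRY hr) (hCY (C₁.mul_mem (heC r hr) hc))
    have hy0 : r * (r⁻¹ * t⁻¹ * r * t * (t⁻¹ * c * t)) ∈ R' ⊔ C₁ :=
      Subgroup.mul_mem _ (hRY hr) (hCY hdc)
    have key : ν ⟨r * (r⁻¹ * t⁻¹ * r * t * (t⁻¹ * c * t)), hy0⟩ =
        r * ((t * r⁻¹ * t⁻¹ * r) * c) := by
      apply hP _ ⟨r * ((t * r⁻¹ * t⁻¹ * r) * c), hz⟩
      have h' : r * (t * (r⁻¹ * t⁻¹ * r * t * (t⁻¹ * c * t)) * t⁻¹) ∈ R' ⊔ C₁ :=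
        Subgroup.mul_mem _ (hRY hr) (hCY (htC _ hdc))
      rw [hconj r hr _ hdc hy0 h']
      have e3 : (⟨r * (t * (r⁻¹ * t⁻¹ * r * t * (t⁻¹ * c * t)) * t⁻¹), h'⟩ : ↥(R' ⊔ C₁)) =
          ⟨r * ((t * r⁻¹ * t⁻¹ * r) * c), hz⟩ := by
        apply Subtype.ext
        show r * (t * (r⁻¹ * t⁻¹ * r * t * (t⁻¹ * c * t)) * t⁻¹) = r * ((t * r⁻¹ * t⁻¹ * r) * c)
        group
      rw [e3]
    have e2 : ξh ⟨r * c, h⟩ = ν ⟨r * (r⁻¹ * t⁻¹ * r * t * (t⁻¹ * c * t)), hy0⟩ := by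
      rw [hξdef]
      exact congrArg ν (Subtype.ext e1)
    rw [e2, key]; group
  have hW1 : ∀ x : ↥(R' ⊔ C₁), (x : Ω) ∈ T → ξh x = (x : Ω) := by
    intro x hxT
    have hxC : (x : Ω) ∈ C₁ := hcap _ x.2 hxT
    have hx1 : 1 * (x : Ω) ∈ R' ⊔ C₁ := by rw [one_mul]; exact x.2
    have h1 := hξv 1 R'.one_mem (x : Ω) hxC hx1
    have e : (⟨1 * (x : Ω), hx1⟩ : ↥(R' ⊔ C₁)) = x := Subtype.ext (one_mul _)
    rw [e] at h1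
    rw [h1]; group
  have hW2 : ∀ y : ↥(R' ⊔ C₁), (y : Ω)⁻¹ * ξh y ∈ T ∧ ∀ x : ↥(R' ⊔ C₁), (x : Ω) ∈ T →
      (y : Ω)⁻¹ * ξh y * (x : Ω) = (x : Ω) * ((y : Ω)⁻¹ * ξh y) := by
    intro y
    obtain ⟨r, hr, c, hc, hy⟩ := exists_mul hcomm y.2
    have hyrc : r * c ∈ R' ⊔ C₁ := hy ▸ y.2
    have hy' : y = ⟨r * c, hyrc⟩ := Subtype.ext hy
    have hv : ξh y = r * (t * r⁻¹ * t⁻¹ * r) * c := by rw [hy']; exact hξv r hr c hc hyrc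
    have he := heC r hr
    have hec := hecomm r hr c hc
    have hval : (y : Ω)⁻¹ * ξh y = t * r⁻¹ * t⁻¹ * r := by
      rw [hv, hy]
      calc (r * c)⁻¹ * (r * (t * r⁻¹ * t⁻¹ * r) * c)
          = c⁻¹ * ((t * r⁻¹ * t⁻¹ * r) * c) := by group
        _ = c⁻¹ * (c * (t * r⁻¹ * t⁻¹ * r)) := by rw [hec]
        _ = t * r⁻¹ * t⁻¹ * r := by group
    rw [hval]
    exact ⟨hC₁T he, fun x hxT => hecomm r hr x (hcap _ x.2 hxT)⟩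
  haveI : Finite ↥(R' ⊔ C₁) := Cfsg.Agent.Lib.Helper87.FSSat.finite_of_le hYS
  have hξr : ξh.range = R' ⊔ C₁ := by
    have hle : ξh.range ≤ R' ⊔ C₁ := by
      rintro _ ⟨y, rfl⟩
      exact hνY _
    exact Subgroup.eq_of_le_of_card_ge hle (Cfsg.Agent.Lib.Helper87.FSSat.card_range F hξh).ge
  obtain ⟨h, hhS, hh⟩ := hW p hS F T hT (R' ⊔ C₁) hfa
    (Cfsg.Agent.Lib.Helper87.FSBasic.autOfMap ξh (F.injective_of_mem hξh) hξr)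
    (Cfsg.Agent.Lib.Helper87.FSBasic.autOfMap_mem F hξh hξr)
    (fun x hx => Subtype.ext (hW1 x hx))
    (fun y => hW2 y)
  refine ⟨h * t, S.mul_mem hhS htS, fun y => ⟨⟨ν y, hνY y⟩, ?_, hνμ y⟩⟩
  show ν y = h * t * (y : Ω) * (h * t)⁻¹
  have hy0 : t * (y : Ω) * t⁻¹ ∈ R' ⊔ C₁ := htY y y.2
  have h1 : ξh ⟨t * (y : Ω) * t⁻¹, hy0⟩ = h * (t * (y : Ω) * t⁻¹) * h⁻¹ := hh ⟨_, hy0⟩
  have h2 : ξh ⟨t * (y : Ω) * t⁻¹, hy0⟩ = ν y := by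
    rw [hξdef]
    refine congrArg ν (Subtype.ext ?_)
    show t⁻¹ * (t * (y : Ω) * t⁻¹) * t⁻¹⁻¹ = (y : Ω)
    group
  rw [← h2, h1]; group

theorem main : LemGNu.{u} := by
  intro Ω _ S _ p _ hS F hF T hT R' hR' hcap hfa t ht μ hμ hμC hμR
  exact lgnu_aux p hS F T hT R' (centralizerIn T R') hR' inf_le_left
    (fun r hr c hc => Subgroup.mem_centralizer_iff.mp hc.2 r hr) hcap hfa t ht.1 ht.2 μ hμ hμC hμR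
    Cfsg.Agent.Lib.Helper30.WNWSYL.main

end Cfsg.Agent.Lib.Helper92.CELGNU
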