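import Mathlib
import Cfsg.Agent.Lib.Helper92.J1Stmt
import Cfsg.Agent.Lib.Helper11.SieveFacts

/-!
# Soundness of `J1Stmt.survivors`: the actual Sylow data of a non-abelian simple group
are among the survivors of helper11's sieve tests.
-/

set_option autoImplicit false

namespace Cfsg.Agent.Lib.Helper92.J1Surv

open Subgroup Cfsg.Agent.Lib.Helper11.SieveCheck Cfsg.Agent.Lib.Helper11.SieveFacts
open Cfsg.Agent.Lib.Helper17.Sylow Cfsg.Agent.Lib.Helper17.Sylow2
open Cfsg.Agent.Lib.Helper92.J1Stmt

universe u

theorem main : Surv.{u} := by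
  intro G _ _ _ hG p _ P hP
  have hp : p.Prime := Fact.out
  have hp2 := hp.two_le
  have hn0 : 0 < Nat.card G := Nat.card_pos
  have hpd : p ∣ Nat.card G := by
    rw [← hP]; exact (P : Subgroup G).card_subgroup_dvd_card
  have hfac : (Nat.card G).factorization p = 1 := by
    have h1 := P.card_eq_multiplicity
    rw [hP] at h1
    have h2 : p ^ 1 = p ^ (Nat.card G).factorization p := by rw [pow_one]; exact h1
    exact (Nat.pow_right_injective hp2 h2).symm
  have hp2' : ¬ p ∣ Nat.card G / p := by
    intro h
    have h3 : p ^ 2 ∣ Nat.card G := by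
      obtain ⟨k, hk⟩ := h
      refine ⟨k, ?_⟩
      have h4 := Nat.div_mul_cancel hpd
      rw [hk] at h4
      rw [← h4]; ring
    have h5 := (hp.pow_dvd_iff_le_factorization hn0.ne').1 h3
    omega
  have hn : Nat.card G = p ^ 1 * (Nat.card G / p) := by
    rw [pow_one, Nat.mul_div_cancel' hpd]
  obtain ⟨r, hr1, hr, hCN, hpC⟩ := sylow_prime_centralizer hG P hP
  have hNd := card_normalizer_mul_card_sylow P
  have hdd : Nat.card (Sylow p G) ∣ Nat.card G / p := card_sylow_dvd hn hp2'
  have hd1 : Nat.card (Sylow p G) % p = 1 := card_sylow_mod p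
  have hdne : Nat.card (Sylow p G) ≠ 1 := card_sylow_ne_one hG hpd
  have hfact : 2 * Nat.card G ∣ (Nat.card (Sylow p G)).factorial :=
    two_mul_card_dvd_factorial_card_sylow hG hpd
  generalize hd : Nat.card (Sylow p G) = d at *
  generalize hc : Nat.card (centralizer ((P : Subgroup G) : Set G)) = c at *
  generalize hnn : Nat.card G = n at *
  have hcrd : c * r * d = n := by rw [hCN, hNd]
  have hd0 : 0 < d := by
    rcases Nat.eq_zero_or_pos d with h0 | h0
    · rw [h0] at hd1; simp at hd1
    · exact h0
  have hr0 : 0 < r := by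
    rcases Nat.eq_zero_or_pos r with h0 | h0
    · rw [h0] at hr
      have := Nat.eq_zero_of_zero_dvd hr
      omega
    · exact h0
  obtain ⟨c', hc'⟩ := hpC
  have hnp : n / p = c' * r * d := by
    rw [← hcrd, hc']
    have : p * c' * r * d = p * (c' * r * d) := by ring
    rw [this, Nat.mul_div_cancel_left _ hp.pos]
  have hnp0 : 0 < n / p := by
    rw [hnp]
    rcases Nat.eq_zero_or_pos (c' * r * d) with h0 | h0
    · rw [← hcrd, hc'] at hn0
      have : p * c' * r * d = p * (c' * r * d) := by ring
      rw [this, h0] at hn0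
      omega
    · exact h0
  have hmem := mem_cands hp2 hnp0 hdd hd1 hdne
  have hndp : n / (d * p) = c' * r := by
    rw [← hcrd, hc']
    have : p * c' * r * d = (c' * r) * (d * p) := by ring
    rw [this, Nat.mul_div_cancel _ (Nat.mul_pos hd0 hp.pos)]
  have hrg : r ∣ Nat.gcd (p - 1) (n / (d * p)) := by
    apply Nat.dvd_gcd hr
    rw [hndp]
    exact Dvd.intro_left c' rfl
  have hg0 : 0 < Nat.gcd (p - 1) (n / (d * p)) := Nat.gcd_pos_of_pos_left _ (by omega)
  have hrle : r ≤ Nat.gcd (p - 1) (n / (d * p)) := Nat.le_of_dvd hg0 hrg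
  have hndr : n / (d * r) = c := by
    rw [← hcrd]
    have : c * r * d = c * (d * r) := by ring
    rw [this, Nat.mul_div_cancel _ (Nat.mul_pos hd0 hr0)]
  unfold survivors
  rw [List.mem_flatMap]
  refine ⟨d, hmem, ?_⟩
  rw [if_pos (factOK_of_dvd hfact), List.mem_map]
  refine ⟨r, ?_, by rw [hndr]⟩
  rw [List.mem_filter]
  refine ⟨List.mem_range.mpr (by omega), ?_⟩
  have hrf : rFail n p false d r = false := by
    unfold rFail
    rw [hndr]
    rw [Bool.or_eq_false_iff, Bool.or_eq_false_iff]
    refine ⟨⟨by simp, ?_⟩, ?_⟩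
    · by_cases h7 : 7 ≤ p
      · by_cases hr2 : r = 2
        · by_cases hcp : c = p
          · have hN : Nat.card (normalizer ((P : Subgroup G) : Set G)) = p * 2 := by
              rw [← hCN, hcp, hr2]
            have hx : x2ok n p = true := x2ok_of hn0 hp2 (by
              rw [← hnn]
              exact Cfsg.Agent.Lib.Helper17.ExcSimple.degrees_two hG (P : Subgroup G) hp hP
                (hc.trans hcp) hN h7)
            simp [hx]
          · simp [hcp]
        · simp [hr2]
      · simp [h7]
    · rw [List.any_eq_false]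
      intro q hq
      by_cases hqp : q = p
      · simp [hqp]
      · by_cases hqc : c % q = 0
        · have hq' := prime_of_mem_smallPrimes hq
          have hqd := q_data hG P hP q hq' hqp (by rw [hc]; exact Nat.dvd_of_mod_eq_zero hqc) r
          rw [hnn, hd, hc] at hqd
          have := qOK_of hqd
          simp [this]
        · simp [hqc]
  simp only [Bool.and_eq_true, decide_eq_true_eq, beq_iff_eq, Bool.not_eq_true']
  exact ⟨⟨by omega, Nat.mod_eq_zero_of_dvd hrg⟩, hrf⟩

end Cfsg.Agent.Lib.Helper92.J1Surv
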