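import Mathlib
import Cfsg.Agent.Lib.Helper69.J1Stmt
import Cfsg.Agent.Lib.Helper92.J1Surv
import Cfsg.Agent.Lib.Helper17.FixedPoints

/-!
# S4274 / O87780: there is no simple group of order 87780 = 2²·3·5·7·11·19

From the counting principles `Cnt` and `Sum` of helper69's blueprint and the list of surviving
Sylow data (`J1Surv.main`): the Sylow 7-subgroups are self-centralizing with 4180 conjugates, and
the elements of order divisible by 5, by 7 and by 19 are too many.
-/

set_option autoImplicit false

namespace Cfsg.Agent.Lib.Helper92.J1O87780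

open Subgroup
open Cfsg.Agent.Lib.Helper17.Sylow Cfsg.Agent.Lib.Helper17.Sylow2
open Cfsg.Agent.Lib.Helper17.FixedPoints
open Cfsg.Agent.Lib.Helper92.J1Stmt

universe u

theorem s19 : survivors 87780 19 = [(210, 209), (1540, 19)] := by decide +kernel

theorem s11 : survivors 87780 11 =
    [(133, 330), (133, 132), (133, 66), (210, 209), (1596, 11)] := by decide +kernel

theorem s7 : survivors 87780 7 =
    [(190, 231), (190, 154), (190, 77), (330, 133), (1254, 35), (4180, 7)] := by decide +kernel

theorem s5 : survivors 87780 5 = [(231, 190), (231, 95), (266, 165), (2926, 15)] := by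
  decide +kernel

/-- If `q` divides `|C(P)|` then some Sylow `q`-subgroup (of prime order) is centralized
by `P`. -/
theorem cross {G : Type u} [Group G] [Finite G] {p q : ℕ} [Fact p.Prime] [Fact q.Prime]
    (P : Sylow p G) (Q0 : Sylow q G) (hQ0 : Nat.card (Q0 : Subgroup G) = q)
    (hq : q ∣ Nat.card (centralizer ((P : Subgroup G) : Set G))) :
    ∃ Q : Sylow q G,
      Nat.card (P : Subgroup G) ∣ Nat.card (centralizer ((Q : Subgroup G) : Set G)) := by
  obtain ⟨y, hyC, hy⟩ := exists_mem_orderOf_eq_prime _ q hq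
  obtain ⟨Q, hQ⟩ := exists_sylow_eq_zpowers Q0 hQ0 y hy
  refine ⟨Q, Subgroup.card_dvd_of_le ?_⟩
  intro x hx
  rw [hQ, mem_centralizer_iff]
  intro h hh
  rw [SetLike.mem_coe, mem_zpowers_iff] at hh
  obtain ⟨k, rfl⟩ := hh
  have h1 : Commute x y := (mem_centralizer_iff.1 hyC) x hx
  exact (h1.symm.zpow_left k).eq

/-- An element of order divisible by `p` and `q` gives a Sylow `p`-subgroup (of prime order)
whose centralizer has order divisible by `q`. -/
theorem mixed {G : Type u} [Group G] [Finite G] {p q : ℕ} [Fact p.Prime] [Fact q.Prime]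
    (P0 : Sylow p G) (hP0 : Nat.card (P0 : Subgroup G) = p) (g : G) (hp : p ∣ orderOf g)
    (hq : q ∣ orderOf g) :
    ∃ P : Sylow p G, q ∣ Nat.card (centralizer ((P : Subgroup G) : Set G)) := by
  have ho : 0 < orderOf g := orderOf_pos g
  have hx : orderOf (g ^ (orderOf g / p)) = p := orderOf_pow_orderOf_div ho.ne' hp
  have hy : orderOf (g ^ (orderOf g / q)) = q := orderOf_pow_orderOf_div ho.ne' hq
  obtain ⟨P, hP⟩ := exists_sylow_eq_zpowers P0 hP0 _ hx
  refine ⟨P, ?_⟩
  have hmem : g ^ (orderOf g / q) ∈ centralizer ((P : Subgroup G) : Set G) := by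
    rw [hP, mem_centralizer_iff]
    intro h hh
    rw [SetLike.mem_coe, mem_zpowers_iff] at hh
    obtain ⟨k, rfl⟩ := hh
    exact (((Commute.refl g).pow_pow (orderOf g / p) (orderOf g / q)).zpow_left k).eq
  have := Subgroup.orderOf_dvd_natCard _ hmem
  rwa [hy] at this

theorem main : Cfsg.Agent.Lib.Helper69.J1Stmt.O87780.{u} := by
  intro hCnt hSum X _ _ _ hcard
  haveI : Fact (Nat.Prime 5) := ⟨by norm_num⟩
  haveI : Fact (Nat.Prime 7) := ⟨by norm_num⟩
  haveI : Fact (Nat.Prime 11) := ⟨by norm_num⟩
  haveI : Fact (Nat.Prime 19) := ⟨by norm_num⟩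
  have hX : ¬ IsMulCommutative X := not_comm_of_not_prime (by rw [hcard]; norm_num)
  have o5 : ∀ P : Sylow 5 X, Nat.card (P : Subgroup X) = 5 := fun P => by
    have := card_sylow_subgroup (p := 5) (k := 1) (m := 17556) (by rw [hcard]; norm_num) (by norm_num) P
    simpa using this
  have o7 : ∀ P : Sylow 7 X, Nat.card (P : Subgroup X) = 7 := fun P => by
    have := card_sylow_subgroup (p := 7) (k := 1) (m := 12540) (by rw [hcard]; norm_num) (by norm_num) P
    simpa using this
  have o11 : ∀ P : Sylow 11 X, Nat.card (P : Subgroup X) = 11 := fun P => by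
    have := card_sylow_subgroup (p := 11) (k := 1) (m := 7980) (by rw [hcard]; norm_num) (by norm_num) P
    simpa using this
  have o19 : ∀ P : Sylow 19 X, Nat.card (P : Subgroup X) = 19 := fun P => by
    have := card_sylow_subgroup (p := 19) (k := 1) (m := 4620) (by rw [hcard]; norm_num) (by norm_num) P
    simpa using this
  have d19 : ∀ P : Sylow 19 X,
      (Nat.card (Sylow 19 X) = 210 ∧
        Nat.card (centralizer ((P : Subgroup X) : Set X)) = 209) ∨
      (Nat.card (Sylow 19 X) = 1540 ∧
        Nat.card (centralizer ((P : Subgroup X) : Set X)) = 19) := fun P => by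
    have h := J1Surv.main X hX 19 P (o19 P)
    rw [hcard, s19] at h
    simpa using h
  have d11 : ∀ P : Sylow 11 X,
      Nat.card (centralizer ((P : Subgroup X) : Set X)) = 330 ∨
      Nat.card (centralizer ((P : Subgroup X) : Set X)) = 132 ∨
      Nat.card (centralizer ((P : Subgroup X) : Set X)) = 66 ∨
      Nat.card (centralizer ((P : Subgroup X) : Set X)) = 209 ∨
      Nat.card (centralizer ((P : Subgroup X) : Set X)) = 11 := fun P => by
    have h := J1Surv.main X hX 11 P (o11 P)
    rw [hcard, s11] at h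
    simp only [List.mem_cons, Prod.mk.injEq, List.not_mem_nil, or_false] at h
    omega
  have d5 : ∀ P : Sylow 5 X,
      (Nat.card (Sylow 5 X) = 231 ∧
        Nat.card (centralizer ((P : Subgroup X) : Set X)) = 190) ∨
      (Nat.card (Sylow 5 X) = 231 ∧
        Nat.card (centralizer ((P : Subgroup X) : Set X)) = 95) ∨
      (Nat.card (Sylow 5 X) = 266 ∧
        Nat.card (centralizer ((P : Subgroup X) : Set X)) = 165) ∨
      (Nat.card (Sylow 5 X) = 2926 ∧
        Nat.card (centralizer ((P : Subgroup X) : Set X)) = 15) := fun P => by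
    have h := J1Surv.main X hX 5 P (o5 P)
    rw [hcard, s5] at h
    simpa using h
  obtain ⟨Q5⟩ : Nonempty (Sylow 5 X) := inferInstance
  obtain ⟨Q7⟩ : Nonempty (Sylow 7 X) := inferInstance
  obtain ⟨Q11⟩ : Nonempty (Sylow 11 X) := inferInstance
  obtain ⟨Q19⟩ : Nonempty (Sylow 19 X) := inferInstance
  have e7 : ∀ P : Sylow 7 X, Nat.card (Sylow 7 X) = 4180 ∧
      Nat.card (centralizer ((P : Subgroup X) : Set X)) = 7 := by
    intro P
    have h := J1Surv.main X hX 7 P (o7 P)
    rw [hcard, s7] at h
    simp only [List.mem_cons, Prod.mk.injEq, List.not_mem_nil, or_false] at h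
    have k11 : ¬ 11 ∣ Nat.card (centralizer ((P : Subgroup X) : Set X)) := by
      intro hd
      obtain ⟨Q, hQ⟩ := cross P Q11 (o11 Q11) hd
      rw [o7 P] at hQ
      have := d11 Q
      omega
    have k19 : ¬ 19 ∣ Nat.card (centralizer ((P : Subgroup X) : Set X)) := by
      intro hd
      obtain ⟨Q, hQ⟩ := cross P Q19 (o19 Q19) hd
      rw [o7 P] at hQ
      have := d19 Q
      omega
    have k5 : ¬ 5 ∣ Nat.card (centralizer ((P : Subgroup X) : Set X)) := by
      intro hd
      obtain ⟨Q, hQ⟩ := cross P Q5 (o5 Q5) hd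
      rw [o7 P] at hQ
      have := d5 Q
      omega
    omega
  have e5 : ∀ P : Sylow 5 X,
      (Nat.card (Sylow 5 X) = 266 ∧
        Nat.card (centralizer ((P : Subgroup X) : Set X)) = 165) ∨
      (Nat.card (Sylow 5 X) = 2926 ∧
        Nat.card (centralizer ((P : Subgroup X) : Set X)) = 15) := by
    intro P
    have h := d5 P
    have k19 : ¬ 19 ∣ Nat.card (centralizer ((P : Subgroup X) : Set X)) := by
      intro hd
      obtain ⟨Q, hQ⟩ := cross P Q19 (o19 Q19) hd
      rw [o5 P] at hQ
      have := d19 Q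
      omega
    omega
  have A7 : 25080 ≤ Nat.card {g : X // 7 ∣ orderOf g} := by
    have h := hCnt X 7 Q7 (o7 Q7)
    have hN := card_normalizer_mul_card_sylow Q7
    rw [(e7 Q7).1, hcard] at hN
    rw [(e7 Q7).2, hcard] at h
    have hN' : Nat.card (normalizer ((Q7 : Subgroup X) : Set X)) = 21 := by omega
    rw [hN'] at h
    omega
  have A5 : 35112 ≤ Nat.card {g : X // 5 ∣ orderOf g} := by
    have h := hCnt X 5 Q5 (o5 Q5)
    have hN := card_normalizer_mul_card_sylow Q5
    rw [hcard] at hN h
    rcases e5 Q5 with ⟨h1, h2⟩ | ⟨h1, h2⟩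
    · rw [h1] at hN
      rw [h2] at h
      have hN' : Nat.card (normalizer ((Q5 : Subgroup X) : Set X)) = 330 := by omega
      rw [hN'] at h
      omega
    · rw [h1] at hN
      rw [h2] at h
      have hN' : Nat.card (normalizer ((Q5 : Subgroup X) : Set X)) = 30 := by omega
      rw [hN'] at h
      omega
  have A19 : 27720 ≤ Nat.card {g : X // 19 ∣ orderOf g} := by
    have h := hCnt X 19 Q19 (o19 Q19)
    have hN := card_normalizer_mul_card_sylow Q19
    rw [hcard] at hN h
    rcases d19 Q19 with ⟨h1, h2⟩ | ⟨h1, h2⟩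
    · rw [h1] at hN
      rw [h2] at h
      have hN' : Nat.card (normalizer ((Q19 : Subgroup X) : Set X)) = 418 := by omega
      rw [hN'] at h
      omega
    · rw [h1] at hN
      rw [h2] at h
      have hN' : Nat.card (normalizer ((Q19 : Subgroup X) : Set X)) = 57 := by omega
      rw [hN'] at h
      omega
  have n57 : ∀ g : X, 5 ∣ orderOf g → 7 ∣ orderOf g → False := by
    intro g h5 h7
    obtain ⟨P, hP⟩ := mixed (p := 7) (q := 5) Q7 (o7 Q7) g h7 h5
    rw [(e7 P).2] at hP
    omega
  have n519 : ∀ g : X, 5 ∣ orderOf g → 19 ∣ orderOf g → False := by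
    intro g h5 h19
    obtain ⟨P, hP⟩ := mixed (p := 19) (q := 5) Q19 (o19 Q19) g h19 h5
    have := d19 P
    omega
  have n719 : ∀ g : X, 7 ∣ orderOf g → 19 ∣ orderOf g → False := by
    intro g h7 h19
    obtain ⟨P, hP⟩ := mixed (p := 7) (q := 19) Q7 (o7 Q7) g h7 h19
    rw [(e7 P).2] at hP
    omega
  have hS := hSum X {5, 7, 19}
    (by
      intro p hp
      simp only [Finset.mem_insert, Finset.mem_singleton] at hp
      rcases hp with rfl | rfl | rfl <;> norm_num)
    (by
      intro p hp q hq hpq g hg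
      obtain ⟨h1, h2⟩ := hg
      simp only [Finset.mem_insert, Finset.mem_singleton] at hp hq
      rcases hp with rfl | rfl | rfl <;> rcases hq with rfl | rfl | rfl
      · exact hpq rfl
      · exact n57 g h1 h2
      · exact n519 g h1 h2
      · exact n57 g h2 h1
      · exact hpq rfl
      · exact n719 g h1 h2
      · exact n519 g h2 h1
      · exact n719 g h2 h1
      · exact hpq rfl)
  rw [Finset.sum_insert (by decide), Finset.sum_insert (by decide), Finset.sum_singleton,
    hcard] at hS
  omega

end Cfsg.Agent.Lib.Helper92.J1O87780
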