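import Mathlib
import Cfsg.Agent.Lib.Helper92.LeechChar3
import Cfsg.Agent.Lib.Helper92.MinVec
import Cfsg.Agent.Lib.Helper8.CodeSpan2
import Cfsg.Agent.S0375

/-!
Characterisation of the Leech lattice, part 4: the lattice of coordinates with respect to a frame
is the standard lattice up to a permutation and sign changes of the coordinates.
-/

set_option autoImplicit false

namespace Cfsg.Agent.Lib.Helper92.LeechChar4

open Cfsg Cfsg.Agent.Lib.Helper92.LeechChar2 Cfsg.Agent.Lib.Helper92.LeechChar3
  Cfsg.Agent.Lib.Helper92.MinVec Cfsg.Agent.Lib.Helper92.LeechCore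

variable {M : AddSubgroup (Fin 24 → ℤ)}

/-- Transport of a vector along a bijection of the coordinates and a sign vector. -/
def tr (e : Fin 24 ≃ GolayPt) (ε : Fin 24 → ℤ) (m : Fin 24 → ℤ) : GolayPt → ℤ :=
  fun p => ε (e.symm p) * m (e.symm p)

theorem tr_sub (e : Fin 24 ≃ GolayPt) (ε : Fin 24 → ℤ) (m m' : Fin 24 → ℤ) :
    tr e ε (m - m') = tr e ε m - tr e ε m' := by
  funext p
  simp only [tr, Pi.sub_apply]
  ring

theorem sum_tr (e : Fin 24 ≃ GolayPt) (ε : Fin 24 → ℤ) (m : Fin 24 → ℤ) :
    ∑ p, tr e ε m p = ∑ i, ε i * m i :=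
  Equiv.sum_comp e.symm (fun i => ε i * m i)

/-- Membership of a support in the family of supports of the code, via the word. -/
theorem isCW_iff (w : GolayPt → ZMod 2) : IsCW (support₂ w) ↔ w ∈ golayCode := by
  constructor
  · rintro ⟨w', hw', hS⟩
    have h1 : w' = w := by
      rw [← Cfsg.Agent.Lib.Helper8.CodeSpan2.ind_support w',
        ← Cfsg.Agent.Lib.Helper8.CodeSpan2.ind_support w, hS]
    rw [← h1]
    exact hw'
  · intro hw
    exact ⟨w, hw, rfl⟩

theorem recognise (h : Hyp M)
    (hcount : {m : Fin 24 → ℤ | m ∈ M ∧ ∑ i, m i ^ 2 = 32}.ncard = 196560) :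
    ∃ (e : Fin 24 ≃ GolayPt) (ε : Fin 24 → ℤ), (∀ i, ε i = 1 ∨ ε i = -1) ∧
      ∀ m : Fin 24 → ℤ, m ∈ M ↔ tr e ε m ∈ leechLattice := by
  classical
  obtain ⟨hdim, m0, hm0, hodd0⟩ := finrank_eq h hcount
  obtain ⟨e, he⟩ := Cfsg.Agent.S0375.result (code M) hdim (fun v hv w hw => orth h hv hw)
    (fun w hw => (weight h hw).1) (by
      intro w hw
      by_cases hw0 : w = 0
      · rw [hw0, hammingNorm_zero]; norm_num
      · have := (weight h hw).2 hw0
        omega)
  obtain ⟨ε, hεdef⟩ : ∃ ε : Fin 24 → ℤ, ε = fun i => if m0 i % 4 = 1 then 1 else -1 := ⟨_, rfl⟩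
  have hε : ∀ i, ε i = 1 ∨ ε i = -1 := by
    intro i
    rw [hεdef]
    by_cases hi : m0 i % 4 = 1
    · left; simp only [hi, if_true]
    · right; simp only [hi, if_false]
  have hεm0 : ∀ i, (ε i - m0 i) % 4 = 0 := by
    intro i
    have := hodd0 i
    rw [hεdef]
    by_cases hi : m0 i % 4 = 1
    · simp only [hi, if_true]; omega
    · simp only [hi, if_false]; omega
  refine ⟨e, ε, hε, ?_⟩
  -- parity of transported vectors
  have htr_par : ∀ (m : Fin 24 → ℤ) (p : GolayPt), tr e ε m p % 2 = m (e.symm p) % 2 := by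
    intro m p
    unfold tr
    rcases hε (e.symm p) with h1 | h1 <;> rw [h1] <;> omega
  -- F1: sums of even vectors
  have F1 : ∀ m ∈ M, (∀ i, m i % 2 = 0) → (∑ i, ε i * m i) % 8 = 0 := by
    intro m hm hev
    have h1 := h.dot m0 hm0 m hm
    have h2 : (8 : ℤ) ∣ ∑ i, (ε i * m i - m0 i * m i) := by
      apply Finset.dvd_sum
      intro i _
      have a := hεm0 i
      have b := hev i
      obtain ⟨k, hk⟩ := Int.dvd_of_emod_eq_zero a
      obtain ⟨l, hl⟩ := Int.dvd_of_emod_eq_zero b
      refine ⟨k * l, ?_⟩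
      have : ε i * m i - m0 i * m i = (ε i - m0 i) * m i := by ring
      rw [this, hk, hl]; ring
    rw [Finset.sum_sub_distrib] at h2
    omega
  -- F2: the odd vector
  have F2 : tr e ε m0 ∈ leechLattice := by
    have hodd : ∀ p, tr e ε m0 p % 2 = 1 := fun p => by rw [htr_par]; exact hodd0 _
    rw [mem_iff_odd hodd]
    have hmod : ∀ i, (ε i * m0 i) % 4 = 1 := by
      intro i
      have a := hεm0 i
      have b := hodd0 i
      rcases hε i with h1 | h1 <;> rw [h1] at a ⊢ <;> omega
    constructor
    · have hempty : (Finset.univ.filter fun p => tr e ε m0 p % 4 = 3) = ∅ := by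
        apply Finset.filter_false_of_mem
        intro p _
        have := hmod (e.symm p)
        unfold tr
        omega
      rw [hempty]
      exact empty_mem
    · rw [sum_tr]
      have h16 := h.sq16 m0 hm0
      have h3 : (16 : ℤ) ∣ ∑ i, ((ε i * m0 i) ^ 2 - 2 * (ε i * m0 i) + 1) := by
        apply Finset.dvd_sum
        intro i _
        have a := hmod i
        obtain ⟨k, hk⟩ : ∃ k, ε i * m0 i = 4 * k + 1 := ⟨(ε i * m0 i) / 4, by omega⟩
        rw [hk]
        exact ⟨k ^ 2, by ring⟩
      have h4 : ∑ i, ((ε i * m0 i) ^ 2 - 2 * (ε i * m0 i) + 1)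
          = ∑ i, m0 i ^ 2 - 2 * ∑ i, ε i * m0 i + 24 := by
        rw [Finset.sum_add_distrib, Finset.sum_sub_distrib, ← Finset.mul_sum]
        congr 1
        · congr 1
          apply Finset.sum_congr rfl
          intro i _
          rcases hε i with h1 | h1 <;> rw [h1] <;> ring
      rw [h4] at h3
      omega
  -- F3: even vectors
  have F3 : ∀ m : Fin 24 → ℤ, (∀ i, m i % 2 = 0) → (m ∈ M ↔ tr e ε m ∈ leechLattice) := by
    intro m hev
    have hev' : ∀ p, tr e ε m p % 2 = 0 := fun p => by rw [htr_par]; exact hev _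
    rw [mem_iff_even hev', sum_tr]
    have hsupp : (Finset.univ.filter fun p => tr e ε m p % 4 = 2)
        = support₂ (fun p => (((m (e.symm p) / 2 : ℤ)) : ZMod 2)) := by
      unfold support₂
      apply Finset.filter_congr
      intro p _
      rw [Ne, cast_eq_zero_iff]
      have a := hev (e.symm p)
      unfold tr
      rcases hε (e.symm p) with h1 | h1 <;> rw [h1] <;> omega
    rw [hsupp, isCW_iff, he]
    have hfun : (fun i => (fun p => (((m (e.symm p) / 2 : ℤ)) : ZMod 2)) (e i))
        = fun i => (((m i / 2 : ℤ)) : ZMod 2) := by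
      funext i
      simp only [Equiv.symm_apply_apply]
    rw [hfun]
    have hz : (2 : ℤ) • (fun i => m i / 2) = m := by
      funext i
      simp only [Pi.smul_apply, smul_eq_mul]
      have := hev i
      omega
    constructor
    · intro hm
      exact ⟨⟨fun i => m i / 2, by rw [hz]; exact hm, fun i => rfl⟩, F1 m hm hev⟩
    · rintro ⟨⟨z0, hz0, hzw⟩, hs⟩
      rw [← hz]
      have hc : ∀ i, (m i / 2) % 2 = z0 i % 2 := by
        intro i
        have := hzw i
        rw [cast_eq_cast_iff] at this
        omega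
      apply two_smul_congr h hz0 hc
      have hs0 := F1 _ hz0 (by
        intro i
        simp only [Pi.smul_apply, smul_eq_mul]
        omega)
      have h5 : (4 : ℤ) ∣ ∑ i, ((m i / 2 - z0 i) - (ε i * m i - ε i * ((2 : ℤ) • z0) i) / 2) := by
        apply Finset.dvd_sum
        intro i _
        have a := hev i
        have b := hc i
        simp only [Pi.smul_apply, smul_eq_mul]
        rcases hε i with h1 | h1 <;> rw [h1] <;> omega
      have h6 : ∑ i, (ε i * m i - ε i * ((2 : ℤ) • z0) i) / 2
          = (∑ i, ε i * m i - ∑ i, ε i * ((2 : ℤ) • z0) i) / 2 := by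
        rw [← Finset.sum_sub_distrib]
        have h7 : ∑ i, (ε i * m i - ε i * ((2 : ℤ) • z0) i)
            = 2 * ∑ i, (ε i * m i - ε i * ((2 : ℤ) • z0) i) / 2 := by
          rw [Finset.mul_sum]
          apply Finset.sum_congr rfl
          intro i _
          have a := hev i
          simp only [Pi.smul_apply, smul_eq_mul]
          rcases hε i with h1 | h1 <;> rw [h1] <;> omega
        rw [h7]
        simp
      rw [Finset.sum_sub_distrib, h6] at h5
      omega
  -- general vectors
  intro m
  have hsub0 : ∀ i, m i % 2 = 1 → (m - m0) i % 2 = 0 := by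
    intro i hi
    have := hodd0 i
    simp only [Pi.sub_apply]
    omega
  constructor
  · intro hm
    have hpar : (∀ i, m i % 2 = 0) ∨ (∀ i, m i % 2 = 1) := by
      rcases Int.emod_two_eq_zero_or_one (m 0) with h0 | h0
      · left; intro i; have := h.par m hm i 0; omega
      · right; intro i; have := h.par m hm i 0; omega
    rcases hpar with hev | hodd
    · exact (F3 m hev).mp hm
    · have h1 := (F3 (m - m0) (fun i => hsub0 i (hodd i))).mp (M.sub_mem hm hm0)
      rw [tr_sub] at h1
      have := leechLattice.add_mem h1 F2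
      rwa [sub_add_cancel] at this
  · intro hm
    rcases parity hm with hev | hodd
    · exact (F3 m (fun i => by
        have := hev (e i)
        rw [htr_par, Equiv.symm_apply_apply] at this
        exact this)).mpr hm
    · have hodd' : ∀ i, m i % 2 = 1 := fun i => by
        have := hodd (e i)
        rw [htr_par, Equiv.symm_apply_apply] at this
        exact this
      have h1 : tr e ε (m - m0) ∈ leechLattice := by
        rw [tr_sub]
        exact leechLattice.sub_mem hm F2
      have h2 := (F3 (m - m0) (fun i => hsub0 i (hodd' i))).mpr h1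
      have := M.add_mem h2 hm0
      rwa [sub_add_cancel] at this

end Cfsg.Agent.Lib.Helper92.LeechChar4
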