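import Mathlib
import Cfsg.Agent.Lib.Helper38.Sp4Stmt

/-!
# S5320 / Q8T: an element of `SL₂(F)` acting on `Qst` by signs lies in `Qst`

If `a` commutes or anticommutes with `w0` and with `yy`, then one of `a`, `a * yy`, `a * w0`,
`a * (w0 * yy)` commutes with both, hence is `±1`.
-/

set_option autoImplicit false

namespace Cfsg.Agent.Lib.Helper92.Sp4Q8T

open Matrix Cfsg.Agent.Lib.Helper42.SL2Odd Cfsg.Agent.H85.PSL2Inv
open Cfsg.Agent.Lib.Helper38.Sp4Stmt

universe u

variable {F : Type u} [Field F]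

local notation "SL2F" => Matrix.SpecialLinearGroup (Fin 2) F

theorem yy_entries (x y : F) (h : x ^ 2 + y ^ 2 = -1) :
    (yy x y h : SL2F) 0 0 = x ∧ (yy x y h : SL2F) 0 1 = y ∧ (yy x y h : SL2F) 1 0 = y ∧
      (yy x y h : SL2F) 1 1 = -x := ⟨rfl, rfl, rfl, rfl⟩

/-- `yy` anticommutes with `w0`. -/
theorem yy_anti (x y : F) (h : x ^ 2 + y ^ 2 = -1) :
    yy x y h * Cfsg.Agent.H85.PSL2Inv.w0 = -(Cfsg.Agent.H85.PSL2Inv.w0 * yy x y h) := by
  rw [anti_w0_iff]
  obtain ⟨e00, e01, e10, e11⟩ := yy_entries x y h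
  exact ⟨by rw [e00, e11, neg_neg], by rw [e01, e10]⟩

/-- An element commuting with `w0` and `yy` is `±1`. -/
theorem key (x y : F) (h : x ^ 2 + y ^ 2 = -1) (h2 : (2 : F) ≠ 0) (b : SL2F)
    (hw : b * Cfsg.Agent.H85.PSL2Inv.w0 = Cfsg.Agent.H85.PSL2Inv.w0 * b)
    (hy : b * yy x y h = yy x y h * b) : b = 1 ∨ b = -1 := by
  obtain ⟨h1, h2'⟩ := (comm_w0_iff b).mp hw
  obtain ⟨e00, e01, e10, e11⟩ := yy_entries x y h
  obtain ⟨a00, a01, a10, a11⟩ := mul_entries b (yy x y h)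
  obtain ⟨b00, b01, b10, b11⟩ := mul_entries (yy x y h) b
  obtain ⟨o00, o01, o10, o11⟩ := one_entries (F := F)
  have hd := det_eq b
  have c00 : (b * yy x y h : SL2F) 0 0 = (yy x y h * b : SL2F) 0 0 := by rw [hy]
  have c01 : (b * yy x y h : SL2F) 0 1 = (yy x y h * b : SL2F) 0 1 := by rw [hy]
  rw [a00, b00, e00, e10, e01, h2'] at c00
  rw [a01, b01, e01, e11, e00, h2', ← h1] at c01
  have hqy : b 1 0 * y = 0 := by
    have h3 : (2 : F) * (b 1 0 * y) = 0 := by linear_combination -c00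
    rcases mul_eq_zero.1 h3 with h4 | h4
    · exact absurd h4 h2
    · exact h4
  have hqx : b 1 0 * x = 0 := by
    have h3 : (2 : F) * (b 1 0 * x) = 0 := by linear_combination c01
    rcases mul_eq_zero.1 h3 with h4 | h4
    · exact absurd h4 h2
    · exact h4
  have hq : b 1 0 = 0 := by linear_combination (-x) * hqx - y * hqy + b 1 0 * h
  have hp : (b 0 0 - 1) * (b 0 0 + 1) = 0 := by
    rw [← h1, h2', hq] at hd
    linear_combination hd
  rcases mul_eq_zero.1 hp with hp1 | hp1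
  · left
    apply ext_entries
    · rw [o00]; linear_combination hp1
    · rw [o01, h2', hq, neg_zero]
    · rw [o10, hq]
    · rw [o11, ← h1]; linear_combination hp1
  · right
    apply ext_entries
    · rw [neg_entries, o00]; linear_combination hp1
    · rw [neg_entries, o01, h2', hq, neg_zero]
    · rw [neg_entries, o10, hq, neg_zero]
    · rw [neg_entries, o11, ← h1]; linear_combination hp1

theorem q8t (x y : F) (h : x ^ 2 + y ^ 2 = -1) (h2 : (2 : F) ≠ 0) (a : SL2F)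
    (ha : ∀ c ∈ Qst x y h, a * c * a⁻¹ = c ∨ a * c * a⁻¹ = -1 * c) : a ∈ Qst x y h := by
  have hyw := yy_anti x y h
  have hwy : Cfsg.Agent.H85.PSL2Inv.w0 * yy x y h
      = -(yy x y h * Cfsg.Agent.H85.PSL2Inv.w0) := by rw [hyw, neg_neg]
  have hww : (Cfsg.Agent.H85.PSL2Inv.w0 : SL2F) * Cfsg.Agent.H85.PSL2Inv.w0 = -1 :=
    sq_of_trace_zero (by rw [w0_00, w0_11]; ring)
  have hwC : (Cfsg.Agent.H85.PSL2Inv.w0 : SL2F) ∈ Cst F := by
    apply Subgroup.subset_closure
    refine ⟨rfl, 2, ?_⟩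
    have e : (2 : ℕ) ^ 2 = 2 * 2 := rfl
    rw [e, pow_mul, pow_two, pow_two, hww, neg_mul_neg, one_mul]
  have hwQ : (Cfsg.Agent.H85.PSL2Inv.w0 : SL2F) ∈ Qst x y h :=
    Subgroup.subset_closure (Or.inl hwC)
  have hyQ : yy x y h ∈ Qst x y h := Subgroup.subset_closure (Or.inr rfl)
  have h1Q : (-1 : SL2F) ∈ Qst x y h := by
    rw [← hww]
    exact Subgroup.mul_mem _ hwQ hwQ
  have fin : ∀ m ∈ Qst x y h, (a * m = 1 ∨ a * m = -1) → a ∈ Qst x y h := by
    intro m hm hb
    have e : a = (a * m) * m⁻¹ := by group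
    rw [e]
    rcases hb with hb | hb
    · rw [hb]
      exact Subgroup.mul_mem _ (Subgroup.one_mem _) (Subgroup.inv_mem _ hm)
    · rw [hb]
      exact Subgroup.mul_mem _ h1Q (Subgroup.inv_mem _ hm)
  have hc : ∀ c : SL2F, a * c * a⁻¹ = c → a * c = c * a := fun c hc =>
    mul_inv_eq_iff_eq_mul.1 hc
  have hc' : ∀ c : SL2F, a * c * a⁻¹ = -1 * c → a * c = -(c * a) := fun c hc => by
    have h3 := mul_inv_eq_iff_eq_mul.1 hc
    rw [h3, neg_one_mul, neg_mul]
  rcases ha _ hwQ with haw | haw <;> rcases ha _ hyQ with hay | hay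
  · -- commutes with both
    have haw' := hc _ haw
    have hay' := hc _ hay
    exact fin 1 (Subgroup.one_mem _) (by rw [mul_one]; exact key x y h h2 a haw' hay')
  · -- commutes with `w0`, anticommutes with `yy`
    have haw' := hc _ haw
    have hay' := hc' _ hay
    refine fin _ hwQ (key x y h h2 _ ?_ ?_)
    · rw [haw', mul_assoc, haw']
    · calc a * Cfsg.Agent.H85.PSL2Inv.w0 * yy x y h
          = a * (Cfsg.Agent.H85.PSL2Inv.w0 * yy x y h) := mul_assoc _ _ _
        _ = -(a * yy x y h * Cfsg.Agent.H85.PSL2Inv.w0) := by rw [hwy, mul_neg, mul_assoc]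
        _ = yy x y h * (a * Cfsg.Agent.H85.PSL2Inv.w0) := by
          rw [hay', neg_mul, neg_neg, mul_assoc]
  · -- anticommutes with `w0`, commutes with `yy`
    have haw' := hc' _ haw
    have hay' := hc _ hay
    refine fin _ hyQ (key x y h h2 _ ?_ ?_)
    · calc a * yy x y h * Cfsg.Agent.H85.PSL2Inv.w0
          = a * (yy x y h * Cfsg.Agent.H85.PSL2Inv.w0) := mul_assoc _ _ _
        _ = -(a * Cfsg.Agent.H85.PSL2Inv.w0 * yy x y h) := by rw [hyw, mul_neg, mul_assoc]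
        _ = Cfsg.Agent.H85.PSL2Inv.w0 * (a * yy x y h) := by
          rw [haw', neg_mul, neg_neg, mul_assoc]
    · rw [hay', mul_assoc, hay']
  · -- anticommutes with both
    have haw' := hc' _ haw
    have hay' := hc' _ hay
    refine fin _ (Subgroup.mul_mem _ hwQ hyQ) (key x y h h2 _ ?_ ?_)
    · calc a * (Cfsg.Agent.H85.PSL2Inv.w0 * yy x y h) * Cfsg.Agent.H85.PSL2Inv.w0
          = a * Cfsg.Agent.H85.PSL2Inv.w0 * (yy x y h * Cfsg.Agent.H85.PSL2Inv.w0) := by
            simp only [mul_assoc]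
        _ = -(a * Cfsg.Agent.H85.PSL2Inv.w0 * (Cfsg.Agent.H85.PSL2Inv.w0 * yy x y h)) := by
            rw [hyw, mul_neg]
        _ = Cfsg.Agent.H85.PSL2Inv.w0 * (a * (Cfsg.Agent.H85.PSL2Inv.w0 * yy x y h)) := by
            rw [haw', neg_mul, neg_neg, mul_assoc]
    · have hya : yy x y h * a = -(a * yy x y h) := by rw [hay', neg_neg]
      calc a * (Cfsg.Agent.H85.PSL2Inv.w0 * yy x y h) * yy x y h
          = -(a * (-(Cfsg.Agent.H85.PSL2Inv.w0 * yy x y h)) * yy x y h) := by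
            rw [mul_neg, neg_mul, neg_neg]
        _ = -(a * yy x y h * (Cfsg.Agent.H85.PSL2Inv.w0 * yy x y h)) := by
            rw [← hyw]
            simp only [mul_assoc]
        _ = yy x y h * (a * (Cfsg.Agent.H85.PSL2Inv.w0 * yy x y h)) := by
            rw [← mul_assoc (yy x y h) a, hya, neg_mul]

theorem main : Q8T.{u} := by
  intro F _ x y h h2 _ a ha
  exact q8t x y h h2 a ha

end Cfsg.Agent.Lib.Helper92.Sp4Q8T
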